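import Cfsg.Agent.Lib.PSLTwo.ClassSizes
import Cfsg.Agent.Lib.Chev.TwistG2ReeSylow

/-! The facts on `PSL₂(q)`, `q ≡ 3 (mod 8)`, used for the tori of the Ree groups. -/

set_option autoImplicit false

open Matrix
open scoped MatrixGroups

namespace Cfsg.Agent.Lib.ReeTwoTori

open Cfsg.Agent.Lib.PSLTwo

variable {F : Type*} [Field F] [Fintype F]

theorem card_psl (hq : Fintype.card F % 8 = 3) :
    2 * Nat.card (Matrix.ProjectiveSpecialLinearGroup (Fin 2) F) =
      Fintype.card F * (Fintype.card F ^ 2 - 1) :=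
  Classical.two_mul_card_PSL_two_of_odd (Nat.odd_iff.2 (by omega))

theorem card_centralizer_eq [DecidableEq F] (g : Matrix.ProjectiveSpecialLinearGroup (Fin 2) F) :
    Nat.card (Subgroup.centralizer {g}) =
      Nat.card (Subgroup.centralizer {(pslEquiv g : PGL(2, F))} ⊓ Lsub F : Subgroup PGL(2, F)) := by
  have h := index_centralizer_psl g
  rw [card_Lsub, ← Subgroup.card_mul_index (Subgroup.centralizer {g}), mul_comm] at h
  exact (Nat.eq_of_mul_eq_mul_right (Nat.pos_of_ne_zero Subgroup.index_ne_zero_of_finite) h).symm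

/-- An element of odd prime order dividing `q + 1`. -/
theorem cent_plus (hq : Fintype.card F % 8 = 3) {g : Matrix.ProjectiveSpecialLinearGroup (Fin 2) F}
    {r : ℕ} (hr : r.Prime) (h2 : r ≠ 2) (hrq : r ∣ Fintype.card F + 1) (hg : orderOf g = r) :
    2 * Nat.card (Subgroup.centralizer {g}) = Fintype.card F + 1 ∧
      IsCyclic (Subgroup.centralizer {g}) := by
  classical
  have hodd : Odd (Fintype.card F) := Nat.odd_iff.2 (by omega)
  obtain ⟨E, _, _, _, hE⟩ := exists_quadExt F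
  obtain ⟨p, hpc⟩ := CharP.exists F
  haveI : Fact p.Prime := ⟨CharP.char_is_prime F p⟩
  set a : PGL(2, F) := (pslEquiv g : PGL(2, F)) with hadef
  have ha : orderOf a = r := by rw [hadef, Subgroup.orderOf_coe, MulEquiv.orderOf_eq, hg]
  have ha1 : a ≠ 1 := fun h => by rw [h, orderOf_one] at ha; exact hr.ne_one ha.symm
  have haa : a * a ≠ 1 := fun h => by
    have := Nat.le_of_dvd two_pos (orderOf_dvd_of_pow_eq_one (show a ^ 2 = 1 by rw [sq, h]))
    have := hr.two_le
    omega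
  rcases kinds (p := p) hE ha1 with ⟨hp, -, -⟩ | ⟨T, n, haT, hT, hn⟩
  · exfalso
    obtain ⟨k, hp', hk⟩ := FiniteField.card F p
    have hrp : r = p := (Nat.prime_dvd_prime_iff_eq hr hp').1 (ha ▸ orderOf_dvd_of_pow_eq_one hp)
    subst hrp
    have : r ∣ Fintype.card F := hk ▸ dvd_pow_self r k.pos.ne'
    exact hr.not_dvd_one ((Nat.dvd_add_right this).1 hrq)
  · have hrn : r ∣ n := ha ▸ hT.card ▸ Subgroup.orderOf_dvd_natCard _ haT
    have hn' : n = Fintype.card F + 1 := by
      rcases hn with rfl | rfl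
      · exfalso
        have := Nat.dvd_sub hrq hrn
        rw [show Fintype.card F + 1 - (Fintype.card F - 1) = 2 by omega] at this
        exact h2 ((Nat.prime_dvd_prime_iff_eq hr Nat.prime_two).1 this)
      · rfl
    have hC := (hT.cent a haT ha1).1 haa
    have h3 := inf_torus_card hT hodd
    refine ⟨by rw [card_centralizer_eq, ← hadef, hC, h3, hn'], ?_⟩
    haveI := hT.cyc
    let f : Subgroup.centralizer {g} →* T :=
      { toFun := fun x => ⟨(pslEquiv (x : Matrix.ProjectiveSpecialLinearGroup (Fin 2) F) : PGL(2, F)), by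
          rw [← hC, Subgroup.mem_centralizer_singleton_iff, hadef, ← Subgroup.coe_mul, ← map_mul,
            Subgroup.mem_centralizer_singleton_iff.1 x.2, map_mul, Subgroup.coe_mul]⟩
        map_one' := Subtype.ext (by simp)
        map_mul' := fun x y => Subtype.ext (by simp) }
    refine isCyclic_of_injective f fun x y h => Subtype.ext (pslEquiv.injective (Subtype.ext ?_))
    exact congrArg (fun z : T => (z : PGL(2, F))) h

/-- The centraliser of an involution. -/
theorem cent_involution (hq : Fintype.card F % 8 = 3) {g : Matrix.ProjectiveSpecialLinearGroup (Fin 2) F}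
    (hg : orderOf g = 2) : Nat.card (Subgroup.centralizer {g}) = Fintype.card F + 1 := by
  classical
  have hodd : Odd (Fintype.card F) := Nat.odd_iff.2 (by omega)
  obtain ⟨E, _, _, _, hE⟩ := exists_quadExt F
  obtain ⟨p, hpc⟩ := CharP.exists F
  haveI : Fact p.Prime := ⟨CharP.char_is_prime F p⟩
  set a : PGL(2, F) := (pslEquiv g : PGL(2, F)) with hadef
  have hao : orderOf a = 2 := by rw [hadef, Subgroup.orderOf_coe, MulEquiv.orderOf_eq, hg]
  have ha1 : a ≠ 1 := fun h => by rw [h, orderOf_one] at hao; omega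
  have haa : a * a = 1 := by
    have h := pow_orderOf_eq_one a
    rw [hao, sq] at h
    exact h
  rcases kinds (p := p) hE ha1 with ⟨hp, -, -⟩ | ⟨T, n, haT, hT, hn⟩
  · exfalso
    obtain ⟨k, hp', hk⟩ := FiniteField.card F p
    have hrp : 2 = p := (Nat.prime_dvd_prime_iff_eq Nat.prime_two hp').1 (hao ▸ orderOf_dvd_of_pow_eq_one hp)
    subst hrp
    rw [hk] at hodd
    exact absurd hodd (Nat.not_odd_iff_even.mpr (Nat.even_pow.mpr ⟨even_two, k.pos.ne'⟩))
  · obtain ⟨hle, hcC⟩ := (hT.cent a haT ha1).2 haa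
    obtain ⟨t, htT, htL⟩ := hT.notL hodd
    have h2 := card_inf_Lsub hodd (T := Subgroup.centralizer {a}) ⟨t, hle htT, htL⟩
    have h3 := inf_torus_card hT hodd
    have h4 : orderOf a ∣ Nat.card (T ⊓ Lsub F : Subgroup PGL(2, F)) :=
      Subgroup.orderOf_dvd_natCard _ (Subgroup.mem_inf.mpr ⟨haT, (pslEquiv g).2⟩)
    rw [hao] at h4
    rw [card_centralizer_eq, ← hadef]
    rcases hn with rfl | rfl <;> omega

theorem involution_conj (hq : Fintype.card F % 8 = 3)
    {x y : Matrix.ProjectiveSpecialLinearGroup (Fin 2) F} (hx : orderOf x = 2) (hy : orderOf y = 2) :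
    ∃ g, g * x * g⁻¹ = y := by
  classical
  haveI : Fact (Nat.Prime 2) := ⟨Nat.prime_two⟩
  obtain ⟨V, h4, -, -, -, ht⟩ := Cfsg.Agent.Lib.Chev.G2.psl_four_group (F := F) (Or.inl hq)
  have hfac : (Nat.card (Matrix.ProjectiveSpecialLinearGroup (Fin 2) F)).factorization 2 = 2 := by
    have h := card_psl (F := F) hq
    obtain ⟨k, hk⟩ : ∃ k, Fintype.card F = 8 * k + 3 := ⟨Fintype.card F / 8, by omega⟩
    rw [hk, show (8 * k + 3) ^ 2 - 1 = 8 * ((4 * k + 1) * (2 * k + 1)) by
      rw [show (8 * k + 3) ^ 2 = 8 * ((4 * k + 1) * (2 * k + 1)) + 1 by ring]; omega] at h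
    have h' : Nat.card (Matrix.ProjectiveSpecialLinearGroup (Fin 2) F) =
        2 ^ 2 * ((8 * k + 3) * ((4 * k + 1) * (2 * k + 1))) := by
      rw [mul_left_comm] at h; omega
    rw [h', Nat.factorization_mul (by norm_num) (by positivity)]
    simp only [Finsupp.coe_add, Pi.add_apply, Nat.prime_two.factorization_pow, Finsupp.single_eq_same]
    rw [Nat.factorization_eq_zero_of_not_dvd]
    rw [← even_iff_two_dvd, Nat.not_even_iff_odd]
    refine Odd.mul ?_ (Odd.mul ?_ ?_) <;> exact Nat.odd_iff.2 (by omega)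
  let P₀ : Sylow 2 (Matrix.ProjectiveSpecialLinearGroup (Fin 2) F) := Sylow.ofCard V (by rw [h4, hfac]; rfl)
  have hmove : ∀ z : Matrix.ProjectiveSpecialLinearGroup (Fin 2) F, orderOf z = 2 →
      ∃ g, g * z * g⁻¹ ∈ V := by
    intro z hz
    obtain ⟨P, hP⟩ := (IsPGroup.of_card (p := 2) (n := 1) (G := Subgroup.zpowers z)
      (by rw [Nat.card_zpowers, hz, pow_one])).exists_le_sylow
    obtain ⟨g, hg⟩ := MulAction.exists_smul_eq (Matrix.ProjectiveSpecialLinearGroup (Fin 2) F) P P₀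
    refine ⟨g, ?_⟩
    show g * z * g⁻¹ ∈ (P₀ : Subgroup (Matrix.ProjectiveSpecialLinearGroup (Fin 2) F))
    rw [← hg, Sylow.coe_subgroup_smul]
    exact ⟨z, hP (Subgroup.mem_zpowers z), rfl⟩
  obtain ⟨g, hgx⟩ := hmove x hx
  obtain ⟨g', hgy⟩ := hmove y hy
  have hne : ∀ z k : Matrix.ProjectiveSpecialLinearGroup (Fin 2) F, orderOf z = 2 → k * z * k⁻¹ ≠ 1 :=
    fun z k hz h => by rw [conj_eq_one_iff.1 h, orderOf_one] at hz; omega
  obtain ⟨n, -, hn⟩ := ht _ hgx _ hgy (hne x g hx) (hne y g' hy)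
  refine ⟨g'⁻¹ * n * g, ?_⟩
  calc g'⁻¹ * n * g * x * (g'⁻¹ * n * g)⁻¹ = g'⁻¹ * (n * (g * x * g⁻¹) * n⁻¹) * g' := by group
    _ = y := by rw [hn]; group

end Cfsg.Agent.Lib.ReeTwoTori
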