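import Cfsg.Agent.Lib.ReeMult.Main
import Cfsg.Agent.Lib.ReeTwoTori.PSLFacts

/-! The Borel subgroup, the split torus and the involutions of the Ree groups. -/

set_option autoImplicit false

namespace Cfsg.Agent.Lib.ReeTwoTori

open Cfsg.Lie Cfsg.Agent.Lib Cfsg.Agent.Lib.Chev Cfsg.Agent.Lib.Chev.G2
open Cfsg.Agent.Lib.ReeAut
open scoped Pointwise

/-- Conjugacy counting. -/
theorem count_conj {G : Type*} [Group G] [Finite G] (P : G → Prop) (S : Set G) (N : Subgroup G)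
    (hP : ∀ g x, P x → P (g * x * g⁻¹)) (hS : ∀ x ∈ S, P x)
    (hmove : ∀ x, P x → ∃ g, g * x * g⁻¹ ∈ S)
    (hN : ∀ g x, x ∈ S → (g * x * g⁻¹ ∈ S ↔ g ∈ N)) :
    Nat.card {x : G // P x} * Nat.card N = Nat.card S * Nat.card G := by
  classical
  haveI := Fintype.ofFinite G
  let f : G × S → {x : G // P x} := fun p => ⟨p.1 * p.2.1 * p.1⁻¹, hP _ _ (hS _ p.2.2)⟩
  have hfib : ∀ y, Nat.card {p // f p = y} = Nat.card N := by
    rintro ⟨y, hy⟩
    obtain ⟨g₀, hg₀⟩ := hmove y hy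
    have hback : ∀ n : N, ((n : G))⁻¹ * (g₀ * y * g₀⁻¹) * n ∈ S := fun n => by
      have := (hN (n : G)⁻¹ _ hg₀).2 (inv_mem n.2)
      rwa [inv_inv] at this
    refine Nat.card_congr
      { toFun := fun p => ⟨g₀ * p.1.1, (hN _ _ p.1.2.2).1 (by
          have e : p.1.1 * p.1.2.1 * p.1.1⁻¹ = y := congrArg Subtype.val p.2
          have e' : g₀ * p.1.1 * p.1.2.1 * (g₀ * p.1.1)⁻¹ = g₀ * (p.1.1 * p.1.2.1 * p.1.1⁻¹) * g₀⁻¹ := by group
          rw [e', e]
          exact hg₀)⟩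
        invFun := fun n => ⟨(g₀⁻¹ * n, ⟨_, hback n⟩), Subtype.ext (by
          show g₀⁻¹ * n * ((n : G)⁻¹ * (g₀ * y * g₀⁻¹) * n) * (g₀⁻¹ * n)⁻¹ = y
          group)⟩
        left_inv := fun p => by
          have e : p.1.1 * p.1.2.1 * p.1.1⁻¹ = y := congrArg Subtype.val p.2
          refine Subtype.ext (Prod.ext ?_ (Subtype.ext ?_))
          · show g₀⁻¹ * (g₀ * p.1.1) = p.1.1
            group
          · show (g₀ * p.1.1)⁻¹ * (g₀ * y * g₀⁻¹) * (g₀ * p.1.1) = p.1.2.1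
            have key : (g₀ * p.1.1)⁻¹ * (g₀ * (p.1.1 * p.1.2.1 * p.1.1⁻¹) * g₀⁻¹) * (g₀ * p.1.1) =
                p.1.2.1 := by group
            rwa [e] at key
        right_inv := fun n => Subtype.ext (by show g₀ * (g₀⁻¹ * n) = n; group) }
  have h1 : Nat.card (G × S) = Nat.card {x : G // P x} * Nat.card N := by
    rw [← Nat.card_congr (Equiv.sigmaFiberEquiv f), Nat.card_sigma, Finset.sum_congr rfl fun y _ => hfib y,
      Finset.sum_const, Finset.card_univ, smul_eq_mul]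
    simp [Nat.card_eq_fintype_card]
  rw [← h1, Nat.card_prod, mul_comm]

/-- The order of the field. -/
abbrev qq (m : ℕ) : ℕ := 3 ^ (2 * m + 1)

/-- The data of a Ree group. -/
structure Ctx (K : Type*) [Field K] [Fintype K] [CharP K 3] (m : ℕ) where
  θ : K ≃+* K
  hθ : ∀ t : K, θ t = t ^ 3 ^ m
  hK : Fintype.card K = 3 ^ (2 * m + 1)
  hm : 1 ≤ m
  T : Tor K m

theorem exists_ctx {K : Type*} [Field K] [Fintype K] [CharP K 3] {m : ℕ} (θ : K ≃+* K)
    (hθ : ∀ t : K, θ t = t ^ 3 ^ m) (hK : Fintype.card K = 3 ^ (2 * m + 1)) (hm : 1 ≤ m) :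
    Nonempty (Ctx K m) :=
  (exists_tor θ hθ hK).map fun T => ⟨θ, hθ, hK, hm, T⟩

variable {K : Type*} [Field K] [Fintype K] [CharP K 3] {m : ℕ} (c : Ctx K m)

/-- The centraliser of an element. -/
abbrev cz (x : GR K m) : Subgroup (GR K m) := Subgroup.centralizer {x}

theorem mem_cz {x g : GR K m} : g ∈ cz x ↔ g * x = x * g := Subgroup.mem_centralizer_singleton_iff

theorem conj_mem_cz {k x g : GR K m} : k * g * k⁻¹ ∈ cz (k * x * k⁻¹) ↔ g ∈ cz x := by
  rw [mem_cz, mem_cz]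
  constructor <;> intro h
  · have := congrArg (fun z => k⁻¹ * z * k) h
    simpa [mul_assoc] using this
  · calc k * g * k⁻¹ * (k * x * k⁻¹) = k * (g * x) * k⁻¹ := by group
      _ = k * x * k⁻¹ * (k * g * k⁻¹) := by rw [h]; group

theorem orderOf_conj (k x : GR K m) : orderOf (k * x * k⁻¹) = orderOf x :=
  MulEquiv.orderOf_eq (MulAut.conj k) x

theorem card_cz_conj (k x : GR K m) : Nat.card (cz (k * x * k⁻¹)) = Nat.card (cz x) :=
  (Nat.card_congr ((MulAut.conj k).toEquiv.subtypeEquiv fun g => (conj_mem_cz (k := k) (x := x)).symm)).symm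

include c

theorem qq_mod : qq m % 8 = 3 := by
  show 3 ^ (2 * m + 1) % 8 = 3
  rw [pow_succ, pow_mul, Nat.mul_mod, Nat.pow_mod]
  norm_num

theorem qq_ge : 27 ≤ qq m := by
  calc 27 = 3 ^ 3 := by norm_num
    _ ≤ _ := Nat.pow_le_pow_right (by norm_num) (by have := c.hm; omega)

theorem card_G : Nat.card (GR K m) = qq m ^ 3 * (qq m - 1) * (qq m ^ 3 + 1) :=
  card_ree c.θ c.hθ c.hK

theorem perfect : commutator (GR K m) = ⊤ := perfect_ree c.θ c.hθ c.hK c.hm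

omit c in
theorem sylow_two_aux (θ : K ≃+* K) (hθ : ∀ t : K, θ t = t ^ 3 ^ m)
    (hK : Fintype.card K = 3 ^ (2 * m + 1)) (G₁ : Subgroup (GL chevG2.Idx K))
    (hG : G₁ = (reeTwist θ).fixed) (hperf : commutator ↥G₁ = ⊤) (S : Sylow 2 ↥G₁) :
    (Nat.card S = 8 ∧ ∀ x ∈ S, x * x = 1) ∧
      Subgroup.centralizer ((S : Subgroup ↥G₁) : Set ↥G₁) = S ∧
        Nat.card (Subgroup.normalizer ((S : Subgroup ↥G₁) : Set ↥G₁)) = 168 := by
  subst hG
  obtain ⟨h1, h2⟩ := ree_sylow_two θ hθ hK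
  exact ⟨h1 S, h2 hperf S⟩

theorem sylow_two (S : Sylow 2 (GR K m)) : (Nat.card S = 8 ∧ ∀ x ∈ S, x * x = 1) ∧
    Subgroup.centralizer ((S : Subgroup (GR K m)) : Set (GR K m)) = S ∧
      Nat.card (Subgroup.normalizer ((S : Subgroup (GR K m)) : Set (GR K m))) = 168 :=
  sylow_two_aux c.θ c.hθ c.hK _ (eq_fixed c.θ c.hθ c.hK) (perfect c) S

theorem sq_of_two_group {x : GR K m} {k : ℕ} (hx : orderOf x = 2 ^ k) : x * x = 1 := by
  haveI : Fact (Nat.Prime 2) := ⟨Nat.prime_two⟩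
  obtain ⟨P, hP⟩ := (IsPGroup.of_card (p := 2) (n := k) (G := Subgroup.zpowers x)
    (by rw [Nat.card_zpowers, hx])).exists_le_sylow
  exact (sylow_two c P).1.2 x (hP (Subgroup.mem_zpowers x))

theorem not_four_dvd (x : GR K m) : ¬ 4 ∣ orderOf x := by
  intro h
  have h4 : orderOf (x ^ (orderOf x / 4)) = 2 ^ 2 := orderOf_pow_orderOf_div (orderOf_pos x).ne' h
  have := orderOf_dvd_of_pow_eq_one (show (x ^ (orderOf x / 4)) ^ 2 = 1 by
    rw [pow_two]; exact sq_of_two_group c h4)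
  rw [h4] at this
  norm_num at this

theorem inv_conj {x y : GR K m} (hx : orderOf x = 2) (hy : orderOf y = 2) : ∃ g, g * x * g⁻¹ = y := by
  haveI : Fact (Nat.Prime 2) := ⟨Nat.prime_two⟩
  obtain ⟨P₀⟩ : Nonempty (Sylow 2 (GR K m)) := inferInstance
  obtain ⟨⟨h8, hsq⟩, hC, hN⟩ := sylow_two c P₀
  obtain ⟨e₀, e₁, e₂, g, h01, h02, h12, hg0, hg1, hg2, hcl⟩ :=
    ReeMult.singer_eight (P₀ : Subgroup (GR K m)) h8 hsq hC hN
  have hm : ∀ a ∈ ({e₀, e₁, e₂} : Set (GR K m)), a ∈ (P₀ : Subgroup (GR K m)) := fun a ha => by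
    rw [← hcl]; exact Subgroup.subset_closure ha
  have s0 : e₀ * e₀ = 1 := hsq _ (hm _ (Or.inl rfl))
  have s1 : e₁ * e₁ = 1 := hsq _ (hm _ (Or.inr (Or.inl rfl)))
  have s2 : e₂ * e₂ = 1 := hsq _ (hm _ (Or.inr (Or.inr rfl)))
  have hall : ∀ a ∈ (P₀ : Subgroup (GR K m)), a = 1 ∨ ∃ k, k * e₀ * k⁻¹ = a := by
    have n1 : g ^ 1 * e₀ * (g ^ 1)⁻¹ = e₁ := by rw [pow_one, hg0]
    have n2 : g ^ 2 * e₀ * (g ^ 2)⁻¹ = e₂ := by rw [← hg1, ← hg0, pow_two]; group
    have n3 : g ^ 3 * e₀ * (g ^ 3)⁻¹ = e₀ * e₁ := by rw [← hg2, ← n2, pow_succ']; group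
    have cj : ∀ a b, g * (a * b) * g⁻¹ = g * a * g⁻¹ * (g * b * g⁻¹) := fun a b => by group
    have n4 : g ^ 4 * e₀ * (g ^ 4)⁻¹ = e₁ * e₂ := by
      rw [show g ^ 4 * e₀ * (g ^ 4)⁻¹ = g * (g ^ 3 * e₀ * (g ^ 3)⁻¹) * g⁻¹ by rw [pow_succ']; group,
        n3, cj, hg0, hg1]
    have n5 : g ^ 5 * e₀ * (g ^ 5)⁻¹ = e₂ * (e₀ * e₁) := by
      rw [show g ^ 5 * e₀ * (g ^ 5)⁻¹ = g * (g ^ 4 * e₀ * (g ^ 4)⁻¹) * g⁻¹ by rw [pow_succ']; group,
        n4, cj, hg1, hg2]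
    have n6 : g ^ 6 * e₀ * (g ^ 6)⁻¹ = e₀ * e₂ := by
      rw [show g ^ 6 * e₀ * (g ^ 6)⁻¹ = g * (g ^ 5 * e₀ * (g ^ 5)⁻¹) * g⁻¹ by rw [pow_succ']; group,
        n5, cj, cj, hg2, hg0, hg1]
      calc e₀ * e₁ * (e₁ * e₂) = e₀ * (e₁ * e₁) * e₂ := by group
        _ = e₀ * e₂ := by rw [s1, mul_one]
    let f : Bool × Bool × Bool → GR K m := fun p =>
      (cond p.1 e₀ 1) * (cond p.2.1 e₁ 1) * (cond p.2.2 e₂ 1)
    have hsq2 : ∀ (e : GR K m), e * e = 1 → ∀ a a', cond a e 1 * cond a' e 1 = cond (xor a a') e 1 :=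
      fun e he a a' => by cases a <;> cases a' <;> simp [he]
    have hcm : ∀ (e e' : GR K m), Commute e e' → ∀ a a', Commute (cond a e 1) (cond a' e' 1) :=
      fun e e' he a a' => by cases a <;> cases a' <;> simp [he]
    have hf : ∀ p q, f p * f q = f (xor p.1 q.1, xor p.2.1 q.2.1, xor p.2.2 q.2.2) := by
      rintro ⟨a, b, d⟩ ⟨a', b', d'⟩
      show cond a e₀ 1 * cond b e₁ 1 * cond d e₂ 1 * (cond a' e₀ 1 * cond b' e₁ 1 * cond d' e₂ 1) =
        cond (xor a a') e₀ 1 * cond (xor b b') e₁ 1 * cond (xor d d') e₂ 1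
      rw [← hsq2 _ s0, ← hsq2 _ s1, ← hsq2 _ s2]
      rw [((hcm _ _ h02.symm d a').mul_right (hcm _ _ h12.symm d b')).mul_mul_mul_comm,
        (hcm _ _ h01.symm b a').mul_mul_mul_comm]
    intro a ha
    rw [← hcl] at ha
    obtain ⟨p, rfl⟩ : ∃ p, f p = a := by
      induction ha using Subgroup.closure_induction with
      | mem x hx =>
        rcases hx with rfl | rfl | rfl
        exacts [⟨(true, false, false), by simp [f]⟩, ⟨(false, true, false), by simp [f]⟩,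
          ⟨(false, false, true), by simp [f]⟩]
      | one => exact ⟨(false, false, false), by simp [f]⟩
      | mul x y _ _ hx hy =>
        obtain ⟨p, rfl⟩ := hx
        obtain ⟨q, rfl⟩ := hy
        exact ⟨_, (hf p q).symm⟩
      | inv x _ hx =>
        obtain ⟨⟨a, b, d⟩, rfl⟩ := hx
        refine ⟨(a, b, d), (inv_eq_of_mul_eq_one_right ?_).symm⟩
        rw [hf]
        simp [f]
    rcases p with ⟨_ | _, _ | _, _ | _⟩
    · exact Or.inl (by simp [f])
    · exact Or.inr ⟨_, by simpa [f] using n2⟩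
    · exact Or.inr ⟨_, by simpa [f] using n1⟩
    · exact Or.inr ⟨_, by simpa [f] using n4⟩
    · exact Or.inr ⟨1, by simp [f]⟩
    · exact Or.inr ⟨_, by simpa [f] using n6⟩
    · exact Or.inr ⟨_, by simpa [f] using n3⟩
    · refine Or.inr ⟨g ^ 5, ?_⟩
      rw [n5]
      simp [f, mul_assoc, h02.symm.left_comm, h12.symm.eq]
  have hmove : ∀ z : GR K m, orderOf z = 2 → ∃ k, k * e₀ * k⁻¹ = z := by
    intro z hz
    obtain ⟨P, hP⟩ := (IsPGroup.of_card (p := 2) (n := 1) (G := Subgroup.zpowers z)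
      (by rw [Nat.card_zpowers, hz, pow_one])).exists_le_sylow
    obtain ⟨k, hk⟩ := MulAction.exists_smul_eq (GR K m) P P₀
    have hmem : k * z * k⁻¹ ∈ (P₀ : Subgroup (GR K m)) := by
      rw [← hk, Sylow.coe_subgroup_smul]
      exact ⟨z, hP (Subgroup.mem_zpowers z), rfl⟩
    rcases hall _ hmem with h | ⟨l, hl⟩
    · rw [conj_eq_one_iff.1 h, orderOf_one] at hz; omega
    · exact ⟨k⁻¹ * l, by
        calc k⁻¹ * l * e₀ * (k⁻¹ * l)⁻¹ = k⁻¹ * (l * e₀ * l⁻¹) * k := by group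
          _ = z := by rw [hl]; group⟩
  obtain ⟨k, hk⟩ := hmove x hx
  obtain ⟨l, hl⟩ := hmove y hy
  exact ⟨l * k⁻¹, by rw [← hk, ← hl]; group⟩

/-- The involution of the torus. -/
def a0 : GR K m := c.T.hom (-1)

omit c in
theorem neg_one_ne : (-1 : Kˣ) ≠ 1 := fun h => by
  have h' : (-1 : K) = 1 := by simpa using congrArg Units.val h
  have h3 : (3 : K) = 0 := CharP.ofNat_eq_zero K 3
  exact one_ne_zero (by linear_combination h' + h3 : (1 : K) = 0)

theorem orderOf_a0 : orderOf (a0 c) = 2 := by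
  rw [a0, orderOf_injective c.T.hom c.T.inj]
  exact orderOf_eq_prime (by simp) neg_one_ne

omit c in
theorem cinv_aux (θ : K ≃+* K) (hθ : ∀ t : K, θ t = t ^ 3 ^ m)
    (hK : Fintype.card K = 3 ^ (2 * m + 1)) (G₁ : Subgroup (GL chevG2.Idx K))
    (hG : G₁ = (reeTwist θ).fixed) (a : ↥G₁) (haH : (a : GL chevG2.Idx K) ∈ chevG2.diagonalSubgroup K)
    (ha1 : a ≠ 1) (ha2 : a * a = 1) :
    ∃ e : ↥(Subgroup.centralizer ({a} : Set ↥G₁)) ≃*
        Multiplicative (ZMod 2) × Matrix.ProjectiveSpecialLinearGroup (Fin 2) K,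
      e ⟨a, Subgroup.mem_centralizer_singleton_iff.2 rfl⟩ = (Multiplicative.ofAdd 1, 1) := by
  subst hG
  exact centralizer_involution θ hθ hK a haH ha1 ha2

theorem cinv_equiv : ∃ e : cz (a0 c) ≃*
      Multiplicative (ZMod 2) × Matrix.ProjectiveSpecialLinearGroup (Fin 2) K,
    e ⟨a0 c, mem_cz.2 rfl⟩ = (Multiplicative.ofAdd 1, 1) :=
  cinv_aux c.θ c.hθ c.hK _ (eq_fixed c.θ c.hθ c.hK) (a0 c) (c.T.diag _)
    (fun h => by have := orderOf_a0 c; rw [h, orderOf_one] at this; omega)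
    (by rw [a0, ← map_mul, neg_mul_neg, one_mul, map_one])

theorem card_cinv {x : GR K m} (hx : orderOf x = 2) : Nat.card (cz x) = qq m * (qq m ^ 2 - 1) := by
  obtain ⟨k, rfl⟩ := inv_conj c (orderOf_a0 c) hx
  obtain ⟨e, -⟩ := cinv_equiv c
  rw [card_cz_conj, Nat.card_congr e.toEquiv, Nat.card_prod, Nat.card_congr Multiplicative.toAdd,
    Nat.card_zmod, card_psl (by rw [c.hK]; exact qq_mod c), c.hK]

/-- The Borel subgroup of the Ree group. -/
def bSub (K : Type*) [Field K] (m : ℕ) : Subgroup (GR K m) :=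
  (chevG2.borelSubgroup K).subgroupOf (twistedG2 K (3 ^ m))

theorem bor_cases {g : GR K m} (hg : g ∈ bSub K m) : ∃ t u v z, g = uR m t u v * c.T.hom z :=
  borel_cases c.θ c.hθ c.hK c.T (Subgroup.mem_subgroupOf.1 hg)

omit c in
theorem uR_mem_bSub (t u v : K) : uR m t u v ∈ bSub K m :=
  Subgroup.mem_subgroupOf.2 (uR_borel t u v)

theorem tor_mem_bSub (z : Kˣ) : c.T.hom z ∈ bSub K m :=
  Subgroup.mem_subgroupOf.2 (tor_borel c.T z)

theorem uR_tor_inj {t u v t' u' v' : K} {z z' : Kˣ}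
    (h : uR m t u v * c.T.hom z = uR m t' u' v' * c.T.hom z') :
    t = t' ∧ u = u' ∧ v = v' ∧ z = z' := by
  have e : (uR m t' u' v')⁻¹ * uR m t u v = c.T.hom z' * (c.T.hom z)⁻¹ := by
    rw [inv_mul_eq_iff_eq_mul, ← mul_assoc, ← h, mul_inv_cancel_right]
  have h1 := eq_one_of_pos_diag (g := (uR m t' u' v')⁻¹ * uR m t u v)
    (mul_mem (inv_mem (uR_pos _ _ _)) (uR_pos _ _ _))
    (by rw [e]; exact mul_mem (c.T.diag _) (inv_mem (c.T.diag _)))
  have h2 : uR m t u v = uR m t' u' v' := (inv_mul_eq_one.1 h1).symm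
  obtain ⟨rfl, rfl, rfl⟩ := uR_inj h2
  exact ⟨rfl, rfl, rfl, c.T.inj (mul_left_cancel h)⟩

theorem card_bSub : Nat.card (bSub K m) = qq m ^ 3 * (qq m - 1) := by
  let f : (K × K × K) × Kˣ → bSub K m := fun p =>
    ⟨uR m p.1.1 p.1.2.1 p.1.2.2 * c.T.hom p.2, mul_mem (uR_mem_bSub _ _ _) (tor_mem_bSub c _)⟩
  have hf : Function.Bijective f := by
    constructor
    · rintro ⟨⟨t, u, v⟩, z⟩ ⟨⟨t', u', v'⟩, z'⟩ h
      obtain ⟨rfl, rfl, rfl, rfl⟩ := uR_tor_inj c (congrArg Subtype.val h)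
      rfl
    · rintro ⟨g, hg⟩
      obtain ⟨t, u, v, z, rfl⟩ := bor_cases c hg
      exact ⟨((t, u, v), z), rfl⟩
  rw [← Nat.card_congr (Equiv.ofBijective f hf), Nat.card_prod, Nat.card_prod, Nat.card_prod,
    Nat.card_units, Nat.card_eq_fintype_card, c.hK]
  ring

omit c in
theorem ti_aux (θ : K ≃+* K) (hθ : ∀ t : K, θ t = t ^ 3 ^ m)
    (hK : Fintype.card K = 3 ^ (2 * m + 1)) (P Q : Sylow 3 (GR K m)) (hPQ : P ≠ Q) :
    (P : Subgroup (GR K m)) ⊓ (Q : Subgroup (GR K m)) = ⊥ :=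
  sylow_three_ti θ hθ hK (eq_fixed θ hθ hK) P Q hPQ

/-- The Sylow 3-subgroup `U`. -/
noncomputable def sylU : Sylow 3 (GR K m) :=
  haveI : Fact (Nat.Prime 3) := ⟨Nat.prime_three⟩
  (IsPGroup.of_card (card_uSub c.θ c.hθ c.hK)).toSylow (index_uSub c.θ c.hθ c.hK)

theorem sylU_eq : (sylU c : Subgroup (GR K m)) = uSub K m := rfl

theorem ti_borel {x k : GR K m} (hx : x ∈ uSub K m) (h1 : x ≠ 1) (hk : k * x * k⁻¹ ∈ uSub K m) :
    k ∈ bSub K m := by
  haveI : Fact (Nat.Prime 3) := ⟨Nat.prime_three⟩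
  have hmem : k * x * k⁻¹ ∈ ((k • sylU c : Sylow 3 (GR K m)) : Subgroup (GR K m)) := by
    rw [Sylow.coe_subgroup_smul]
    exact ⟨x, hx, rfl⟩
  have he : k • sylU c = sylU c := by
    by_contra hne
    have h := ti_aux c.θ c.hθ c.hK _ _ hne
    have h2 : k * x * k⁻¹ = 1 := by
      rw [← Subgroup.mem_bot, ← h]; exact ⟨hmem, hk⟩
    exact h1 (conj_eq_one_iff.1 h2)
  refine Subgroup.mem_subgroupOf.2 (normalizer_le_borel c.θ c.hθ c.hK fun y hy => ?_)
  have : k * y * k⁻¹ ∈ ((k • sylU c : Sylow 3 (GR K m)) : Subgroup (GR K m)) := by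
    rw [Sylow.coe_subgroup_smul]
    exact ⟨y, hy, rfl⟩
  rwa [he] at this

theorem cz_uSub {x : GR K m} (hx : x ∈ uSub K m) (h1 : x ≠ 1) : cz x ≤ bSub K m := fun k hk =>
  ti_borel c hx h1 (by rwa [mem_cz.1 hk, mul_inv_cancel_right])

theorem bSub_normalizes {b x : GR K m} (hb : b ∈ bSub K m) (hx : x ∈ uSub K m) :
    b * x * b⁻¹ ∈ uSub K m := by
  obtain ⟨t, u, v, z, rfl⟩ := bor_cases c hb
  obtain ⟨p, r, s, rfl⟩ := (mem_uSub c.θ c.hθ c.hK).1 hx
  have e : uR m t u v * c.T.hom z * uR m p r s * (uR m t u v * c.T.hom z)⁻¹ =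
      uR m t u v * (c.T.hom z * uR m p r s * (c.T.hom z)⁻¹) * (uR m t u v)⁻¹ := by group
  rw [e, c.T.conj]
  exact mul_mem (mul_mem (uR_mem_uSub _ _ _) (uR_mem_uSub _ _ _)) (inv_mem (uR_mem_uSub _ _ _))

theorem three_move {x : GR K m} {k : ℕ} (hx : orderOf x = 3 ^ k) :
    ∃ g, g * x * g⁻¹ ∈ uSub K m := by
  haveI : Fact (Nat.Prime 3) := ⟨Nat.prime_three⟩
  obtain ⟨P, hP⟩ := (IsPGroup.of_card (p := 3) (n := k) (G := Subgroup.zpowers x)
    (by rw [Nat.card_zpowers, hx])).exists_le_sylow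
  obtain ⟨g, hg⟩ := MulAction.exists_smul_eq (GR K m) P (sylU c)
  refine ⟨g, ?_⟩
  rw [← sylU_eq c, ← hg, Sylow.coe_subgroup_smul]
  exact ⟨x, hP (Subgroup.mem_zpowers x), rfl⟩

theorem borel_conj_torus {t u v : K} {z : Kˣ} (hz : z ^ 2 ≠ 1) :
    ∃ y ∈ uSub K m, y⁻¹ * (uR m t u v * c.T.hom z) * y = c.T.hom z := by
  set h := c.T.hom z
  let φ : ↥(uSub K m) → ↥(uSub K m) := fun x => ⟨x.1 * (h * x.1⁻¹ * h⁻¹), by
    obtain ⟨p, r, s, e⟩ := (mem_uSub c.θ c.hθ c.hK).1 (inv_mem x.2)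
    rw [e, c.T.conj]
    exact mul_mem x.2 (uR_mem_uSub _ _ _)⟩
  have hφ : Function.Injective φ := by
    intro x y e
    have e' : x.1 * (h * x.1⁻¹ * h⁻¹) = y.1 * (h * y.1⁻¹ * h⁻¹) := congrArg Subtype.val e
    obtain ⟨p, r, s, e2⟩ := (mem_uSub c.θ c.hθ c.hK).1 (mul_mem (inv_mem y.2) x.2)
    have hc : h * uR m p r s = uR m p r s * h := by
      rw [← e2]
      calc h * (y.1⁻¹ * x.1) = y.1⁻¹ * (y.1 * (h * y.1⁻¹ * h⁻¹)) * h * x.1 := by group
        _ = y.1⁻¹ * (x.1 * (h * x.1⁻¹ * h⁻¹)) * h * x.1 := by rw [e']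
        _ = _ := by group
    obtain ⟨rfl, rfl, rfl⟩ := diag_commute_pos c.θ c.hθ c.hK c.T z hz hc
    rw [uR_one, inv_mul_eq_one] at e2
    exact (Subtype.ext e2).symm
  obtain ⟨x, hx⟩ := (Finite.injective_iff_surjective.1 hφ) ⟨_, uR_mem_uSub t u v⟩
  have hx' : x.1 * (h * x.1⁻¹ * h⁻¹) = uR m t u v := congrArg Subtype.val hx
  exact ⟨x.1, x.2, by rw [← hx']; group⟩

/-- Elements of prime order at least five in the Borel subgroup. -/
theorem borel_prime {g : GR K m} (hg : g ∈ bSub K m) {r : ℕ} (hr : r.Prime) (h2 : r ≠ 2) (h3 : r ≠ 3)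
    (ho : orderOf g = r) : r ∣ qq m - 1 ∧ ∃ y ∈ uSub K m, ∃ z : Kˣ, z ^ 2 ≠ 1 ∧ y⁻¹ * g * y = c.T.hom z := by
  obtain ⟨t, u, v, z, rfl⟩ := bor_cases c hg
  have hz : z ^ 2 ≠ 1 := by
    intro h
    have hz2 : c.T.hom z * c.T.hom z = 1 := by rw [← map_mul, ← pow_two, h, map_one]
    have hsq : (uR m t u v * c.T.hom z) ^ 2 ∈ uSub K m := by
      have e2 : uR m t u v * c.T.hom z * (uR m t u v * c.T.hom z) =
          uR m t u v * (c.T.hom z * uR m t u v * (c.T.hom z)⁻¹) := by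
        calc _ = uR m t u v * (c.T.hom z * uR m t u v * (c.T.hom z)⁻¹) * (c.T.hom z * c.T.hom z) := by group
          _ = _ := by rw [hz2, mul_one]
      rw [pow_two, e2, c.T.conj]
      exact mul_mem (uR_mem_uSub _ _ _) (uR_mem_uSub _ _ _)
    have hco : Nat.Coprime (orderOf (uR m t u v * c.T.hom z)) 2 := by
      rw [ho]; exact (Nat.coprime_primes hr Nat.prime_two).2 h2
    have hd := orderOf_dvd_natCard (⟨_, hsq⟩ : uSub K m)
    rw [Subgroup.orderOf_mk, hco.orderOf_pow, ho, card_uSub c.θ c.hθ c.hK] at hd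
    exact h3 ((Nat.prime_dvd_prime_iff_eq hr Nat.prime_three).1 (hr.dvd_of_dvd_pow hd))
  obtain ⟨y, hy, e⟩ := borel_conj_torus c (t := t) (u := u) (v := v) hz
  refine ⟨?_, y, hy, z, hz, e⟩
  have h1 : orderOf z = r := by
    rw [← orderOf_injective c.T.hom c.T.inj z, ← e]
    calc orderOf (y⁻¹ * (uR m t u v * c.T.hom z) * y)
        = orderOf (y⁻¹ * (uR m t u v * c.T.hom z) * y⁻¹⁻¹) := by rw [inv_inv]
      _ = r := by rw [orderOf_conj, ho]
  have := orderOf_dvd_natCard z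
  rwa [h1, Nat.card_units, Nat.card_eq_fintype_card, c.hK] at this

/-- No element of prime order at least five commutes with an element of order three. -/
theorem no_comm_three {x g : GR K m} (hx : orderOf x = 3) (hg : g * x = x * g) {r : ℕ} (hr : r.Prime)
    (h2 : r ≠ 2) (h3 : r ≠ 3) (ho : orderOf g = r) : False := by
  obtain ⟨k, hk⟩ := three_move c (k := 1) (x := x) (by rw [hx, pow_one])
  have hne : k * x * k⁻¹ ≠ 1 := fun h => by rw [conj_eq_one_iff.1 h, orderOf_one] at hx; omega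
  have hg' : k * g * k⁻¹ ∈ cz (k * x * k⁻¹) := conj_mem_cz.2 (mem_cz.2 hg)
  obtain ⟨-, y, hy, z, hz, e⟩ := borel_prime c (cz_uSub c hk hne hg') hr h2 h3 (by rw [orderOf_conj, ho])
  obtain ⟨p, r', s, hxy⟩ := (mem_uSub c.θ c.hθ c.hK).1 (mul_mem (mul_mem (inv_mem hy) hk) hy)
  have hc : c.T.hom z * uR m p r' s = uR m p r' s * c.T.hom z := by
    rw [← e, ← hxy]
    calc y⁻¹ * (k * g * k⁻¹) * y * (y⁻¹ * (k * x * k⁻¹) * y)
        = y⁻¹ * (k * g * k⁻¹ * (k * x * k⁻¹)) * y := by group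
      _ = y⁻¹ * (k * x * k⁻¹ * (k * g * k⁻¹)) * y := by rw [mem_cz.1 hg']
      _ = _ := by group
  obtain ⟨rfl, rfl, rfl⟩ := diag_commute_pos c.θ c.hθ c.hK c.T z hz hc
  rw [uR_one] at hxy
  exact hne (by
    calc k * x * k⁻¹ = y * (y⁻¹ * (k * x * k⁻¹) * y) * y⁻¹ := by group
      _ = 1 := by rw [hxy]; group)

/-- The Weyl element. -/
noncomputable def wR : GR K m :=
  ⟨wZero K, (eq_fixed c.θ c.hθ c.hK).symm ▸ wZero_mem c.θ⟩

theorem wR_conj (z : Kˣ) : ∃ z', (wR c)⁻¹ * c.T.hom z * wR c = c.T.hom z' := by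
  have r0 : 0 < chevG2.rank := by rw [rank_eq']; omega
  have hwm : wZero K ∈ chevG2.monomialSubgroup K := (ree_cls c.θ).wN_mem_monomial r0
  have hd : ((wR c)⁻¹ * c.T.hom z * wR c).1 ∈ chevG2.diagonalSubgroup K := by
    have h2 := G2.checked.mono_conj_diag (inv_mem hwm) _ (c.T.diag z)
    rw [inv_inv] at h2
    exact h2
  obtain ⟨z', h⟩ := c.T.surj _ hd
  exact ⟨z', h.symm⟩

theorem wR_sq : ∃ z, wR c * wR c = c.T.hom z := by
  have r0 : 0 < chevG2.rank := by rw [rank_eq']; omega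
  obtain ⟨z, h⟩ := c.T.surj (wR c * wR c) ((ree_cls c.θ).wN_sq_mem r0)
  exact ⟨z, h.symm⟩

theorem wR_not_bor : wR c ∉ bSub K m := fun h =>
  wZero_not_borel c.θ c.hθ c.hK (Subgroup.mem_subgroupOf.1 h)

theorem torus_step {g : GR K m} {z z' : Kˣ} (hz : z ^ 2 ≠ 1) (hz' : z' ^ 2 ≠ 1)
    (e : g * c.T.hom z = c.T.hom z' * g) :
    g ∈ c.T.hom.range ∨ ∃ z₁, g = wR c * c.T.hom z₁ := by
  have hnorm : ∀ t u v (x y : Kˣ), x ^ 2 ≠ 1 →
      uR m t u v * c.T.hom x = c.T.hom y * uR m t u v → uR m t u v = 1 := by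
    intro t u v x y hx h
    have h' : uR m t u v * c.T.hom x =
        uR m ((y : K) * t) ((y : K) ^ (3 * 3 ^ m + 1) * u) ((y : K) ^ (3 * 3 ^ m + 2) * v) * c.T.hom y := by
      rw [h, ← c.T.conj, inv_mul_cancel_right]
    obtain ⟨-, -, -, rfl⟩ := uR_tor_inj c h'
    obtain ⟨rfl, rfl, rfl⟩ := diag_commute_pos c.θ c.hθ c.hK c.T x hx h.symm
    exact uR_one
  have hgF : g.1 ∈ (reeTwist c.θ).fixed := eq_fixed c.θ c.hθ c.hK ▸ g.2
  rcases cells c.θ c.hθ c.hK hgF with h | ⟨a, ha, b, hb, eg⟩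
  · obtain ⟨t, u, v, z₁, rfl⟩ := bor_cases c (Subgroup.mem_subgroupOf.2 h)
    have h1 := hnorm t u v z z' hz (by
      calc uR m t u v * c.T.hom z = uR m t u v * c.T.hom z₁ * c.T.hom z * (c.T.hom z₁)⁻¹ := by
            rw [mul_assoc (uR m t u v) (c.T.hom z₁), ← map_mul, mul_comm z₁, map_mul]; group
        _ = c.T.hom z' * (uR m t u v * c.T.hom z₁) * (c.T.hom z₁)⁻¹ := by rw [e]
        _ = _ := by group)
    exact Or.inl ⟨z₁, by rw [h1, one_mul]⟩
  · obtain ⟨t, u, v, ha'⟩ := pos_cases c.θ c.hθ c.hK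
      (g := ⟨a, (eq_fixed c.θ c.hθ c.hK).symm ▸ (Subgroup.mem_inf.1 ha).2⟩) (Subgroup.mem_inf.1 ha).1
    set b' : GR K m := ⟨b, (eq_fixed c.θ c.hθ c.hK).symm ▸ (Subgroup.mem_inf.1 hb).2⟩
    have hbB : b' ∈ bSub K m := Subgroup.mem_subgroupOf.2 (Subgroup.mem_inf.1 hb).1
    have hg : g = uR m t u v * wR c * b' := by rw [← ha']; exact Subtype.ext eg
    obtain ⟨z₂, hz₂⟩ := wR_conj c z'
    obtain ⟨t', u', v', ea⟩ : ∃ t' u' v', c.T.hom z' * uR m t u v * (c.T.hom z')⁻¹ = uR m t' u' v' :=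
      ⟨_, _, _, c.T.conj z' t u v⟩
    have key : (wR c)⁻¹ * ((uR m t u v)⁻¹ * uR m t' u' v') * wR c =
        b' * c.T.hom z * b'⁻¹ * (c.T.hom z₂)⁻¹ := by
      rw [← ea, ← hz₂]
      rw [hg] at e
      calc (wR c)⁻¹ * ((uR m t u v)⁻¹ * (c.T.hom z' * uR m t u v * (c.T.hom z')⁻¹)) * wR c
          = (wR c)⁻¹ * (uR m t u v)⁻¹ * (c.T.hom z' * (uR m t u v * wR c * b')) * b'⁻¹ *
              ((wR c)⁻¹ * c.T.hom z' * wR c)⁻¹ := by group
        _ = _ := by rw [← e]; group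
    have hd : ((uR m t u v)⁻¹ * uR m t' u' v').1 ∈ chevG2.diagonalSubgroup K := by
      refine borel_inter c.θ c.hθ c.hK (eq_fixed c.θ c.hθ c.hK ▸ ((uR m t u v)⁻¹ * uR m t' u' v').2)
        (mul_mem (inv_mem (uR_borel _ _ _)) (uR_borel _ _ _)) ?_
      have h := mul_mem (mul_mem (mul_mem hbB (tor_mem_bSub c z)) (inv_mem hbB))
        (inv_mem (tor_mem_bSub c z₂))
      rw [← key] at h
      exact Subgroup.mem_subgroupOf.1 h
    have heq := inv_mul_eq_one.1 (eq_one_of_pos_diag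
      (mul_mem (inv_mem (uR_pos _ _ _)) (uR_pos _ _ _)) hd)
    rw [← ea, eq_comm, mul_inv_eq_iff_eq_mul] at heq
    obtain ⟨rfl, rfl, rfl⟩ := diag_commute_pos c.θ c.hθ c.hK c.T z' hz' heq
    rw [uR_one, one_mul] at hg
    obtain ⟨p, r, s, z₁, hb'⟩ := bor_cases c hbB
    rw [hb'] at hg
    rw [hg] at e
    have hz2' : z₂ ^ 2 ≠ 1 := fun h => hz' (c.T.inj (by
      have h' := congrArg (fun x => wR c * x * (wR c)⁻¹) (congrArg c.T.hom h)
      simp only [map_pow, map_one, mul_one, mul_inv_cancel, ← hz₂] at h'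
      rw [map_pow, map_one, ← h']
      simp [pow_two, mul_assoc]))
    have e' : uR m p r s * c.T.hom z = c.T.hom z₂ * uR m p r s := by
      calc uR m p r s * c.T.hom z
          = (wR c)⁻¹ * (wR c * (uR m p r s * c.T.hom z₁) * c.T.hom z) * (c.T.hom z₁)⁻¹ := by
            rw [mul_assoc (wR c), mul_assoc (uR m p r s), ← map_mul, mul_comm z₁, map_mul]; group
        _ = (wR c)⁻¹ * c.T.hom z' * wR c * uR m p r s := by rw [e]; group
        _ = _ := by rw [hz₂]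
    refine Or.inr ⟨z₁, ?_⟩
    rw [hg, hnorm p r s z z₂ hz e', one_mul]

theorem wR_not_cent {z : Kˣ} {r : ℕ} (hr : r.Prime) (h2 : r ≠ 2) (hz : orderOf z = r) :
    wR c * c.T.hom z ≠ c.T.hom z * wR c := by
  intro hc
  haveI := Fact.mk hr
  have hq : r ∣ qq m - 1 := by
    have := orderOf_dvd_natCard z
    rwa [hz, Nat.card_units, Nat.card_eq_fintype_card, c.hK] at this
  have h3 : r ≠ 3 := by
    intro h
    subst h
    have h1 : 3 ∣ qq m := dvd_pow_self 3 (by omega)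
    have := qq_ge c
    omega
  -- a Sylow subgroup inside the torus
  set H := c.T.hom.range
  obtain ⟨P₀⟩ : Nonempty (Sylow r ↥H) := inferInstance
  have hHc : Nat.card H = qq m - 1 := by
    rw [Nat.card_congr (MonoidHom.ofInjective c.T.inj).toEquiv.symm, Nat.card_units,
      Nat.card_eq_fintype_card, c.hK]
  set R := (P₀ : Subgroup ↥H).map H.subtype
  have hRc : Nat.card R = r ^ (Nat.card (GR K m)).factorization r := by
    rw [Subgroup.card_map_of_injective (Subgroup.subtype_injective _), P₀.card_eq_multiplicity, hHc]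
    congr 1
    have hq1 : qq m - 1 ≠ 0 := by have := qq_ge c; omega
    rw [card_G c, Nat.factorization_mul (by positivity) (by positivity),
      Nat.factorization_mul (by positivity) hq1]
    simp only [Finsupp.coe_add, Pi.add_apply]
    rw [Nat.factorization_eq_zero_of_not_dvd (n := qq m ^ 3) (fun h => h3
        ((Nat.prime_dvd_prime_iff_eq hr Nat.prime_three).1 (hr.dvd_of_dvd_pow (hr.dvd_of_dvd_pow h)))),
      Nat.factorization_eq_zero_of_not_dvd (n := qq m ^ 3 + 1) (fun h => h2 (by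
        have h1 : r ∣ qq m ^ 3 - 1 := hq.trans (by simpa using Nat.sub_dvd_pow_sub_pow (qq m) 1 3)
        have h4 := Nat.dvd_sub h h1
        rw [show qq m ^ 3 + 1 - (qq m ^ 3 - 1) = 2 by
          have : 1 ≤ qq m ^ 3 := Nat.one_le_pow _ _ (by positivity)
          omega] at h4
        exact (Nat.prime_dvd_prime_iff_eq hr Nat.prime_two).1 h4))]
    omega
  let S : Sylow r (GR K m) := Sylow.ofCard R hRc
  have hScomm : ∀ x ∈ (S : Subgroup (GR K m)), x ∈ H := fun x hx => by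
    obtain ⟨y, -, rfl⟩ := hx
    exact y.2
  have hzS : c.T.hom z ∈ (S : Subgroup (GR K m)) := by
    obtain ⟨P, hP⟩ := (IsPGroup.of_card (p := r) (n := 1)
      (G := Subgroup.zpowers (⟨c.T.hom z, z, rfl⟩ : ↥H))
      (by rw [Nat.card_zpowers, ← Subgroup.orderOf_coe, orderOf_injective c.T.hom c.T.inj, hz, pow_one])).exists_le_sylow
    haveI : IsMulCommutative ↥H := ⟨⟨fun a b => Subtype.ext (by
      obtain ⟨x, hx⟩ := a.2
      obtain ⟨y, hy⟩ := b.2
      show (a : GR K m) * b = b * a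
      rw [← hx, ← hy, ← map_mul, mul_comm, map_mul])⟩⟩
    have : P = P₀ := by
      haveI := Sylow.unique_of_normal P₀ inferInstance
      exact Subsingleton.elim _ _
    exact ⟨_, this ▸ hP (Subgroup.mem_zpowers _), rfl⟩
  -- `w` centralises it
  have hwS : ∀ x ∈ (S : Subgroup (GR K m)), wR c * x = x * wR c := by
    intro x hx
    obtain ⟨zx, hzx⟩ := hScomm x hx
    obtain ⟨z₁, hz₁⟩ := wR_conj c zx
    by_contra hne
    have hne' : z₁ / zx ≠ 1 := by
      rw [Ne, div_eq_one]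
      intro h
      rw [h, hzx, mul_assoc, inv_mul_eq_iff_eq_mul] at hz₁
      exact hne hz₁.symm
    obtain ⟨k, hk⟩ := IsPGroup.iff_orderOf.1 S.isPGroup' ⟨x, hx⟩
    rw [Subgroup.orderOf_mk, ← hzx, orderOf_injective c.T.hom c.T.inj] at hk
    have hzk : orderOf z₁ = r ^ k := by
      rw [← orderOf_injective c.T.hom c.T.inj, ← hz₁,
        show (wR c)⁻¹ * c.T.hom zx * wR c = (wR c)⁻¹ * c.T.hom zx * ((wR c)⁻¹)⁻¹ by rw [inv_inv],
        orderOf_conj, orderOf_injective c.T.hom c.T.inj, hk]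
    have hd : orderOf (z₁ / zx) ∣ r ^ k := by
      refine orderOf_dvd_of_pow_eq_one ?_
      rw [div_pow, ← hzk, pow_orderOf_eq_one, one_div, inv_eq_one, hzk, ← hk, pow_orderOf_eq_one]
    obtain ⟨j, -, hj⟩ := (Nat.dvd_prime_pow hr).1 hd
    have hj0 : j ≠ 0 := by
      rintro rfl
      rw [pow_zero, orderOf_eq_one_iff] at hj
      exact hne' hj
    set y := (z₁ / zx) ^ r ^ (j - 1) with hy
    have hyo : orderOf y = r := by
      have h1 : orderOf (z₁ / zx) = r ^ (j - 1) * r := by rw [hj, ← pow_succ, Nat.sub_add_cancel (by omega)]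
      rw [hy, orderOf_pow, h1, Nat.gcd_eq_right (dvd_mul_right _ _), Nat.mul_div_cancel_left _ (pow_pos hr.pos _)]
    have hyz : y ∈ Subgroup.zpowers z := by
      have h1 : Subgroup.zpowers y = Subgroup.zpowers z := by
        apply SetLike.coe_injective
        have key : ∀ u : Kˣ, orderOf u = r → (Subgroup.zpowers u : Set Kˣ) = {v | v ^ r = 1} := by
          intro u hu
          refine Set.eq_of_subset_of_ncard_le (fun v hv => ?_) ?_
          · obtain ⟨i, rfl⟩ := hv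
            show (u ^ i) ^ r = 1
            rw [← zpow_natCast, ← zpow_mul, mul_comm i, zpow_mul, zpow_natCast, ← hu, pow_orderOf_eq_one, one_zpow]
          · rw [← Nat.card_coe_set_eq, ← Nat.card_coe_set_eq]
            show _ ≤ Nat.card ↥(Subgroup.zpowers u)
            rw [Nat.card_zpowers, hu]
            exact le_of_eq (show Nat.card ↥(powMonoidHom r : Kˣ →* Kˣ).ker = r by
              rw [IsCyclic.card_powMonoidHom_ker, Nat.gcd_eq_right]
              exact hu ▸ orderOf_dvd_natCard u)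
        rw [key y hyo, key z hz]
      exact h1 ▸ Subgroup.mem_zpowers y
    -- `w` inverts and fixes `y`
    let σ : GR K m ≃* GR K m := MulAut.conj (wR c)⁻¹
    have hσ : σ (c.T.hom (z₁ / zx)) = (c.T.hom (z₁ / zx))⁻¹ := by
      obtain ⟨zs, hzs⟩ := wR_sq c
      have h2 : σ (c.T.hom z₁) = c.T.hom zx := by
        show (wR c)⁻¹ * c.T.hom z₁ * (wR c)⁻¹⁻¹ = c.T.hom zx
        rw [inv_inv, ← hz₁,
          show (wR c)⁻¹ * ((wR c)⁻¹ * c.T.hom zx * wR c) * wR c = (wR c * wR c)⁻¹ * c.T.hom zx * (wR c * wR c) by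
            group, hzs, mul_assoc, ← map_mul, mul_comm zx, map_mul, inv_mul_cancel_left]
      have h1 : σ (c.T.hom zx) = c.T.hom z₁ := by
        show (wR c)⁻¹ * c.T.hom zx * (wR c)⁻¹⁻¹ = c.T.hom z₁
        rw [inv_inv, hz₁]
      rw [map_div, map_div, h1, h2, inv_div]
    have hσy : σ (c.T.hom y) = (c.T.hom y)⁻¹ := by
      rw [hy, map_pow, map_pow, hσ, inv_pow]
    have hσy' : σ (c.T.hom y) = c.T.hom y := by
      obtain ⟨i, hi⟩ := hyz
      rw [← hi]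
      show σ (c.T.hom (z ^ i)) = c.T.hom (z ^ i)
      rw [map_zpow, map_zpow]
      congr 1
      show (wR c)⁻¹ * c.T.hom z * (wR c)⁻¹⁻¹ = c.T.hom z
      rw [inv_inv, mul_assoc, ← hc, inv_mul_cancel_left]
    have : y ^ 2 = 1 := c.T.inj (by rw [map_pow, map_one, pow_two]; exact mul_eq_one_iff_eq_inv.2 (hσy'.symm.trans hσy))
    have := Nat.le_of_dvd two_pos (hyo ▸ orderOf_dvd_of_pow_eq_one this)
    have := hr.two_le
    omega
  have hN : Subgroup.normalizer ((S : Subgroup (GR K m)) : Set (GR K m)) ≤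
      Subgroup.centralizer ((S : Subgroup (GR K m)) : Set (GR K m)) := by
    intro g hg
    have hzz : z ^ 2 ≠ 1 := fun h => by
      have := Nat.le_of_dvd two_pos (hz ▸ orderOf_dvd_of_pow_eq_one h)
      have := hr.two_le
      omega
    have hgz := (Subgroup.mem_normalizer_iff.1 hg (c.T.hom z)).1 hzS
    obtain ⟨z', hz'⟩ := hScomm _ hgz
    have hz'2 : z' ^ 2 ≠ 1 := fun h => hzz (c.T.inj (by
      have h1 := congrArg c.T.hom h
      rw [map_pow, hz', conj_pow, map_one, conj_eq_one_iff, ← map_pow] at h1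
      rw [h1, map_one]))
    rw [Subgroup.mem_centralizer_iff]
    intro x hx
    obtain ⟨zx, rfl⟩ := hScomm x hx
    rcases torus_step c (g := g) hzz hz'2 (by rw [hz']; group) with ⟨z₁, rfl⟩ | ⟨z₁, rfl⟩
    · rw [← map_mul, ← map_mul, mul_comm]
    · calc c.T.hom zx * (wR c * c.T.hom z₁) = wR c * c.T.hom zx * c.T.hom z₁ := by
            rw [hwS _ hx]; group
        _ = wR c * c.T.hom z₁ * c.T.hom zx := by
            rw [mul_assoc, ← map_mul, mul_comm, map_mul, ← mul_assoc]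
  haveI : IsMulCommutative ↥(S : Subgroup (GR K m)) := ⟨⟨fun a b => Subtype.ext (by
    obtain ⟨x, hx⟩ := hScomm _ a.2
    obtain ⟨y, hy⟩ := hScomm _ b.2
    show (a : GR K m) * b = b * a
    rw [← hx, ← hy, ← map_mul, mul_comm, map_mul])⟩⟩
  have hcomp := MonoidHom.ker_transferSylow_isComplement' S hN
  have htop : (MonoidHom.transferSylow S hN).ker = ⊤ := by
    rw [eq_top_iff, ← perfect c, commutator_eq_closure, Subgroup.closure_le]
    rintro _ ⟨a, b, rfl⟩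
    rw [SetLike.mem_coe, MonoidHom.mem_ker, map_commutatorElement, commutatorElement_eq_one_iff_mul_comm]
    exact mul_comm' _ _
  rw [htop, Subgroup.isComplement'_top_left] at hcomp
  have : c.T.hom z ∈ (⊥ : Subgroup (GR K m)) := hcomp ▸ hzS
  rw [Subgroup.mem_bot] at this
  rw [c.T.inj (this.trans (map_one c.T.hom).symm), orderOf_one] at hz
  exact hr.ne_one hz.symm

omit c in
theorem exists_odd_prime {n q : ℕ} (hq : q % 4 = 3) (hn : n ∣ q - 1) (h2 : ¬ n ∣ 2) :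
    ∃ r, r.Prime ∧ r ≠ 2 ∧ r ∣ n := by
  obtain ⟨j, hj⟩ : ∃ j, q - 1 = 2 * (2 * j + 1) := ⟨q / 4, by omega⟩
  rw [hj] at hn
  by_contra hcon
  push Not at hcon
  have hco : Nat.Coprime n (2 * j + 1) := Nat.coprime_of_dvd fun r hr hrn hrj => by
    rcases eq_or_ne r 2 with rfl | h
    · omega
    · exact hcon r hr h hrn
  exact h2 (hco.dvd_of_dvd_mul_right hn)

theorem exists_odd_power {z : Kˣ} (hz : z ^ 2 ≠ 1) :
    ∃ r k, r.Prime ∧ r ≠ 2 ∧ orderOf (z ^ k) = r ∧ r ∣ orderOf z := by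
  have hn : orderOf z ∣ qq m - 1 := by
    have := orderOf_dvd_natCard z
    rwa [Nat.card_units, Nat.card_eq_fintype_card, c.hK] at this
  obtain ⟨r, hr, h2, hd⟩ := exists_odd_prime (by have := qq_mod c; omega) hn
    (fun h => hz (orderOf_dvd_iff_pow_eq_one.1 h))
  exact ⟨r, orderOf z / r, hr, h2, orderOf_pow_orderOf_div (orderOf_pos z).ne' hd, hd⟩

/-- The centraliser of a torus element which is not an involution. -/
theorem cz_tor {z : Kˣ} (hz : z ^ 2 ≠ 1) : cz (c.T.hom z) = c.T.hom.range := by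
  refine le_antisymm (fun g hg => ?_) ?_
  · rcases torus_step c hz hz (mem_cz.1 hg) with h | ⟨z₁, rfl⟩
    · exact h
    exfalso
    obtain ⟨r, k, hr, h2, ho, -⟩ := exists_odd_power c hz
    refine wR_not_cent c hr h2 ho ?_
    have h1 : Commute (wR c) (c.T.hom z) := by
      have h := mem_cz.1 hg
      rw [mul_assoc, ← map_mul, mul_comm, map_mul, ← mul_assoc, ← mul_assoc] at h
      exact mul_right_cancel h
    rw [map_pow]
    exact (h1.pow_right k).eq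
  · rintro _ ⟨z₁, rfl⟩
    rw [mem_cz, ← map_mul, ← map_mul, mul_comm]

theorem exists_zgood : ∃ z : Kˣ, z ^ 2 ≠ 1 ∧ ∀ x : Kˣ, x ∈ Subgroup.zpowers z := by
  obtain ⟨z, h, -, hg⟩ := exists_generator (m := m) c.hK c.hm
  exact ⟨z, h, hg⟩

theorem card_range : Nat.card c.T.hom.range = qq m - 1 := by
  rw [Nat.card_congr (MonoidHom.ofInjective c.T.inj).toEquiv.symm, Nat.card_units,
    Nat.card_eq_fintype_card, c.hK]

theorem norm_iff {g : GR K m} {z : Kˣ} (hz : z ^ 2 ≠ 1) :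
    g * c.T.hom z * g⁻¹ ∈ c.T.hom.range ↔ g ∈ Subgroup.normalizer (c.T.hom.range : Set (GR K m)) := by
  refine ⟨fun ⟨z', hz'⟩ => ?_, fun h => (Subgroup.mem_normalizer_iff.1 h _).1 ⟨z, rfl⟩⟩
  have hz'2 : z' ^ 2 ≠ 1 := fun h => hz (c.T.inj (by
    have h1 := congrArg c.T.hom h
    rw [map_pow, hz', conj_pow, map_one, conj_eq_one_iff, ← map_pow] at h1
    rw [h1, map_one]))
  rw [Subgroup.mem_normalizer_iff]
  intro x
  rw [← cz_tor c hz]
  conv_rhs => rw [cz_tor c hz, ← cz_tor c hz'2, hz']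
  exact conj_mem_cz.symm

theorem card_norm : Nat.card (Subgroup.normalizer (c.T.hom.range : Set (GR K m))) = 2 * (qq m - 1) := by
  classical
  obtain ⟨z₀, hz₀, -⟩ := exists_zgood c
  set N := Subgroup.normalizer (c.T.hom.range : Set (GR K m))
  have hle : c.T.hom.range ≤ N := Subgroup.le_normalizer
  have hwN : wR c ∈ N := by
    rw [← norm_iff c hz₀]
    obtain ⟨z', hz'⟩ := wR_conj c z₀
    obtain ⟨zs, hzs⟩ := wR_sq c
    refine ⟨zs * z' * zs⁻¹, ?_⟩
    rw [map_mul, map_mul, map_inv, ← hz', ← hzs]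
    group
  have hwH : wR c ∉ c.T.hom.range := fun ⟨z, hz⟩ => wR_not_bor c (hz ▸ tor_mem_bSub c z)
  have hidx : (c.T.hom.range.subgroupOf N).index = 2 := by
    rw [Subgroup.index_eq_two_iff]
    refine ⟨⟨wR c, hwN⟩, fun b => ?_⟩
    obtain ⟨z', hz'⟩ := (norm_iff c hz₀).2 b.2
    have hz'2 : z' ^ 2 ≠ 1 := fun h => hz₀ (c.T.inj (by
      have h1 := congrArg c.T.hom h
      rw [map_pow, hz', conj_pow, map_one, conj_eq_one_iff, ← map_pow] at h1
      rw [h1, map_one]))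
    have hstep := torus_step c hz₀ hz'2 (g := b.1) (by rw [hz']; group)
    rw [Subgroup.mem_subgroupOf, Subgroup.mem_subgroupOf, Subgroup.coe_mul]
    rcases hstep with h | ⟨z₁, h⟩
    · refine Or.inr ⟨h, fun hb => hwH ?_⟩
      exact (Subgroup.mul_mem_cancel_left _ h).1 hb
    · refine Or.inl ⟨?_, fun hb => hwH ?_⟩
      · show b.1 * wR c ∈ c.T.hom.range
        obtain ⟨z₂, hz₂⟩ := wR_conj c z₁
        obtain ⟨zs, hzs⟩ := wR_sq c
        refine ⟨zs * z₂, ?_⟩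
        rw [map_mul, ← hz₂, ← hzs, h]
        group
      · rw [h] at hb
        exact (Subgroup.mul_mem_cancel_right _ (MonoidHom.mem_range.2 ⟨z₁, rfl⟩)).1 hb
  rw [← Subgroup.card_mul_index (c.T.hom.range.subgroupOf N), hidx,
    Nat.card_congr (Subgroup.subgroupOfEquivOfLe hle).toEquiv, card_range c, mul_comm]

end Cfsg.Agent.Lib.ReeTwoTori
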