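import Cfsg.Agent.Lib.ReeTwoTori.Quarter

/-! Element counts in the Ree groups. -/

set_option autoImplicit false
set_option maxHeartbeats 400000

namespace Cfsg.Agent.Lib.ReeTwoTori

open Cfsg.Lie Cfsg.Agent.Lib Cfsg.Agent.Lib.Chev Cfsg.Agent.Lib.Chev.G2
open Cfsg.Agent.Lib.ReeAut

variable {K : Type*} [Field K] [Fintype K] [CharP K 3] {m : ℕ} (c : Ctx K m)

include c

theorem uR_cube (t u v : K) : uR m t u v * uR m t u v * uR m t u v = uR m 0 0 (-((t ^ 3 ^ m) ^ 3 * t ^ 2)) := by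
  have h3 : (3 : K) = 0 := CharP.ofNat_eq_zero K 3
  rw [uR_mul c.θ c.hθ c.hK, uR_mul c.θ c.hθ c.hK]
  congr 1
  · linear_combination t * h3
  · linear_combination (u - (t ^ 3 ^ m) ^ 3 * t) * h3
  · linear_combination (v - t * u) * h3

theorem uR_mul_zero (p r u : K) : uR m p 0 r * uR m 0 u 0 = uR m p u r := by
  rw [uR_mul c.θ c.hθ c.hK]
  have h : (0 : K) ^ 3 ^ m = 0 := zero_pow (by positivity)
  rw [h]
  congr 1 <;> ring

omit c in
theorem uR_eq_one {t u v : K} : uR m t u v = 1 ↔ t = 0 ∧ u = 0 ∧ v = 0 := by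
  constructor
  · intro h
    exact uR_inj (h.trans uR_one.symm)
  · rintro ⟨rfl, rfl, rfl⟩; exact uR_one

theorem orderOf_uR (t u v : K) : orderOf (uR m t u v) = 3 ↔ t = 0 ∧ ¬ (u = 0 ∧ v = 0) := by
  haveI : Fact (Nat.Prime 3) := ⟨Nat.prime_three⟩
  have hk : (0 : K) ^ 3 ^ m = 0 := zero_pow (by positivity)
  rw [orderOf_eq_prime_iff, pow_succ, pow_two, uR_cube c, uR_eq_one, Ne, uR_eq_one]
  constructor
  · rintro ⟨⟨-, -, h⟩, h1⟩
    have ht : t = 0 := by
      rcases mul_eq_zero.1 (neg_eq_zero.1 h) with h | h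
      · exact eq_zero_of_pow_eq_zero (eq_zero_of_pow_eq_zero h)
      · exact eq_zero_of_pow_eq_zero h
    exact ⟨ht, fun h2 => h1 ⟨ht, h2⟩⟩
  · rintro ⟨rfl, h⟩
    exact ⟨⟨rfl, rfl, by rw [hk]; ring⟩, fun h1 => h h1.2⟩

theorem orderOf_uR_dvd (t u v : K) : orderOf (uR m t u v) ∣ 9 := by
  refine orderOf_dvd_of_pow_eq_one ?_
  have cube : ∀ a b d : K, uR m a b d ^ 3 = uR m 0 0 (-((a ^ 3 ^ m) ^ 3 * a ^ 2)) := fun a b d => by
    rw [pow_succ, pow_two, uR_cube c]
  rw [show 9 = 3 * 3 from rfl, pow_mul, cube, cube]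
  rw [zero_pow (by positivity : 3 ^ m ≠ 0)]
  simp [uR_one]

theorem orderOf_uR_nine (t u v : K) : orderOf (uR m t u v) = 9 ↔ t ≠ 0 := by
  constructor
  · rintro h rfl
    by_cases h1 : u = 0 ∧ v = 0
    · rw [h1.1, h1.2, uR_one, orderOf_one] at h; omega
    · rw [(orderOf_uR c 0 u v).2 ⟨rfl, h1⟩] at h; omega
  · intro ht
    obtain ⟨i, hi, e⟩ := (Nat.dvd_prime_pow Nat.prime_three (m := 2)).1 (orderOf_uR_dvd c t u v)
    have h1 : i ≠ 0 := by
      rintro rfl
      rw [pow_zero, orderOf_eq_one_iff, uR_eq_one] at e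
      exact ht e.1
    have h2 : i ≠ 1 := by
      rintro rfl
      exact ht ((orderOf_uR c t u v).1 (e.trans (pow_one 3))).1
    obtain rfl : i = 2 := by omega
    exact e

theorem a0_conj (t u v : K) : a0 c * uR m t u v * (a0 c)⁻¹ = uR m (-t) u (-v) := by
  rw [a0, c.T.conj]
  have ho : Odd (3 * 3 ^ m) := (Nat.odd_iff.2 (by norm_num)).mul (Odd.pow (Nat.odd_iff.2 (by norm_num)))
  have h1 : ((-1 : Kˣ) : K) = -1 := by simp
  rw [h1, (ho.add_one).neg_one_pow, show 3 * 3 ^ m + 2 = 3 * 3 ^ m + 1 + 1 by ring, pow_succ,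
    (ho.add_one).neg_one_pow]
  congr 1 <;> ring

theorem commute_a0_uR {t u v : K} (h : uR m t u v * a0 c = a0 c * uR m t u v) : t = 0 ∧ v = 0 := by
  have e := a0_conj c t u v
  rw [← h, mul_inv_cancel_right] at e
  obtain ⟨h1, -, h2⟩ := uR_inj e
  have key : ∀ x : K, x = -x → x = 0 := fun x hx => by
    have h3 : (3 : K) = 0 := CharP.ofNat_eq_zero K 3
    linear_combination (-1 : K) * hx + x * h3
  exact ⟨key t h1, key v h2⟩

theorem uR_comm_a0 (u : K) : Commute (uR m 0 u 0) (a0 c) := by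
  have e := a0_conj c 0 u 0
  rw [neg_zero, mul_inv_eq_iff_eq_mul] at e
  exact e.symm

theorem a0_sq : a0 c * a0 c = 1 := by rw [a0, ← map_mul, neg_mul_neg, one_mul, map_one]

/-- The three kinds of elements of the Borel subgroup. -/
theorem bor_classify {g : GR K m} (hg : g ∈ bSub K m) :
    g ∈ uSub K m ∨ (∃ y ∈ uSub K m, ∃ z : Kˣ, z ^ 2 ≠ 1 ∧ y⁻¹ * g * y = c.T.hom z) ∨
      ∃ y ∈ uSub K m, ∃ u, y⁻¹ * g * y = uR m 0 u 0 * a0 c := by
  obtain ⟨t, u, v, z, rfl⟩ := bor_cases c hg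
  by_cases hz : z ^ 2 = 1
  · have : z = 1 ∨ z = -1 := by
      have h' : (z : K) ^ 2 = 1 := by rw [← Units.val_pow_eq_pow_val, hz, Units.val_one]
      rcases (sq_eq_one_iff).1 h' with h | h
      · exact Or.inl (Units.ext (by simpa using h))
      · exact Or.inr (Units.ext (by simpa using h))
    rcases this with rfl | rfl
    · exact Or.inl (by rw [map_one, mul_one]; exact uR_mem_uSub t u v)
    · refine Or.inr (Or.inr ?_)
      set s := ((-t) ^ 3 ^ m) ^ 3
      have hs : (t ^ 3 ^ m) ^ 3 = -s := by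
        have ho : Odd (3 ^ m) := Odd.pow (Nat.odd_iff.2 (by norm_num))
        simp only [s, ho.neg_pow, (by decide : Odd 3).neg_pow, neg_neg]
      set r := -(s * t ^ 2 + v + (-t) * (s * t + u))
      refine ⟨uR m (-t) 0 r, uR_mem_uSub _ _ _, s * t + u, ?_⟩
      have key : uR m t u v * (a0 c * uR m (-t) 0 r * (a0 c)⁻¹) = uR m (-t) 0 r * uR m 0 (s * t + u) 0 := by
        have h3 : (3 : K) = 0 := CharP.ofNat_eq_zero K 3
        rw [a0_conj c, uR_mul_zero c, uR_mul c.θ c.hθ c.hK, neg_neg, hs]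
        congr 1
        · linear_combination t * h3
        · ring
        · simp only [r]; linear_combination (s * t ^ 2 + v + (-t) * (s * t + u)) * h3
      rw [show c.T.hom (-1) = a0 c from rfl]
      calc (uR m (-t) 0 r)⁻¹ * (uR m t u v * a0 c) * uR m (-t) 0 r
          = (uR m (-t) 0 r)⁻¹ * (uR m t u v * (a0 c * uR m (-t) 0 r * (a0 c)⁻¹)) * a0 c := by group
        _ = uR m 0 (s * t + u) 0 * a0 c := by rw [key]; group
  · obtain ⟨y, hy, e⟩ := borel_conj_torus c (t := t) (u := u) (v := v) hz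
    exact Or.inr (Or.inl ⟨y, hy, z, hz, e⟩)

/-- Elements of the shape `uR 0 u 0 * a0`. -/
theorem six_pow (u : K) : (uR m 0 u 0 * a0 c) ^ 3 = a0 c ∧ (uR m 0 u 0 * a0 c) ^ 4 = uR m 0 u 0 := by
  have h3 : (uR m 0 u 0) ^ 3 = 1 := by
    rw [pow_succ, pow_two, uR_cube c, uR_eq_one]
    exact ⟨rfl, rfl, by ring⟩
  have ha : a0 c ^ 2 = 1 := by rw [pow_two, a0_sq]
  rw [(uR_comm_a0 c u).mul_pow, (uR_comm_a0 c u).mul_pow]
  constructor
  · rw [h3, one_mul, pow_succ, ha, one_mul]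
  · rw [pow_succ _ 3, h3, one_mul, show 4 = 2 * 2 from rfl, pow_mul, ha, one_pow, mul_one]

theorem six_order {u : K} (hu : u ≠ 0) : orderOf (uR m 0 u 0 * a0 c) = 6 := by
  rw [(uR_comm_a0 c u).orderOf_mul_eq_mul_orderOf_of_coprime, (orderOf_uR c 0 u 0).2 ⟨rfl, fun h => hu h.1⟩,
    orderOf_a0]
  rw [(orderOf_uR c 0 u 0).2 ⟨rfl, fun h => hu h.1⟩, orderOf_a0]
  norm_num

theorem tor_order (z : Kˣ) : orderOf (c.T.hom z) ∣ qq m - 1 := by
  have := orderOf_dvd_natCard z
  rwa [Nat.card_units, Nat.card_eq_fintype_card, c.hK, ← orderOf_injective c.T.hom c.T.inj] at this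

theorem three_not_dvd_tor (z : Kˣ) : ¬ 3 ∣ orderOf (c.T.hom z) := fun h => by
  have h1 : 3 ∣ qq m := dvd_pow_self 3 (by omega)
  have h2 := h.trans (tor_order c z)
  have := qq_ge c
  omega

/-- An element of order divisible by three lies in a Borel subgroup. -/
theorem three_into {g : GR K m} (h : 3 ∣ orderOf g) :
    ∃ k, k * g * k⁻¹ ∈ uSub K m ∨ ∃ u, u ≠ 0 ∧ k * g * k⁻¹ = uR m 0 u 0 * a0 c := by
  set t := g ^ (orderOf g / 3)
  have ht : orderOf t = 3 := orderOf_pow_orderOf_div (orderOf_pos g).ne' h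
  obtain ⟨k, hk⟩ := three_move c (k := 1) (x := t) (by rw [ht, pow_one])
  have hne : k * t * k⁻¹ ≠ 1 := fun h => by rw [conj_eq_one_iff.1 h, orderOf_one] at ht; omega
  have hg : k * g * k⁻¹ ∈ bSub K m :=
    cz_uSub c hk hne (conj_mem_cz.2 (mem_cz.2 ((Commute.refl g).pow_right _).eq))
  rcases bor_classify c hg with h' | ⟨y, -, z, -, e⟩ | ⟨y, -, u, e⟩
  · exact ⟨k, Or.inl h'⟩
  · exfalso
    refine three_not_dvd_tor c z ?_
    rw [← e, show y⁻¹ * (k * g * k⁻¹) * y = y⁻¹ * k * g * (y⁻¹ * k)⁻¹ by group, orderOf_conj]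
    exact h
  · have e' : y⁻¹ * k * g * (y⁻¹ * k)⁻¹ = uR m 0 u 0 * a0 c := by rw [← e]; group
    refine ⟨y⁻¹ * k, Or.inr ⟨u, fun hu => ?_, e'⟩⟩
    have ho := orderOf_conj (y⁻¹ * k) g
    rw [e', hu, uR_one, one_mul, orderOf_a0] at ho
    rw [← ho] at h
    omega

theorem orders_three {g : GR K m} (h : 3 ∣ orderOf g) :
    orderOf g = 3 ∨ orderOf g = 6 ∨ orderOf g = 9 := by
  obtain ⟨k, hk | ⟨u, hu, hk⟩⟩ := three_into c h
  · obtain ⟨t, u, v, e⟩ := (mem_uSub c.θ c.hθ c.hK).1 hk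
    have h9 := orderOf_uR_dvd c t u v
    rw [← e, orderOf_conj] at h9
    obtain ⟨i, hi, e'⟩ := (Nat.dvd_prime_pow Nat.prime_three (m := 2)).1 h9
    interval_cases i
    · rw [e'] at h; norm_num at h
    · exact Or.inl e'
    · exact Or.inr (Or.inr e')
  · refine Or.inr (Or.inl ?_)
    rw [← orderOf_conj k g, hk, six_order c hu]

theorem count_U (o : ℕ) (ho : o = 3 ∨ o = 9) :
    Nat.card {g : GR K m // orderOf g = o} * Nat.card (bSub K m) =
      Nat.card {p : K × K × K // orderOf (uR m p.1 p.2.1 p.2.2) = o} * Nat.card (GR K m) := by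
  set S : Set (GR K m) := {x | x ∈ uSub K m ∧ orderOf x = o}
  have h := count_conj (fun g : GR K m => orderOf g = o) S (bSub K m)
    (fun g x hx => by rw [orderOf_conj]; exact hx) (fun x hx => hx.2)
    (fun x hx => by
      obtain ⟨g, hg⟩ : ∃ g, g * x * g⁻¹ ∈ uSub K m := by
        rcases ho with rfl | rfl
        · exact three_move c (k := 1) (by rw [hx, pow_one])
        · exact three_move c (k := 2) (by rw [hx]; norm_num)
      exact ⟨g, hg, by rw [orderOf_conj]; exact hx⟩)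
    (fun g x hx => by
      refine ⟨fun hg => ti_borel c hx.1 (fun e => ?_) hg.1,
        fun hg => ⟨bSub_normalizes c hg hx.1, by rw [orderOf_conj]; exact hx.2⟩⟩
      have := hx.2
      rw [e, orderOf_one] at this
      omega)
  rw [h]
  congr 1
  symm
  refine Nat.card_eq_of_bijective (fun p => ⟨uR m p.1.1 p.1.2.1 p.1.2.2, uR_mem_uSub _ _ _, p.2⟩) ⟨?_, ?_⟩
  · rintro ⟨⟨a, b, d⟩, _⟩ ⟨⟨a', b', d'⟩, _⟩ e
    obtain ⟨rfl, rfl, rfl⟩ := uR_inj (congrArg Subtype.val e)
    rfl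
  · rintro ⟨x, hx, hx'⟩
    obtain ⟨t, u, v, rfl⟩ := (mem_uSub c.θ c.hθ c.hK).1 hx
    exact ⟨⟨(t, u, v), hx'⟩, rfl⟩

theorem card_K : Nat.card K = qq m := by rw [Nat.card_eq_fintype_card, c.hK]

theorem count_three :
    Nat.card {g : GR K m // orderOf g = 3} = (qq m ^ 2 - 1) * (qq m ^ 3 + 1) := by
  classical
  have h := count_U c 3 (Or.inl rfl)
  have e : Nat.card {p : K × K × K // orderOf (uR m p.1 p.2.1 p.2.2) = 3} = qq m ^ 2 - 1 := by
    rw [Nat.card_congr (Equiv.subtypeEquivRight (q := fun p : K × K × K => p.1 = 0 ∧ ¬ (p.2.1 = 0 ∧ p.2.2 = 0))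
      (fun p : K × K × K => orderOf_uR c p.1 p.2.1 p.2.2))]
    let f : {p : K × K × K // p.1 = 0 ∧ ¬ (p.2.1 = 0 ∧ p.2.2 = 0)} ≃ {p : K × K // p ≠ 0} :=
      { toFun := fun p => ⟨p.1.2, fun h => p.2.2 ⟨congrArg Prod.fst h, congrArg Prod.snd h⟩⟩
        invFun := fun p => ⟨(0, p.1), rfl, fun h => p.2 (Prod.ext h.1 h.2)⟩
        left_inv := fun p => Subtype.ext (Prod.ext p.2.1.symm rfl)
        right_inv := fun p => rfl }
    rw [Nat.card_congr f, Nat.card_eq_fintype_card, Fintype.card_subtype_compl, Fintype.card_subtype_eq,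
      Fintype.card_prod, show Fintype.card K = qq m from c.hK, pow_two]
  replace h := h.trans (congrArg (· * Nat.card (GR K m)) e)
  rw [card_bSub c, card_G c] at h
  have hq := qq_ge c
  refine Nat.eq_of_mul_eq_mul_right (m := qq m ^ 3 * (qq m - 1)) (Nat.mul_pos (by positivity) (by omega)) ?_
  rw [h]; ring

theorem count_nine :
    Nat.card {g : GR K m // orderOf g = 9} = qq m ^ 2 * (qq m - 1) * (qq m ^ 3 + 1) := by
  classical
  have h := count_U c 9 (Or.inr rfl)
  have e : Nat.card {p : K × K × K // orderOf (uR m p.1 p.2.1 p.2.2) = 9} = (qq m - 1) * qq m ^ 2 := by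
    rw [Nat.card_congr (Equiv.subtypeEquivRight (q := fun p : K × K × K => p.1 ≠ 0)
      (fun p : K × K × K => orderOf_uR_nine c p.1 p.2.1 p.2.2))]
    let f : {p : K × K × K // p.1 ≠ 0} ≃ {p : K // p ≠ 0} × K × K :=
      { toFun := fun p => (⟨p.1.1, p.2⟩, p.1.2)
        invFun := fun p => ⟨(p.1.1, p.2), p.1.2⟩
        left_inv := fun p => rfl
        right_inv := fun p => rfl }
    rw [Nat.card_congr f, Nat.card_prod, Nat.card_prod, card_K c, Nat.card_eq_fintype_card,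
      Fintype.card_subtype_compl, Fintype.card_subtype_eq, show Fintype.card K = qq m from c.hK, pow_two]
  replace h := h.trans (congrArg (· * Nat.card (GR K m)) e)
  rw [card_bSub c, card_G c] at h
  have hq := qq_ge c
  refine Nat.eq_of_mul_eq_mul_right (m := qq m ^ 3 * (qq m - 1)) (Nat.mul_pos (by positivity) (by omega)) ?_
  rw [h]; ring

theorem count_two :
    Nat.card {g : GR K m // orderOf g = 2} = qq m ^ 2 * (qq m ^ 2 - qq m + 1) := by
  have h := count_conj (fun g : GR K m => orderOf g = 2) {a0 c} (cz (a0 c))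
    (fun g x hx => by rw [orderOf_conj]; exact hx) (fun x hx => by rw [Set.mem_singleton_iff.1 hx, orderOf_a0])
    (fun x hx => inv_conj c hx (orderOf_a0 c))
    (fun g x hx => by
      rw [Set.mem_singleton_iff.1 hx, Set.mem_singleton_iff, mem_cz, mul_inv_eq_iff_eq_mul])
  rw [card_cinv c (orderOf_a0 c), Nat.card_coe_set_eq, Set.ncard_singleton, one_mul, card_G c] at h
  have hq := qq_ge c
  obtain ⟨n, hn⟩ : ∃ n, qq m = n + 2 := ⟨qq m - 2, by omega⟩
  rw [hn] at h ⊢
  have hs : (n + 2) ^ 2 - 1 = (n + 1) * (n + 3) := by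
    rw [show (n + 2) ^ 2 = (n + 1) * (n + 3) + 1 by ring, Nat.add_sub_cancel]
  have hs2 : (n + 2) ^ 2 - (n + 2) = (n + 2) * (n + 1) := by
    rw [show (n + 2) ^ 2 = (n + 2) * (n + 1) + (n + 2) by ring, Nat.add_sub_cancel]
  refine Nat.eq_of_mul_eq_mul_right (m := (n + 2) * ((n + 2) ^ 2 - 1)) (by rw [hs]; positivity) ?_
  rw [h, hs, hs2, show n + 2 - 1 = n + 1 by omega]; ring

theorem count_six :
    Nat.card {g : GR K m // orderOf g = 6} = qq m ^ 2 * (qq m - 1) * (qq m ^ 3 + 1) := by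
  classical
  set S : Set (GR K m) := {x | ∃ u, u ≠ 0 ∧ x = uR m 0 u 0 * a0 c}
  have h := count_conj (fun g : GR K m => orderOf g = 6) S (cz (a0 c) ⊓ bSub K m)
    (fun g x hx => by rw [orderOf_conj]; exact hx)
    (by rintro x ⟨u, hu, rfl⟩; exact six_order c hu)
    (fun x hx => by
      obtain ⟨k, hk | ⟨u, hu, hk⟩⟩ := three_into c (g := x) (by rw [hx]; norm_num)
      · exfalso
        obtain ⟨t, u, v, e⟩ := (mem_uSub c.θ c.hθ c.hK).1 hk
        have h9 := orderOf_uR_dvd c t u v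
        rw [← e, orderOf_conj, hx] at h9
        norm_num at h9
      · exact ⟨k, u, hu, hk⟩)
    (by
      rintro g x ⟨u, hu, rfl⟩
      constructor
      · rintro ⟨u', hu', e⟩
        have e3 := congrArg (· ^ 3) e
        have e4 := congrArg (· ^ 4) e
        simp only [conj_pow, (six_pow c _).1] at e3
        simp only [conj_pow, (six_pow c _).2] at e4
        refine ⟨mem_cz.2 (mul_inv_eq_iff_eq_mul.1 e3), ti_borel c (uR_mem_uSub 0 u 0) ?_ (e4 ▸ uR_mem_uSub _ _ _)⟩
        rw [Ne, uR_eq_one]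
        exact fun h => hu h.2.1
      · rintro ⟨hg, hgB⟩
        have ha : g * a0 c * g⁻¹ = a0 c := by rw [mem_cz.1 hg, mul_inv_cancel_right]
        obtain ⟨t', u', v', e⟩ := (mem_uSub c.θ c.hθ c.hK).1 (bSub_normalizes c hgB (uR_mem_uSub 0 u 0))
        obtain ⟨rfl, rfl⟩ := commute_a0_uR c (t := t') (u := u') (v := v') (by
          rw [← e]
          calc g * uR m 0 u 0 * g⁻¹ * a0 c = g * uR m 0 u 0 * g⁻¹ * (g * a0 c * g⁻¹) := by rw [ha]
            _ = g * (uR m 0 u 0 * a0 c) * g⁻¹ := by group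
            _ = g * (a0 c * uR m 0 u 0) * g⁻¹ := by rw [(uR_comm_a0 c u).eq]
            _ = g * a0 c * g⁻¹ * (g * uR m 0 u 0 * g⁻¹) := by group
            _ = a0 c * (g * uR m 0 u 0 * g⁻¹) := by rw [ha])
        refine ⟨u', fun h => ?_, ?_⟩
        · rw [h, uR_one, conj_eq_one_iff, uR_eq_one] at e
          exact hu e.2.1
        · rw [← e]
          calc g * (uR m 0 u 0 * a0 c) * g⁻¹ = g * uR m 0 u 0 * g⁻¹ * (g * a0 c * g⁻¹) := by group
            _ = g * uR m 0 u 0 * g⁻¹ * a0 c := by rw [ha])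
  have eS : Nat.card S = qq m - 1 := by
    let f : {u : K // u ≠ 0} → S := fun u => ⟨_, u.1, u.2, rfl⟩
    rw [← Nat.card_eq_of_bijective f ⟨fun a b e => Subtype.ext (uR_inj (mul_right_cancel (congrArg Subtype.val e))).2.1,
      fun x => by obtain ⟨u, hu, e⟩ := x.2; exact ⟨⟨u, hu⟩, Subtype.ext e.symm⟩⟩,
      Nat.card_eq_fintype_card, Fintype.card_subtype_compl, Fintype.card_subtype_eq, show Fintype.card K = qq m from c.hK]
  have eN : Nat.card (cz (a0 c) ⊓ bSub K m : Subgroup (GR K m)) = qq m * (qq m - 1) := by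
    have hmem : ∀ u z, uR m 0 u 0 * c.T.hom z ∈ cz (a0 c) ⊓ bSub K m := fun u z =>
      ⟨mem_cz.2 ((uR_comm_a0 c u).mul_left (show Commute (c.T.hom z) (a0 c) from
        (Commute.all z (-1 : Kˣ)).map c.T.hom)).eq, mul_mem (uR_mem_bSub _ _ _) (tor_mem_bSub c z)⟩
    let f : K × Kˣ → (cz (a0 c) ⊓ bSub K m : Subgroup (GR K m)) := fun p => ⟨_, hmem p.1 p.2⟩
    have hf : Function.Bijective f := by
      constructor
      · rintro ⟨u, z⟩ ⟨u', z'⟩ e
        obtain ⟨-, rfl, -, rfl⟩ := uR_tor_inj c (congrArg Subtype.val e)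
        rfl
      · rintro ⟨g, hg, hgB⟩
        obtain ⟨t, u, v, z, rfl⟩ := bor_cases c hgB
        have h1 : Commute (uR m t u v) (a0 c) := by
          have h2 : Commute (c.T.hom z) (a0 c) := (Commute.all z (-1 : Kˣ)).map c.T.hom
          have h3 := (show Commute (uR m t u v * c.T.hom z) (a0 c) from mem_cz.1 hg).mul_left h2.inv_left
          rwa [mul_inv_cancel_right] at h3
        obtain ⟨rfl, rfl⟩ := commute_a0_uR c h1.eq
        exact ⟨(u, z), rfl⟩
    rw [← Nat.card_congr (Equiv.ofBijective f hf), Nat.card_prod, card_K c, Nat.card_units, card_K c]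
  rw [eS, eN, card_G c] at h
  have hq := qq_ge c
  refine Nat.eq_of_mul_eq_mul_right (m := qq m * (qq m - 1)) (Nat.mul_pos (by omega) (by omega)) ?_
  rw [h]; ring

/-- Counting by a self-centralising torus. -/
theorem count_ti {T : Subgroup (GR K m)} (hT : ∀ z ∈ T, z * z ≠ 1 → cz z = T) (P : GR K m → Prop)
    (hP : ∀ g x, P x → P (g * x * g⁻¹)) (hsq : ∀ x, P x → x * x ≠ 1)
    (hmove : ∀ x, P x → ∃ g, g * x * g⁻¹ ∈ T) :
    Nat.card {g : GR K m // P g} * Nat.card (Subgroup.normalizer (T : Set (GR K m))) =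
      Nat.card {z : T // P z.1} * Nat.card (GR K m) := by
  rw [count_conj P {x | x ∈ T ∧ P x} (Subgroup.normalizer (T : Set (GR K m))) hP (fun x hx => hx.2)
    (fun x hx => (hmove x hx).imp fun g hg => ⟨hg, hP g x hx⟩) (fun g x hx => ?_)]
  · congr 1
    exact Nat.card_congr (Equiv.subtypeSubtypeEquivSubtypeInter (· ∈ T) P).symm
  constructor
  · intro hg
    rw [Subgroup.mem_normalizer_iff]
    intro y
    conv_rhs => rw [← hT _ hg.1 (hsq _ hg.2)]
    conv_lhs => rw [← hT _ hx.1 (hsq _ hx.2)]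
    exact conj_mem_cz.symm
  · exact fun hg => ⟨(Subgroup.mem_normalizer_iff.1 hg _).1 hx.1, hP g x hx.2⟩

theorem minus_arith {r : ℕ} (hr : r.Prime) (h2 : r ≠ 2) (hd : r ∣ qq m - 1) :
    r ≠ 3 ∧ (qq m - 1).factorization r = (Nat.card (GR K m)).factorization r := by
  have h3q : 3 ∣ qq m := dvd_pow_self 3 (by omega)
  have hq := qq_ge c
  have h3 : r ≠ 3 := by
    rintro rfl
    omega
  refine ⟨h3, ?_⟩
  rw [card_G c, Nat.factorization_mul (Nat.mul_ne_zero (by positivity) (by omega)) (by positivity),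
    Nat.factorization_mul (by positivity) (by omega)]
  simp only [Finsupp.coe_add, Pi.add_apply]
  rw [Nat.factorization_eq_zero_of_not_dvd (n := qq m ^ 3) (fun h => h3
      ((Nat.prime_dvd_prime_iff_eq hr Nat.prime_three).1 (hr.dvd_of_dvd_pow (hr.dvd_of_dvd_pow h)))),
    Nat.factorization_eq_zero_of_not_dvd (n := qq m ^ 3 + 1) (fun h => h2 (by
      have h1 : r ∣ qq m ^ 3 - 1 := hd.trans (by simpa using Nat.sub_dvd_pow_sub_pow (qq m) 1 3)
      have h4 := Nat.dvd_sub h h1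
      rw [show qq m ^ 3 + 1 - (qq m ^ 3 - 1) = 2 by
        have : 1 ≤ qq m ^ 3 := Nat.one_le_pow _ _ (by omega)
        omega] at h4
      exact (Nat.prime_dvd_prime_iff_eq hr Nat.prime_two).1 h4))]
  omega

omit c in
theorem sq_ne_of_prime {z : GR K m} {r : ℕ} (hr : r.Prime) (h2 : r ≠ 2) (hz : orderOf z = r) :
    z * z ≠ 1 := by
  intro h
  have := Nat.le_of_dvd two_pos (hz ▸ orderOf_dvd_of_pow_eq_one (by rw [pow_two]; exact h))
  have := hr.two_le
  omega

theorem range_cz {z : GR K m} (hz : z ∈ c.T.hom.range) (h : z * z ≠ 1) : cz z = c.T.hom.range := by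
  obtain ⟨x, rfl⟩ := hz
  refine cz_tor c fun hx => h ?_
  rw [← map_mul, ← pow_two, hx, map_one]

theorem minus_move {g : GR K m} (hd : orderOf g ∣ qq m - 1) (h : g * g ≠ 1) :
    ∃ k, k * g * k⁻¹ ∈ c.T.hom.range := by
  obtain ⟨r, hr, h2, hrg⟩ := exists_odd_prime (by have := qq_mod c; omega) hd
    (fun h' => h (by rw [← pow_two]; exact orderOf_dvd_iff_pow_eq_one.1 h'))
  set y := g ^ (orderOf g / r)
  have hy : orderOf y = r := orderOf_pow_orderOf_div (orderOf_pos g).ne' hrg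
  obtain ⟨k, hk⟩ := sylow_move hr c.T.hom.range
    (by rw [card_range c]; exact (minus_arith c hr h2 (hrg.trans hd)).2) (x := y) (k := 1) (by rw [hy, pow_one])
  refine ⟨k, ?_⟩
  rw [← range_cz c hk (sq_ne_of_prime hr h2 (by rw [orderOf_conj, hy]))]
  exact conj_mem_cz.2 (mem_cz.2 ((Commute.refl g).pow_right _).eq)

theorem range_cyclic : IsCyclic c.T.hom.range :=
  isCyclic_of_surjective _ (MonoidHom.rangeRestrict_surjective c.T.hom)

theorem count_minus {i : ℕ} (hi : 2 < i) (hd : i ∣ qq m - 1) :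
    Nat.card {g : GR K m // orderOf g = i} * (2 * (qq m - 1)) = i.totient * Nat.card (GR K m) := by
  classical
  have h := count_ti c (T := c.T.hom.range) (fun z hz => range_cz c hz) (fun g => orderOf g = i)
    (fun g x hx => by rw [orderOf_conj]; exact hx)
    (fun x hx h => by
      have := Nat.le_of_dvd two_pos (hx ▸ orderOf_dvd_of_pow_eq_one (by rw [pow_two]; exact h))
      omega)
    (fun x hx => minus_move c (hx ▸ hd) (fun h => by
      have := Nat.le_of_dvd two_pos (hx ▸ orderOf_dvd_of_pow_eq_one (by rw [pow_two]; exact h))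
      omega))
  rw [card_norm c] at h
  rw [h]
  congr 1
  haveI := range_cyclic c
  haveI := Fintype.ofFinite c.T.hom.range
  rw [Nat.card_congr (Equiv.subtypeEquivRight fun z => by rw [Subgroup.orderOf_coe]),
    Nat.card_eq_fintype_card, Fintype.card_subtype]
  exact IsCyclic.card_orderOf_eq_totient (by rw [← Nat.card_eq_fintype_card, card_range c]; exact hd)

theorem count_split : Nat.card {g : GR K m // orderOf g ∣ qq m - 1 ∧ g * g ≠ 1} * (2 * (qq m - 1)) =
    (qq m - 3) * Nat.card (GR K m) := by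
  classical
  have h := count_ti c (T := c.T.hom.range) (fun z hz => range_cz c hz)
    (fun g => orderOf g ∣ qq m - 1 ∧ g * g ≠ 1)
    (fun g x hx => ⟨by rw [orderOf_conj]; exact hx.1, fun e => hx.2 ((conj_eq_one_iff (a := g) (b := x * x)).1 (by
      rw [← e]; group))⟩)
    (fun x hx => hx.2) (fun x hx => minus_move c hx.1 hx.2)
  rw [card_norm c] at h
  rw [h]
  congr 1
  have hiff : ∀ x : Kˣ, (orderOf (c.T.hom x) ∣ qq m - 1 ∧ c.T.hom x * c.T.hom x ≠ 1) ↔ x ≠ 1 ∧ x ≠ -1 := by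
    intro x
    rw [Ne, ← map_mul, ← c.T.hom.map_one, c.T.inj.eq_iff, and_iff_right (tor_order c x)]
    constructor
    · intro h; constructor <;> rintro rfl <;> exact h (by simp)
    · rintro ⟨h1, h2⟩ h
      have h' : (x : K) ^ 2 = 1 := by rw [pow_two, ← Units.val_mul, h, Units.val_one]
      rcases (sq_eq_one_iff).1 h' with e | e
      · exact h1 (Units.ext (by simpa using e))
      · exact h2 (Units.ext (by simpa using e))
  rw [← Nat.card_congr ((MonoidHom.ofInjective c.T.inj).toEquiv.subtypeEquiv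
    (fun x => (hiff x).symm)), Nat.card_eq_fintype_card, Fintype.card_subtype]
  have hne : (-1 : Kˣ) ≠ 1 := neg_one_ne
  rw [show (Finset.univ.filter fun x : Kˣ => x ≠ 1 ∧ x ≠ -1) = Finset.univ \ {1, -1} by ext x; simp,
    Finset.card_sdiff_of_subset (Finset.subset_univ _), Finset.card_pair hne.symm, Finset.card_univ,
    Fintype.card_units, show Fintype.card K = qq m from c.hK]
  omega

variable {c}

theorem QData.u_sq_order {D : Subgroup (GR K m)} (Q : QData c D) :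
    orderOf (Q.u * Q.u) = (qq m + 1) / 4 := by
  have hqm := qq_mod c
  rw [← pow_two, orderOf_pow, Q.hu, Nat.gcd_eq_right (by omega : 2 ∣ (qq m + 1) / 2)]
  omega

theorem QData.mem_odd {D : Subgroup (GR K m)} (Q : QData c D) {z : GR K m} (hz : z ∈ D)
    (h : z ^ ((qq m + 1) / 4) = 1) : z ∈ Subgroup.zpowers (Q.u * Q.u) := by
  have hqm := qq_mod c
  set n := (qq m + 1) / 4 with hn
  have hodd : Odd n := Nat.odd_iff.2 (by omega)
  obtain ⟨j, hj⟩ := Q.hmem z hz
  rcases hj with rfl | rfl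
  · have hd : ((orderOf Q.u : ℕ) : ℤ) ∣ j * (n : ℤ) := by
      rw [orderOf_dvd_iff_zpow_eq_one, zpow_mul, zpow_natCast]; exact h
    rw [Q.hu, show (((qq m + 1) / 2 : ℕ) : ℤ) = 2 * (n : ℤ) by omega] at hd
    obtain ⟨l, hl⟩ : (2 : ℤ) ∣ j := Int.dvd_of_mul_dvd_mul_right (by omega : (n : ℤ) ≠ 0) hd
    exact ⟨l, by rw [hl, zpow_mul, zpow_two]⟩
  · exfalso
    have hvu : Commute Q.v (Q.u ^ j) := Commute.zpow_right (Q.comm _ Q.hvD _ Q.huD) j
    obtain ⟨l, hl⟩ := hodd
    rw [hvu.mul_pow, hl, pow_succ Q.v, pow_mul, pow_two, Q.v_sq, one_pow, one_mul, mul_eq_one_iff_eq_inv] at h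
    exact Q.hvu (h ▸ inv_mem (pow_mem (Subgroup.zpow_mem _ (Subgroup.mem_zpowers _) _) _))

theorem QData.count_torus_odd {D : Subgroup (GR K m)} (Q : QData c D) {i : ℕ} (hd : i ∣ (qq m + 1) / 4) :
    Nat.card {z : D // orderOf z.1 = i} = i.totient := by
  classical
  set O := Subgroup.zpowers (Q.u * Q.u)
  have hle : O ≤ D := Subgroup.zpowers_le.2 (mul_mem Q.huD Q.huD)
  let f : {z : D // orderOf z.1 = i} ≃ {z : O // orderOf z = i} :=
    { toFun := fun z => ⟨⟨z.1.1, Q.mem_odd z.1.2 (orderOf_dvd_iff_pow_eq_one.1 (show orderOf z.1.1 ∣ _ by rw [z.2]; exact hd))⟩, by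
        rw [← Subgroup.orderOf_coe]; exact z.2⟩
      invFun := fun z => ⟨⟨z.1.1, hle z.1.2⟩, by
        show orderOf z.1.1 = i
        rw [Subgroup.orderOf_coe]; exact z.2⟩
      left_inv := fun z => rfl
      right_inv := fun z => rfl }
  haveI := Fintype.ofFinite O
  rw [Nat.card_congr f, Nat.card_eq_fintype_card, Fintype.card_subtype]
  exact IsCyclic.card_orderOf_eq_totient (by
    rw [← Nat.card_eq_fintype_card, Nat.card_zpowers, Q.u_sq_order]; exact hd)

theorem QData.count_torus_even {D : Subgroup (GR K m)} (Q : QData c D) {i : ℕ}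
    (hd : i ∣ (qq m + 1) / 4) :
    Nat.card {z : D // orderOf z.1 = 2 * i} = 3 * i.totient := by
  classical
  have hqm := qq_mod c
  have hodd : Odd i := (Nat.odd_iff.2 (by omega : (qq m + 1) / 4 % 2 = 1)).of_dvd_nat hd
  obtain ⟨hv1, hw1, hvw1, hvw2, hvw3⟩ := Q.ne_one
  let f : {s : D // orderOf s.1 = 2} × {y : D // orderOf y.1 = i} → {z : D // orderOf z.1 = 2 * i} :=
    fun p => ⟨p.1.1 * p.2.1, by
      show orderOf (p.1.1.1 * p.2.1.1) = 2 * i
      rw [(show Commute p.1.1.1 p.2.1.1 from Q.comm _ p.1.1.2 _ p.2.1.2).orderOf_mul_eq_mul_orderOf_of_coprime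
        (by rw [p.1.2, p.2.2]; exact Nat.coprime_two_left.2 hodd), p.1.2, p.2.2]⟩
  have hf : Function.Bijective f := by
    constructor
    · rintro ⟨⟨⟨s, hs⟩, hs2⟩, ⟨⟨y, hy⟩, hyi⟩⟩ ⟨⟨⟨s', hs'⟩, hs2'⟩, ⟨⟨y', hy'⟩, hyi'⟩⟩ e
      have e' : s * y = s' * y' := congrArg (fun z => z.1.1) e
      have key : ∀ a b : GR K m, a ∈ D → b ∈ D → orderOf a = 2 → orderOf b = i → (a * b) ^ i = a := by
        intro a b ha hb h1 h2
        rw [(show Commute a b from Q.comm _ ha _ hb).mul_pow,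
          show b ^ i = 1 by rw [← h2, pow_orderOf_eq_one], mul_one]
        obtain ⟨l, rfl⟩ := hodd
        rw [pow_succ, pow_mul, show a ^ 2 = 1 by rw [← h1, pow_orderOf_eq_one], one_pow, one_mul]
      obtain rfl : s = s' := by
        rw [← key s y hs hy hs2 hyi, e', key s' y' hs' hy' hs2' hyi']
      obtain rfl : y = y' := mul_left_cancel e'
      rfl
    · rintro ⟨⟨z, hz⟩, hzo⟩
      have hzo' : orderOf z = 2 * i := hzo
      have hi0 : i ≠ 0 := by rintro rfl; exact absurd hodd (by decide)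
      have h1 : orderOf (z ^ i) = 2 := by
        rw [orderOf_pow, hzo', Nat.gcd_eq_right (dvd_mul_left i 2),
          Nat.mul_div_cancel _ (Nat.pos_of_ne_zero hi0)]
      have h2 : orderOf (z ^ (i + 1)) = i := by
        obtain ⟨l, rfl⟩ := hodd
        rw [orderOf_pow, hzo', show 2 * l + 1 + 1 = 2 * (l + 1) by ring, Nat.gcd_mul_left,
          Nat.Coprime.gcd_eq_one, mul_one, Nat.mul_div_cancel_left _ two_pos]
        exact Nat.coprime_of_dvd fun p hp h1 h2 => hp.not_dvd_one (by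
          have h := Nat.dvd_sub h1 (h2.mul_left 2)
          have h' := Nat.dvd_sub (h2.mul_left 2) h1
          rwa [show 2 * (l + 1) - (2 * l + 1) = 1 by omega] at h')
      refine ⟨(⟨⟨z ^ i, pow_mem hz _⟩, h1⟩, ⟨⟨z ^ (i + 1), pow_mem hz _⟩, h2⟩), Subtype.ext (Subtype.ext ?_)⟩
      show z ^ i * z ^ (i + 1) = z
      rw [← pow_add, show i + (i + 1) = 2 * i + 1 by ring, pow_succ, ← hzo', pow_orderOf_eq_one, one_mul]
  rw [← Nat.card_congr (Equiv.ofBijective f hf), Nat.card_prod, Q.count_torus_odd hd]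
  congr 1
  let g : {s : D // orderOf s.1 = 2} ≃ ({Q.v, Q.w, Q.v * Q.w} : Set (GR K m)) :=
    { toFun := fun z => ⟨z.1.1, by
        have ho : orderOf z.1.1 = 2 := z.2
        rcases Q.four z.1.2 (by rw [← pow_two]; exact orderOf_dvd_iff_pow_eq_one.1 (by rw [ho]))
          with h | h | h | h
        · rw [h, orderOf_one] at ho; omega
        all_goals simp [h]⟩
      invFun := fun z => ⟨⟨z.1, by
          rcases z.2 with h | h | h <;> rw [h]
          exacts [Q.hvD, Q.w_mem, mul_mem Q.hvD Q.w_mem]⟩, by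
          show orderOf z.1 = 2
          rcases z.2 with h | h | h <;> rw [h]
          exacts [Q.hv, Q.orderOf_w, orderOf_eq_prime (by rw [pow_two]; exact Q.vw_sq) hvw1]⟩
      left_inv := fun z => rfl
      right_inv := fun z => rfl }
  rw [Nat.card_congr g, Nat.card_coe_set_eq,
    Set.ncard_insert_of_notMem (by simp [Q.v_ne_w, hvw2.symm]), Set.ncard_pair hvw3.symm]

theorem QData.count_order {D : Subgroup (GR K m)} (Q : QData c D) (P : GR K m → Prop)
    (hP : ∀ g x, P x → P (g * x * g⁻¹)) (hsq : ∀ x, P x → x * x ≠ 1)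
    (hd : ∀ x, P x → orderOf x ∣ qq m + 1) :
    Nat.card {g : GR K m // P g} * (6 * (qq m + 1)) = Nat.card {z : D // P z.1} * Nat.card (GR K m) := by
  rw [← Q.card_norm]
  refine count_ti c (fun z hz => Q.cz_eq_of_mem hz) P hP hsq fun x hx => ?_
  obtain ⟨Q'⟩ := exists_qdata c (hd x hx) (hsq x hx)
  obtain ⟨g, hg⟩ := Q'.conj_to Q
  exact ⟨g, (hg x).1 (mem_cz.2 rfl)⟩

variable (c)

theorem count_plus {i : ℕ} (hi : 1 < i) (hd : i ∣ (qq m + 1) / 4) :
    Nat.card {g : GR K m // orderOf g = i} * (6 * (qq m + 1)) = i.totient * Nat.card (GR K m) ∧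
      Nat.card {g : GR K m // orderOf g = 2 * i} * (6 * (qq m + 1)) = 3 * i.totient * Nat.card (GR K m) := by
  have hqm := qq_mod c
  obtain ⟨D, ⟨Q⟩⟩ := exists_quarter c
  have h3 : 3 ≤ i := by
    by_contra h
    obtain rfl : i = 2 := by omega
    omega
  have hdiv : (qq m + 1) / 4 * 4 = qq m + 1 := by omega
  constructor
  · rw [Q.count_order (fun g => orderOf g = i) (fun g x hx => by rw [orderOf_conj]; exact hx)
      (fun x hx h => by
        have := Nat.le_of_dvd two_pos (hx ▸ orderOf_dvd_of_pow_eq_one (by rw [pow_two]; exact h))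
        omega)
      (fun x hx => hx ▸ hd.trans ⟨4, hdiv.symm⟩), Q.count_torus_odd hd]
  · rw [Q.count_order (fun g => orderOf g = 2 * i) (fun g x hx => by rw [orderOf_conj]; exact hx)
      (fun x hx h => by
        have := Nat.le_of_dvd two_pos (hx ▸ orderOf_dvd_of_pow_eq_one (by rw [pow_two]; exact h))
        omega)
      (fun x hx => hx ▸ (Nat.mul_dvd_mul_left 2 hd).trans ⟨2, by omega⟩), Q.count_torus_even hd]

theorem count_quarter : Nat.card {g : GR K m // orderOf g ∣ qq m + 1 ∧ g * g ≠ 1} * (6 * (qq m + 1)) =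
    (qq m - 3) * Nat.card (GR K m) := by
  classical
  obtain ⟨D, ⟨Q⟩⟩ := exists_quarter c
  rw [Q.count_order (fun g => orderOf g ∣ qq m + 1 ∧ g * g ≠ 1)
    (fun g x hx => ⟨by rw [orderOf_conj]; exact hx.1, fun e => hx.2 ((conj_eq_one_iff (a := g) (b := x * x)).1 (by
      rw [← e]; group))⟩) (fun x hx => hx.2) (fun x hx => hx.1)]
  congr 1
  haveI := Fintype.ofFinite D
  rw [Nat.card_congr (Equiv.subtypeEquivRight (q := fun z : D => ¬ (z : GR K m) ∈ sqOne Q) fun z =>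
    ⟨fun h hs => h.2 hs.2, fun h => ⟨Q.hcard ▸ Subgroup.orderOf_dvd_natCard _ z.2, fun e => h ⟨z.2, e⟩⟩⟩),
    Nat.card_eq_fintype_card, Fintype.card_subtype_compl, ← Nat.card_eq_fintype_card, Q.hcard,
    ← Nat.card_eq_fintype_card,
    Nat.card_congr (Equiv.subtypeSubtypeEquivSubtype (p := (· ∈ D)) (q := (· ∈ sqOne Q)) fun h => h.1),
    Q.card_sqOne]
  omega

end Cfsg.Agent.Lib.ReeTwoTori
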