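import Cfsg.Agent.Lib.ReeTwoTori.Tori

/-! Cyclic subgroups of toral order of the Ree groups and their centralisers. -/

set_option autoImplicit false

namespace Cfsg.Agent.Lib.ReeTwoTori

open Cfsg.Lie Cfsg.Agent.Lib Cfsg.Agent.Lib.Chev Cfsg.Agent.Lib.Chev.G2
open Cfsg.Agent.Lib.ReeAut

theorem cyclic_sub_eq {G : Type*} [Group G] [Finite G] {T A B : Subgroup G} (hT : IsCyclic T)
    (hA : A ≤ T) (hB : B ≤ T) (h : Nat.card A = Nat.card B) : A = B := by
  classical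
  haveI := Fintype.ofFinite T
  set n := Nat.card A with hn
  have key : ∀ C : Subgroup G, C ≤ T → Nat.card C = n →
      (Finset.univ.filter fun x : T => (x : G) ∈ C) = (Finset.univ.filter fun x : T => x ^ n = 1) := by
    intro C hC hCn
    refine Finset.eq_of_subset_of_card_le (fun x hx => ?_) ?_
    · rw [Finset.mem_filter] at hx ⊢
      refine ⟨hx.1, Subtype.ext ?_⟩
      have := orderOf_dvd_iff_pow_eq_one.1 (hCn ▸ Subgroup.orderOf_dvd_natCard _ hx.2)
      simpa using this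
    · refine le_trans (IsCyclic.card_pow_eq_one_le (Nat.card_pos (α := A))) (le_of_eq ?_)
      rw [← Fintype.card_subtype, ← Nat.card_eq_fintype_card, ← hCn]
      exact (Nat.card_congr (Equiv.subtypeSubtypeEquivSubtype (p := (· ∈ T)) (q := (· ∈ C)) fun h => hC h)).symm
  ext x
  constructor <;> intro hx
  · have h1 : (⟨x, hA hx⟩ : T) ∈ (Finset.univ.filter fun x : T => (x : G) ∈ B) := by
      rw [key B hB h.symm, ← key A hA rfl]; simp [hx]
    simpa using h1
  · have h1 : (⟨x, hB hx⟩ : T) ∈ (Finset.univ.filter fun x : T => (x : G) ∈ A) := by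
      rw [key A hA rfl, ← key B hB h.symm]; simp [hx]
    simpa using h1

variable {K : Type*} [Field K] [Fintype K] [CharP K 3] {m : ℕ} (c : Ctx K m)

include c

theorem exists_torus {d : ℕ} (hd : d = sa m ∨ d = sb m) :
    ∃ T : Subgroup (GR K m), IsSinger T ∧ Nat.card T = d ∧
      Nat.card (Subgroup.normalizer (T : Set (GR K m))) = 6 * d ∧
      ∀ g : GR K m, g ≠ 1 → orderOf g ∣ d → ∃ k, k * g * k⁻¹ ∈ T := by
  obtain ⟨A, B, hA, hB, hcA, hcB, hnA, hnB, hcl⟩ := exists_two c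
  have hco := sab_coprime c
  have hcard : ∀ {C D : Subgroup (GR K m)} {g : GR K m}, (∀ y, y ∈ C ↔ g * y * g⁻¹ ∈ D) →
      Nat.card C = Nat.card D := fun {C D g} h => Nat.card_congr ((MulAut.conj g).toEquiv.subtypeEquiv h)
  rcases hd with rfl | rfl
  · refine ⟨A, hA, hcA, hnA, fun g h1 hg => ?_⟩
    obtain ⟨k, h | h⟩ := hcl _ (exists_singer c (hg.trans ⟨sb m, (sab_facts c).2.1.symm⟩) h1)
    · exact ⟨k, (h g).1 (mem_cz.2 rfl)⟩
    · exfalso
      have hgC := Subgroup.orderOf_dvd_natCard _ (show g ∈ cz g from mem_cz.2 rfl)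
      rw [hcard h, hcB] at hgC
      exact h1 (orderOf_eq_one_iff.1 (Nat.dvd_one.1 (hco ▸ Nat.dvd_gcd hg hgC)))
  · refine ⟨B, hB, hcB, hnB, fun g h1 hg => ?_⟩
    obtain ⟨k, h | h⟩ := hcl _ (exists_singer c (hg.trans ⟨sa m, by rw [mul_comm]; exact (sab_facts c).2.1.symm⟩) h1)
    · exfalso
      have hgC := Subgroup.orderOf_dvd_natCard _ (show g ∈ cz g from mem_cz.2 rfl)
      rw [hcard h, hcA] at hgC
      exact h1 (orderOf_eq_one_iff.1 (Nat.dvd_one.1 (hco ▸ Nat.dvd_gcd hgC hg)))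
    · exact ⟨k, (h g).1 (mem_cz.2 rfl)⟩

/-- Cyclic subgroups of toral order are conjugate into one torus. -/
theorem move_toral {d : ℕ} (hd : d ∣ (qq m - 1) / 2 ∨ d ∣ (qq m + 1) / 4 ∨ d ∣ sa m ∨ d ∣ sb m) :
    ∃ T : Subgroup (GR K m), IsCyclic T ∧ ∀ g : GR K m, orderOf g = d → ∃ k, k * g * k⁻¹ ∈ T := by
  have hqm := qq_mod c
  have hsq : d % 2 = 1 → ∀ g : GR K m, orderOf g = d → g ≠ 1 → g * g ≠ 1 := by
    intro ho g hg h1 h
    have h2 : orderOf g = 2 := orderOf_eq_prime (by rw [pow_two]; exact h) h1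
    omega
  rcases hd with hd | hd | hd
  · refine ⟨c.T.hom.range, range_cyclic c, fun g hg => ?_⟩
    by_cases h1 : g = 1
    · exact ⟨1, by subst h1; simp⟩
    have hodd : d % 2 = 1 := Nat.odd_iff.1 ((Nat.odd_iff.2 (by omega : (qq m - 1) / 2 % 2 = 1)).of_dvd_nat hd)
    exact minus_move c (hg ▸ hd.trans ⟨2, by omega⟩) (hsq hodd g hg h1)
  · obtain ⟨D, ⟨Q⟩⟩ := exists_quarter c
    refine ⟨Subgroup.zpowers (Q.u * Q.u), inferInstance, fun g hg => ?_⟩
    by_cases h1 : g = 1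
    · exact ⟨1, by subst h1; simp⟩
    have hodd : d % 2 = 1 := Nat.odd_iff.1 ((Nat.odd_iff.2 (by omega : (qq m + 1) / 4 % 2 = 1)).of_dvd_nat hd)
    obtain ⟨Q'⟩ := exists_qdata c (z := g) (hg ▸ hd.trans ⟨4, by omega⟩) (hsq hodd g hg h1)
    obtain ⟨k, hk⟩ := Q'.conj_to Q
    refine ⟨k, Q.mem_odd ((hk g).1 (mem_cz.2 rfl)) ?_⟩
    rw [conj_pow, orderOf_dvd_iff_pow_eq_one.1 (show orderOf g ∣ (qq m + 1) / 4 by rw [hg]; exact hd), mul_one,
      mul_inv_cancel]
  · obtain ⟨e, he, hde⟩ : ∃ e, (e = sa m ∨ e = sb m) ∧ d ∣ e := by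
      rcases hd with h | h
      exacts [⟨_, Or.inl rfl, h⟩, ⟨_, Or.inr rfl, h⟩]
    obtain ⟨T, hT, hcT, -, hmv⟩ := exists_torus c he
    refine ⟨T, hT.cyclic c, fun g hg => ?_⟩
    by_cases h1 : g = 1
    · exact ⟨1, by subst h1; simp⟩
    exact hmv g h1 (hg ▸ hde)

theorem cyclic_conj {d : ℕ} (hd : d ∣ (qq m - 1) / 2 ∨ d ∣ (qq m + 1) / 4 ∨ d ∣ sa m ∨ d ∣ sb m)
    (A B : Subgroup (GR K m)) (hA : IsCyclic A) (hB : IsCyclic B) (hAd : Nat.card A = d) (hBd : Nat.card B = d) :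
    ∃ g : GR K m, B = A.map (MulAut.conj g).toMonoidHom := by
  obtain ⟨T, hT, hmv⟩ := move_toral c hd
  obtain ⟨a, ha⟩ := (Subgroup.isCyclic_iff_exists_zpowers_eq_top _).1 hA
  obtain ⟨b, hb⟩ := (Subgroup.isCyclic_iff_exists_zpowers_eq_top _).1 hB
  subst ha hb
  rw [Nat.card_zpowers] at hAd hBd
  obtain ⟨k, hk⟩ := hmv a hAd
  obtain ⟨l, hl⟩ := hmv b hBd
  have heq : Subgroup.zpowers (k * a * k⁻¹) = Subgroup.zpowers (l * b * l⁻¹) :=
    cyclic_sub_eq hT (Subgroup.zpowers_le.2 hk) (Subgroup.zpowers_le.2 hl)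
      (by rw [Nat.card_zpowers, Nat.card_zpowers, orderOf_conj, orderOf_conj, hAd, hBd])
  refine ⟨l⁻¹ * k, ?_⟩
  have e : ∀ (g x : GR K m), (Subgroup.zpowers x).map (MulAut.conj g).toMonoidHom =
      Subgroup.zpowers (g * x * g⁻¹) := fun g x => MonoidHom.map_zpowers _ _
  rw [show Subgroup.zpowers b = (Subgroup.zpowers (l * b * l⁻¹)).map (MulAut.conj l⁻¹).toMonoidHom by
      rw [e]; congr 1; group,
    ← heq, e, e]
  congr 1
  group

theorem centraliser_split (H : Subgroup (GR K m)) (hH : IsCyclic H) (hc : Nat.card H = (qq m - 1) / 2) :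
    IsCyclic ↥(Subgroup.centralizer (H : Set (GR K m))) ∧
      Nat.card ↥(Subgroup.centralizer (H : Set (GR K m))) = qq m - 1 ∧
      ∀ A : Subgroup (GR K m), A ≤ H → A ≠ ⊥ →
        Subgroup.centralizer (A : Set (GR K m)) = Subgroup.centralizer (H : Set (GR K m)) := by
  have hqm := qq_mod c
  have hq := qq_ge c
  obtain ⟨h, rfl⟩ := (Subgroup.isCyclic_iff_exists_zpowers_eq_top _).1 hH
  have hC : Subgroup.centralizer ((Subgroup.zpowers h : Subgroup (GR K m)) : Set (GR K m)) = cz h := by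
    rw [Subgroup.zpowers_eq_closure, Subgroup.centralizer_closure]
  rw [Nat.card_zpowers] at hc
  have hsq : ∀ z : GR K m, orderOf z ∣ orderOf h → z ≠ 1 → z * z ≠ 1 := fun z hz h1 h2 => by
    rw [orderOf_eq_prime (p := 2) (by rw [pow_two]; exact h2) h1, hc] at hz
    omega
  obtain ⟨k, hk⟩ := minus_move c (g := h) (hc ▸ ⟨2, by omega⟩)
    (hsq h dvd_rfl (fun e => by rw [e, orderOf_one] at hc; omega))
  have hcz : cz (k * h * k⁻¹) = c.T.hom.range := range_cz c hk (hsq _ (by rw [orderOf_conj]) (fun e => by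
    rw [conj_eq_one_iff.1 e, orderOf_one] at hc; omega))
  let f : cz h ≃* c.T.hom.range :=
    ((MulAut.conj k).subgroupMap (cz h)).trans (MulEquiv.subgroupCongr (by
      rw [← hcz]
      ext y
      constructor
      · rintro ⟨x, hx, rfl⟩
        exact conj_mem_cz.2 hx
      · intro hy
        exact ⟨k⁻¹ * y * k, (conj_mem_cz (k := k)).1 (by
          rw [show k * (k⁻¹ * y * k) * k⁻¹ = y by group]; exact hy), by
          show k * (k⁻¹ * y * k) * k⁻¹ = y; group⟩))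
  rw [hC]
  refine ⟨?_, ?_, fun A hA hAne => ?_⟩
  · haveI := range_cyclic c
    exact isCyclic_of_injective f.toMonoidHom f.injective
  · rw [Nat.card_congr f.toEquiv, card_range c]
  · rw [← hC]
    refine le_antisymm ?_ (Subgroup.centralizer_le hA)
    obtain ⟨a, haA, ha1⟩ := (Subgroup.bot_or_exists_ne_one A).resolve_left hAne
    rw [hC]
    intro g hg
    have hga : g ∈ cz a := mem_cz.2 (Subgroup.mem_centralizer_iff.1 hg a haA).symm
    obtain ⟨i, rfl⟩ := hA haA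
    have hmem : k * h ^ i * k⁻¹ ∈ c.T.hom.range := by
      rw [← conj_zpow]; exact Subgroup.zpow_mem _ hk i
    have h2 := range_cz c hmem (hsq _ (by
      rw [orderOf_conj, ← Nat.card_zpowers h]
      exact Subgroup.orderOf_dvd_natCard _ ⟨i, rfl⟩) (fun e => ha1 (conj_eq_one_iff.1 e)))
    have h3 : k * g * k⁻¹ ∈ cz (k * h * k⁻¹) := by
      rw [hcz, ← h2]; exact conj_mem_cz.2 hga
    exact conj_mem_cz.1 h3

theorem centraliser_quarter (H : Subgroup (GR K m)) (hH : IsCyclic H) (hc : Nat.card H = (qq m + 1) / 4) :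
    IsMulCommutative ↥(Subgroup.centralizer (H : Set (GR K m))) ∧
      Nat.card ↥(Subgroup.centralizer (H : Set (GR K m))) = qq m + 1 ∧
      (∀ x ∈ Subgroup.centralizer (H : Set (GR K m)), orderOf x ≠ 4) ∧
      ∀ A : Subgroup (GR K m), A ≤ H → A ≠ ⊥ →
        Subgroup.centralizer (A : Set (GR K m)) = Subgroup.centralizer (H : Set (GR K m)) := by
  have hqm := qq_mod c
  have hq := qq_ge c
  obtain ⟨h, rfl⟩ := (Subgroup.isCyclic_iff_exists_zpowers_eq_top _).1 hH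
  have hC : Subgroup.centralizer ((Subgroup.zpowers h : Subgroup (GR K m)) : Set (GR K m)) = cz h := by
    rw [Subgroup.zpowers_eq_closure, Subgroup.centralizer_closure]
  rw [Nat.card_zpowers] at hc
  have hsq : ∀ z : GR K m, orderOf z ∣ orderOf h → z ≠ 1 → z * z ≠ 1 := fun z hz h1 h2 => by
    rw [orderOf_eq_prime (p := 2) (by rw [pow_two]; exact h2) h1, hc] at hz
    omega
  obtain ⟨Q⟩ := exists_qdata c (z := h) (hc ▸ ⟨4, by omega⟩)
    (hsq h dvd_rfl (fun e => by rw [e, orderOf_one] at hc; omega))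
  rw [hC]
  refine ⟨⟨⟨fun a b => Subtype.ext (Q.comm _ a.2 _ b.2)⟩⟩, Q.hcard,
    fun x _ h4 => not_four_dvd c x (h4 ▸ dvd_rfl), fun A hA hAne => ?_⟩
  rw [← hC]
  refine le_antisymm ?_ (Subgroup.centralizer_le hA)
  obtain ⟨a, haA, ha1⟩ := (Subgroup.bot_or_exists_ne_one A).resolve_left hAne
  rw [hC]
  intro g hg
  have hga : g ∈ cz a := mem_cz.2 (Subgroup.mem_centralizer_iff.1 hg a haA).symm
  obtain ⟨i, rfl⟩ := hA haA
  rwa [Q.cz_eq_of_mem (Subgroup.zpow_mem _ (mem_cz.2 rfl) i) (hsq _ (by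
    rw [← Nat.card_zpowers h]
    exact Subgroup.orderOf_dvd_natCard _ ⟨i, rfl⟩) ha1)] at hga

/-- The element counts. -/
theorem element_counts :
    (∀ i : ℕ, 2 < i → i ∣ qq m - 1 →
      2 * Nat.card {g : GR K m // orderOf g = i} = i.totient * qq m ^ 3 * (qq m ^ 3 + 1)) ∧
    (∀ i : ℕ, 1 < i → i ∣ (qq m + 1) / 4 →
      6 * Nat.card {g : GR K m // orderOf g = i} =
          i.totient * qq m ^ 3 * (qq m - 1) * (qq m ^ 2 - qq m + 1) ∧
        2 * Nat.card {g : GR K m // orderOf g = 2 * i} =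
          i.totient * qq m ^ 3 * (qq m - 1) * (qq m ^ 2 - qq m + 1)) ∧
    (∀ i : ℕ, 1 < i → i ∣ sa m →
      6 * Nat.card {g : GR K m // orderOf g = i} = i.totient * qq m ^ 3 * (qq m ^ 2 - 1) * sb m) ∧
    (∀ i : ℕ, 1 < i → i ∣ sb m →
      6 * Nat.card {g : GR K m // orderOf g = i} = i.totient * qq m ^ 3 * (qq m ^ 2 - 1) * sa m) := by
  obtain ⟨-, hab, -, ha7, hb7⟩ := sab_facts c
  have hq := qq_ge c
  have hphi : qq m ^ 2 - qq m + 1 = phi6 m := by
    rw [phi6, Nat.mul_sub_one, pow_two]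
  have hsq : qq m ^ 2 - 1 = (qq m - 1) * (qq m + 1) := by
    rw [show qq m ^ 2 - 1 = qq m ^ 2 - 1 ^ 2 by norm_num, Nat.sq_sub_sq, mul_comm]
  refine ⟨fun i hi hd => ?_, fun i hi hd => ?_, fun i hi hd => ?_, fun i hi hd => ?_⟩
  · refine Nat.eq_of_mul_eq_mul_right (m := qq m - 1) (by omega) ?_
    have h := count_minus c hi hd
    rw [card_G c] at h
    linarith
  · obtain ⟨h1, h2⟩ := count_plus c hi hd
    rw [card_G' c] at h1 h2
    constructor <;> rw [hphi] <;> refine Nat.eq_of_mul_eq_mul_right (m := qq m + 1) (by omega) ?_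
    · linarith
    · refine Nat.eq_of_mul_eq_mul_left (n := 3) (by norm_num) ?_
      linarith
  · refine Nat.eq_of_mul_eq_mul_right (m := sa m) (by omega) ?_
    have h := count_singer c (Or.inl rfl) hi hd
    rw [card_G' c, ← hab] at h
    rw [hsq]; linarith
  · refine Nat.eq_of_mul_eq_mul_right (m := sb m) (by omega) ?_
    have h := count_singer c (Or.inr rfl) hi hd
    rw [card_G' c, ← hab] at h
    rw [hsq]; linarith

end Cfsg.Agent.Lib.ReeTwoTori
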