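import Cfsg.Agent.Lib.ReeTwoTori.Basic
import Cfsg.Agent.Lib.Coprime.Abelian

/-! The tori of order `q + 1` of the Ree groups. -/

set_option autoImplicit false

namespace Cfsg.Agent.Lib.ReeTwoTori

open Cfsg.Lie Cfsg.Agent.Lib Cfsg.Agent.Lib.Chev Cfsg.Agent.Lib.Chev.G2
open Cfsg.Agent.Lib.ReeAut
open scoped Pointwise

theorem sylow_move {G : Type*} [Group G] [Finite G] {r : ℕ} (hr : r.Prime) (H : Subgroup G)
    (hH : (Nat.card H).factorization r = (Nat.card G).factorization r) {x : G} {k : ℕ}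
    (hx : orderOf x = r ^ k) : ∃ g, g * x * g⁻¹ ∈ H := by
  have := Fact.mk hr
  obtain ⟨P₀⟩ : Nonempty (Sylow r ↥H) := inferInstance
  let S : Sylow r G := Sylow.ofCard ((P₀ : Subgroup ↥H).map H.subtype)
    (by rw [Subgroup.card_map_of_injective (Subgroup.subtype_injective _), P₀.card_eq_multiplicity, hH])
  obtain ⟨P, hP⟩ := (IsPGroup.of_card (p := r) (n := k) (G := Subgroup.zpowers x)
    (by rw [Nat.card_zpowers, hx])).exists_le_sylow
  obtain ⟨g, hg⟩ := MulAction.exists_smul_eq G P S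
  refine ⟨g, ?_⟩
  have h : g * x * g⁻¹ ∈ (S : Subgroup G) := by
    rw [← hg, Sylow.coe_subgroup_smul]
    exact ⟨x, hP (Subgroup.mem_zpowers x), rfl⟩
  obtain ⟨y, -, hy⟩ := h
  rw [← hy]
  exact y.2

theorem centralizes_four {G : Type*} [Group G] [Finite G] (P : Sylow 2 G) (h4 : Nat.card P = 4)
    (hsq : ∀ x ∈ P, x * x = 1) (h3 : ¬ 3 ∣ Nat.card G) (hno : ∀ g : G, ¬ 4 ∣ orderOf g) :
    Subgroup.normalizer ((P : Subgroup G) : Set G) ≤ Subgroup.centralizer ((P : Subgroup G) : Set G) := by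
  classical
  have := Fintype.ofFinite G
  intro g hg
  let φ : MulAut ↥(P : Subgroup G) →* Equiv.Perm {z : ↥(P : Subgroup G) // z ≠ 1} :=
    { toFun := fun a => a.toEquiv.subtypeEquiv fun z => by simp
      map_one' := by ext; rfl
      map_mul' := fun a b => by ext; rfl }
  have hφ : Function.Injective φ := by
    intro a b h
    ext z
    rcases eq_or_ne z 1 with rfl | hz
    · simp
    · exact congrArg (fun e : Equiv.Perm _ => ((e ⟨z, hz⟩).1 : G)) h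
  set a := Subgroup.normalizerMonoidHom (P : Subgroup G) ⟨g, hg⟩ with ha
  have h6 : orderOf a ∣ 6 := by
    rw [← orderOf_injective φ hφ a]
    have := orderOf_dvd_natCard (φ a)
    rwa [Nat.card_perm, Nat.card_eq_fintype_card, Fintype.card_subtype_compl, Fintype.card_subtype_eq,
      ← Nat.card_eq_fintype_card, h4] at this
  have hdg : orderOf a ∣ orderOf g := by
    rw [← Subgroup.orderOf_mk g hg]
    exact orderOf_map_dvd _ _
  have ha2 : a ^ 2 = 1 := orderOf_dvd_iff_pow_eq_one.1 (by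
    have hc : Nat.Coprime 3 (orderOf a) := (Nat.prime_three.coprime_iff_not_dvd).2
      fun h => h3 ((h.trans hdg).trans (orderOf_dvd_natCard g))
    exact hc.symm.dvd_of_dvd_mul_left (by simpa using h6 : orderOf a ∣ 3 * 2))
  obtain ⟨b, hb, hb2⟩ : ∃ b, b % 2 = 1 ∧ orderOf g ∣ 2 * b := by
    rcases Nat.even_or_odd' (orderOf g) with ⟨j, hj | hj⟩
    · refine ⟨j, ?_, hj ▸ dvd_rfl⟩
      have := hno g
      rw [hj] at this
      omega
    · exact ⟨orderOf g, by omega, dvd_mul_left _ _⟩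
  have hs : g ^ b ∈ (P : Subgroup G) := by
    have hp : IsPGroup 2 (Subgroup.zpowers (g ^ b)) := by
      have h2 : orderOf (g ^ b) ∣ 2 := orderOf_dvd_of_pow_eq_one (by
        rw [← pow_mul, mul_comm, orderOf_dvd_iff_pow_eq_one.1 hb2])
      rcases (Nat.dvd_prime Nat.prime_two).1 h2 with h | h
      · exact IsPGroup.of_card (n := 0) (by rw [Nat.card_zpowers, h, pow_zero])
      · exact IsPGroup.of_card (n := 1) (by rw [Nat.card_zpowers, h, pow_one])
    have h := (hp.inf_normalizer_sylow P).le ⟨Subgroup.mem_zpowers _, pow_mem hg b⟩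
    exact h.2
  have hcomm : ∀ x ∈ (P : Subgroup G), ∀ y ∈ (P : Subgroup G), x * y = y * x := fun x hx y hy => by
    have h1 := hsq _ (mul_mem hx hy)
    have h2 := hsq _ hx
    have h3 := hsq _ hy
    calc x * y = (x * y)⁻¹ := eq_inv_of_mul_eq_one_left h1
      _ = y⁻¹ * x⁻¹ := mul_inv_rev x y
      _ = y * x := by rw [← eq_inv_of_mul_eq_one_left h2, ← eq_inv_of_mul_eq_one_left h3]
  have hg2 : g ^ 2 ∈ Subgroup.centralizer ((P : Subgroup G) : Set G) := by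
    have h : (⟨g, hg⟩ : Subgroup.normalizer ((P : Subgroup G) : Set G)) ^ 2 ∈
        (Subgroup.normalizerMonoidHom (P : Subgroup G)).ker := by
      rw [MonoidHom.mem_ker, map_pow, ← ha, ha2]
    rw [Subgroup.normalizerMonoidHom_ker] at h
    exact h
  have e : g = g ^ b * ((g ^ 2) ^ (b / 2))⁻¹ := by
    rw [eq_mul_inv_iff_mul_eq, ← pow_mul, ← pow_succ']
    congr 1
    omega
  rw [e]
  refine mul_mem ?_ (inv_mem (pow_mem hg2 _))
  exact Subgroup.mem_centralizer_iff.2 fun x hx => hcomm x hx _ hs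

variable {K : Type*} [Field K] [Fintype K] [CharP K 3] {m : ℕ} (c : Ctx K m)

include c

theorem plus_arith {r : ℕ} (hr : r.Prime) (h2 : r ≠ 2) (hd : r ∣ qq m + 1) :
    r ≠ 3 ∧ (qq m * (qq m ^ 2 - 1)).factorization r = (Nat.card (GR K m)).factorization r := by
  have h3q : 3 ∣ qq m := dvd_pow_self 3 (by omega)
  have hq := qq_ge c
  have h3 : r ≠ 3 := by
    rintro rfl
    omega
  refine ⟨h3, ?_⟩
  have hrq : ¬ r ∣ qq m := fun h => hr.not_dvd_one ((Nat.dvd_add_right h).1 hd)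
  rw [card_G c]
  obtain ⟨n, hn⟩ : ∃ n, qq m = n + 2 := ⟨qq m - 2, by omega⟩
  rw [hn] at hd hrq ⊢
  have h6 : ¬ r ∣ ((n + 2) * (n + 1) + 1) := fun h => h3 ((Nat.prime_dvd_prime_iff_eq hr Nat.prime_three).1 (by
    rw [show (n + 2) * (n + 1) + 1 = (n + 2 + 1) * n + 3 by ring] at h
    exact (Nat.dvd_add_right (hd.mul_right n)).1 h))
  have hs : (n + 2) ^ 2 - 1 = (n + 1) * (n + 3) := by
    rw [show (n + 2) ^ 2 = (n + 1) * (n + 3) + 1 by ring, Nat.add_sub_cancel]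
  have e : (n + 2) ^ 3 * (n + 2 - 1) * ((n + 2) ^ 3 + 1) =
      (n + 2) * ((n + 2) ^ 2 - 1) * ((n + 2) ^ 2 * ((n + 2) * (n + 1) + 1)) := by
    rw [hs, show n + 2 - 1 = n + 1 by omega]; ring
  rw [e, Nat.factorization_mul (b := (n + 2) ^ 2 * ((n + 2) * (n + 1) + 1))
    (by rw [hs]; positivity) (by positivity), Finsupp.add_apply,
    Nat.factorization_eq_zero_of_not_dvd (n := (n + 2) ^ 2 * ((n + 2) * (n + 1) + 1)), add_zero]
  exact fun h => (hr.dvd_mul.1 h).elim (fun h => hrq (hr.dvd_of_dvd_pow h)) h6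

theorem cinv_equiv' {v : GR K m} (hv : orderOf v = 2) : ∃ e : cz v ≃*
      Multiplicative (ZMod 2) × Matrix.ProjectiveSpecialLinearGroup (Fin 2) K,
    e ⟨v, mem_cz.2 rfl⟩ = (Multiplicative.ofAdd 1, 1) := by
  obtain ⟨k, rfl⟩ := inv_conj c (orderOf_a0 c) hv
  obtain ⟨e, he⟩ := cinv_equiv c
  let f : cz (k * a0 c * k⁻¹) ≃* cz (a0 c) :=
    { toFun := fun g => ⟨k⁻¹ * g * k, (conj_mem_cz (k := k)).1 (by
        rw [show k * (k⁻¹ * (g : GR K m) * k) * k⁻¹ = g by group]; exact g.2)⟩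
      invFun := fun g => ⟨k * g * k⁻¹, conj_mem_cz.2 g.2⟩
      left_inv := fun g => Subtype.ext (by show k * (k⁻¹ * (g : GR K m) * k) * k⁻¹ = g; group)
      right_inv := fun g => Subtype.ext (by show k⁻¹ * (k * (g : GR K m) * k⁻¹) * k = g; group)
      map_mul' := fun g h => Subtype.ext (by
        show k⁻¹ * ((g : GR K m) * h) * k = k⁻¹ * g * k * (k⁻¹ * h * k); group) }
  refine ⟨f.trans e, ?_⟩
  rw [MulEquiv.trans_apply, ← he]
  congr 1
  exact Subtype.ext (by show k⁻¹ * (k * a0 c * k⁻¹) * k = a0 c; group)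

omit c in
theorem card_inter {v : GR K m} {e : cz v ≃* Multiplicative (ZMod 2) × Matrix.ProjectiveSpecialLinearGroup (Fin 2) K}
    (x : cz v) :
    Nat.card (cz (x : GR K m) ⊓ cz v : Subgroup (GR K m)) =
      2 * Nat.card (Subgroup.centralizer {(e x).2}) := by
  let f : (cz (x : GR K m) ⊓ cz v : Subgroup (GR K m)) ≃
      Multiplicative (ZMod 2) × Subgroup.centralizer {(e x).2} :=
    { toFun := fun g => ((e ⟨g, g.2.2⟩).1, ⟨(e ⟨g, g.2.2⟩).2, Subgroup.mem_centralizer_singleton_iff.2 (by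
        rw [← Prod.snd_mul, ← Prod.snd_mul, ← map_mul, ← map_mul]
        exact congrArg (fun z => (e z).2) (Subtype.ext (mem_cz.1 g.2.1)))⟩)
      invFun := fun p => ⟨(e.symm (p.1, p.2.1) : cz v), mem_cz.2 (congrArg Subtype.val
        (show e.symm (p.1, p.2.1) * x = x * e.symm (p.1, p.2.1) from e.injective (by
          rw [map_mul, map_mul, e.apply_symm_apply]
          exact Prod.ext (mul_comm _ _) (Subgroup.mem_centralizer_singleton_iff.1 p.2.2)))),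
        (e.symm (p.1, p.2.1)).2⟩
      left_inv := fun g => Subtype.ext (by simp)
      right_inv := fun p => by simp }
  rw [Nat.card_congr f, Nat.card_prod, Nat.card_congr Multiplicative.toAdd, Nat.card_zmod]

omit c in
theorem snd_ne_one {v w : GR K m} {e : cz v ≃* Multiplicative (ZMod 2) × Matrix.ProjectiveSpecialLinearGroup (Fin 2) K}
    (he : e ⟨v, mem_cz.2 rfl⟩ = (Multiplicative.ofAdd 1, 1)) (hwv : w ∈ cz v) (h1 : w ≠ 1) (h2 : w ≠ v) :
    (e ⟨w, hwv⟩).2 ≠ 1 := by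
  intro h
  rcases (by decide : ∀ s : Multiplicative (ZMod 2), s = 1 ∨ s = Multiplicative.ofAdd 1) (e ⟨w, hwv⟩).1 with hs | hs
  · have : e ⟨w, hwv⟩ = e 1 := by rw [map_one]; exact Prod.ext hs h
    exact h1 (congrArg Subtype.val (e.injective this))
  · have : e ⟨w, hwv⟩ = e ⟨v, mem_cz.2 rfl⟩ := by rw [he]; exact Prod.ext hs h
    exact h2 (congrArg Subtype.val (e.injective this))

theorem orderOf_snd {v w : GR K m} {e : cz v ≃* Multiplicative (ZMod 2) × Matrix.ProjectiveSpecialLinearGroup (Fin 2) K}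
    (he : e ⟨v, mem_cz.2 rfl⟩ = (Multiplicative.ofAdd 1, 1)) (hw : orderOf w = 2) (hwv : w ∈ cz v) (h2 : w ≠ v) :
    orderOf (e ⟨w, hwv⟩).2 = 2 := by
  refine orderOf_eq_prime ?_ (snd_ne_one he hwv (fun h => by rw [h, orderOf_one] at hw; omega) h2)
  have h : (⟨w, hwv⟩ : cz v) ^ 2 = 1 := Subtype.ext (orderOf_dvd_iff_pow_eq_one.1 (hw ▸ dvd_rfl))
  rw [← Prod.pow_snd, ← map_pow, h, map_one]
  rfl

theorem card_pair {v w : GR K m} (hv : orderOf v = 2) (hw : orderOf w = 2) (hvw : w * v = v * w)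
    (hne : w ≠ v) : Nat.card (cz w ⊓ cz v : Subgroup (GR K m)) = 2 * (qq m + 1) := by
  obtain ⟨e, he⟩ := cinv_equiv' c hv
  rw [card_inter (e := e) ⟨w, mem_cz.2 hvw⟩, cent_involution (by rw [c.hK]; exact qq_mod c)
    (orderOf_snd c he hw (mem_cz.2 hvw) hne), c.hK]

theorem pair_conj {v w v' w' : GR K m} (hv : orderOf v = 2) (hw : orderOf w = 2) (hvw : w * v = v * w)
    (hne : w ≠ v) (hv' : orderOf v' = 2) (hw' : orderOf w' = 2) (hvw' : w' * v' = v' * w') (hne' : w' ≠ v') :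
    ∃ g, g * v * g⁻¹ = v' ∧ (g * w * g⁻¹ = w' ∨ g * w * g⁻¹ = v' * w') := by
  obtain ⟨k, rfl⟩ := inv_conj c hv hv'
  obtain ⟨e, he⟩ := cinv_equiv' c hv'
  have hw1 : k * w * k⁻¹ ∈ cz (k * v * k⁻¹) := conj_mem_cz.2 (mem_cz.2 hvw)
  have hw1' : k * w * k⁻¹ ≠ k * v * k⁻¹ := fun h => hne (mul_left_cancel (mul_right_cancel h))
  obtain ⟨h, hh⟩ := involution_conj (F := K) (by rw [c.hK]; exact qq_mod c)
    (orderOf_snd c he (by rw [orderOf_conj, hw]) hw1 hw1') (orderOf_snd c he hw' (mem_cz.2 hvw') hne')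
  set g := e.symm (1, h) with hg
  have heg : e g = (1, h) := e.apply_symm_apply _
  have hfix : (g : GR K m) * k * v * ((g : GR K m) * k)⁻¹ = k * v * k⁻¹ := by
    calc (g : GR K m) * k * v * ((g : GR K m) * k)⁻¹ = g * (k * v * k⁻¹) * (g : GR K m)⁻¹ := by group
      _ = _ := by rw [mem_cz.1 g.2, mul_inv_cancel_right]
  refine ⟨g * k, hfix, ?_⟩
  have key : e (g * ⟨k * w * k⁻¹, hw1⟩ * g⁻¹) =
      ((e ⟨k * w * k⁻¹, hw1⟩).1, (e ⟨w', mem_cz.2 hvw'⟩).2) := by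
    rw [map_mul, map_mul, map_inv, heg]
    refine Prod.ext ?_ ?_
    · show 1 * (e ⟨k * w * k⁻¹, hw1⟩).1 * 1⁻¹ = _
      rw [one_mul, inv_one, mul_one]
    · exact hh
  have egroup : ((g : GR K m) * k) * w * ((g : GR K m) * k)⁻¹ =
      (g * ⟨k * w * k⁻¹, hw1⟩ * g⁻¹ : cz (k * v * k⁻¹)) := by
    show _ = (g : GR K m) * (k * w * k⁻¹) * (g : GR K m)⁻¹
    group
  rw [egroup]
  by_cases hs : (e ⟨k * w * k⁻¹, hw1⟩).1 = (e ⟨w', mem_cz.2 hvw'⟩).1
  · refine Or.inl ?_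
    rw [hs, Prod.mk.eta] at key
    exact congrArg Subtype.val (e.injective key)
  · refine Or.inr ?_
    have hs' : (e ⟨k * w * k⁻¹, hw1⟩).1 = Multiplicative.ofAdd 1 * (e ⟨w', mem_cz.2 hvw'⟩).1 :=
      (by decide : ∀ s t : Multiplicative (ZMod 2), s ≠ t → s = Multiplicative.ofAdd 1 * t) _ _ hs
    have : e (g * ⟨k * w * k⁻¹, hw1⟩ * g⁻¹) = e (⟨k * v * k⁻¹, mem_cz.2 rfl⟩ * ⟨w', mem_cz.2 hvw'⟩) := by
      rw [key, map_mul, he]
      exact Prod.ext hs' (one_mul _).symm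
    exact congrArg Subtype.val (e.injective this)

/-- A torus of order `q + 1`. -/
structure QData (c : Ctx K m) (D : Subgroup (GR K m)) where
  x : GR K m
  v : GR K m
  u : GR K m
  r : ℕ
  hr : r.Prime
  h2 : r ≠ 2
  hd : r ∣ qq m + 1
  hx : orderOf x = r
  hv : orderOf v = 2
  hu : orderOf u = (qq m + 1) / 2
  hxD : x ∈ D
  hvD : v ∈ D
  huD : u ∈ D
  hvu : v ∉ Subgroup.zpowers u
  hmem : ∀ z ∈ D, ∃ j : ℤ, z = u ^ j ∨ z = v * u ^ j
  hcard : Nat.card D = qq m + 1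
  comm : ∀ a ∈ D, ∀ b ∈ D, a * b = b * a

theorem qdata_inter {x v : GR K m} {r : ℕ} (hr : r.Prime) (h2 : r ≠ 2) (hd : r ∣ qq m + 1)
    (hx : orderOf x = r) (hv : orderOf v = 2) (hxv : x * v = v * x) :
    ∃ Q : QData c (cz x ⊓ cz v), Q.x = x ∧ Q.v = v := by
  obtain ⟨e, he⟩ := cinv_equiv' c hv
  set xh : cz v := ⟨x, mem_cz.2 hxv⟩
  have hxr : xh ^ r = 1 := Subtype.ext (orderOf_dvd_iff_pow_eq_one.1 (hx ▸ dvd_rfl))
  have hxbr : (e xh).2 ^ r = 1 := by rw [← Prod.pow_snd, ← map_pow, hxr, map_one]; rfl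
  have hne : x ≠ 1 := fun h => by rw [h, orderOf_one] at hx; exact hr.ne_one hx.symm
  have hxb : orderOf (e xh).2 = r := by
    haveI := Fact.mk hr
    refine orderOf_eq_prime hxbr (snd_ne_one he (mem_cz.2 hxv) hne fun h => ?_)
    rw [h, hv] at hx
    exact h2 hx.symm
  obtain ⟨hcd, hcyc⟩ := cent_plus (by rw [c.hK]; exact qq_mod c) hr h2 (by rwa [c.hK]) hxb
  rw [show Fintype.card K = qq m from c.hK] at hcd
  obtain ⟨cg, hcg⟩ := hcyc.exists_generator
  have hcgo : orderOf cg = (qq m + 1) / 2 := by rw [orderOf_eq_card_of_forall_mem_zpowers hcg]; omega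
  set uh := e.symm (1, cg.1) with huh
  have heu : e uh = (1, cg.1) := e.apply_symm_apply _
  have huo : orderOf (uh : GR K m) = (qq m + 1) / 2 := by
    rw [Subgroup.orderOf_coe, ← MulEquiv.orderOf_eq e, heu, Prod.orderOf, orderOf_one,
      Subgroup.orderOf_coe, hcgo, Nat.lcm_one_left]
  have hux : (uh : GR K m) ∈ cz x := mem_cz.2 (congrArg Subtype.val (show uh * xh = xh * uh from e.injective (by
    rw [map_mul, map_mul, heu]
    exact Prod.ext (mul_comm _ _) (Subgroup.mem_centralizer_singleton_iff.1 cg.2))))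
  have hmem : ∀ z ∈ cz x ⊓ cz v, ∃ j : ℤ, z = (uh : GR K m) ^ j ∨ z = v * (uh : GR K m) ^ j := by
    rintro z ⟨hzx, hzv⟩
    have hp : (e ⟨z, hzv⟩).2 ∈ Subgroup.centralizer {(e xh).2} := Subgroup.mem_centralizer_singleton_iff.2 (by
      rw [← Prod.snd_mul, ← Prod.snd_mul, ← map_mul, ← map_mul]
      exact congrArg (fun z => (e z).2) (Subtype.ext (mem_cz.1 hzx)))
    obtain ⟨j, hj⟩ := hcg ⟨_, hp⟩
    have hj' : cg.1 ^ j = (e ⟨z, hzv⟩).2 := congrArg Subtype.val hj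
    refine ⟨j, ?_⟩
    rcases (by decide : ∀ s : Multiplicative (ZMod 2), s = 1 ∨ s = Multiplicative.ofAdd 1) (e ⟨z, hzv⟩).1 with hs | hs
    · refine Or.inl (congrArg Subtype.val (show (⟨z, hzv⟩ : cz v) = uh ^ j from e.injective ?_))
      rw [map_zpow, heu]
      exact Prod.ext (by rw [hs]; exact (one_zpow j).symm) hj'.symm
    · refine Or.inr (congrArg Subtype.val
        (show (⟨z, hzv⟩ : cz v) = ⟨v, mem_cz.2 rfl⟩ * uh ^ j from e.injective ?_))
      rw [map_mul, map_zpow, heu, he]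
      exact Prod.ext (by rw [hs]; show _ = Multiplicative.ofAdd 1 * (1 : Multiplicative (ZMod 2)) ^ j
                         rw [one_zpow, mul_one]) (by rw [← hj']; exact (one_mul _).symm)
  refine ⟨{ x := x, v := v, u := uh, r := r, hr := hr, h2 := h2, hd := hd, hx := hx, hv := hv, hu := huo,
            hxD := ⟨mem_cz.2 rfl, mem_cz.2 hxv⟩, hvD := ⟨mem_cz.2 hxv.symm, mem_cz.2 rfl⟩,
            huD := ⟨hux, uh.2⟩, hvu := ?_, hmem := hmem, hcard := ?_, comm := ?_ }, rfl, rfl⟩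
  · rintro ⟨j, hj⟩
    have h : e (uh ^ j) = e ⟨v, mem_cz.2 rfl⟩ := congrArg e (Subtype.ext hj)
    rw [map_zpow, heu, he] at h
    have h1 : (1 : Multiplicative (ZMod 2)) ^ j = Multiplicative.ofAdd 1 := congrArg Prod.fst h
    rw [one_zpow] at h1
    exact absurd h1 (by decide)
  · rw [card_inter (e := e) xh]; omega
  · intro a ha b hb
    obtain ⟨i, hi⟩ := hmem a ha
    obtain ⟨j, hj⟩ := hmem b hb
    have h1 : Commute v (uh : GR K m) := (mem_cz.1 uh.2).symm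
    have h2 : Commute ((uh : GR K m) ^ i) ((uh : GR K m) ^ j) := Commute.zpow_zpow_self _ i j
    rcases hi with rfl | rfl <;> rcases hj with rfl | rfl
    · exact h2
    · exact ((h1.zpow_right i).symm.mul_right h2)
    · exact ((h1.zpow_right j).mul_left h2)
    · exact (((Commute.refl v).mul_right (h1.zpow_right j)).mul_left ((h1.zpow_right i).symm.mul_right h2))

variable {c} {D : Subgroup (GR K m)} (Q : QData c D)

/-- The second involution. -/
def QData.w : GR K m := Q.u ^ ((qq m + 1) / 4)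

include Q

theorem QData.w_mem : Q.w ∈ D := pow_mem Q.huD _

theorem QData.orderOf_w : orderOf Q.w = 2 := by
  have := qq_mod c
  rw [QData.w, orderOf_pow, Q.hu, Nat.gcd_eq_right ⟨2, by omega⟩]
  refine Nat.div_eq_of_eq_mul_left (by omega) ?_
  omega

theorem QData.v_ne_w : Q.v ≠ Q.w := fun h => Q.hvu (h ▸ ⟨((qq m + 1) / 4 : ℕ), zpow_natCast _ _⟩)

theorem QData.v_sq : Q.v * Q.v = 1 := by
  rw [← pow_two]; exact orderOf_dvd_iff_pow_eq_one.1 (Q.hv ▸ dvd_rfl)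

theorem QData.w_sq : Q.w * Q.w = 1 := by
  rw [← pow_two]; exact orderOf_dvd_iff_pow_eq_one.1 (Q.orderOf_w ▸ dvd_rfl)

theorem QData.four {z : GR K m} (hz : z ∈ D) (h : z * z = 1) :
    z = 1 ∨ z = Q.v ∨ z = Q.w ∨ z = Q.v * Q.w := by
  have hqm := qq_mod c
  obtain ⟨j, hj⟩ := Q.hmem z hz
  have hvu : Commute Q.v Q.u := Q.comm _ Q.hvD _ Q.huD
  have h2 : Q.u ^ (2 * j) = 1 := by
    rcases hj with rfl | rfl
    · rwa [two_mul, zpow_add]
    · calc Q.u ^ (2 * j) = Q.v * Q.v * (Q.u ^ j * Q.u ^ j) := by rw [Q.v_sq, one_mul, two_mul, zpow_add]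
        _ = Q.v * Q.u ^ j * (Q.v * Q.u ^ j) := ((hvu.zpow_right j).symm.mul_mul_mul_comm _ _).symm
        _ = 1 := h
  have hdj : ((orderOf Q.u : ℕ) : ℤ) ∣ 2 * j := orderOf_dvd_iff_zpow_eq_one.2 h2
  rw [Q.hu] at hdj
  obtain ⟨i, hi⟩ : (((qq m + 1) / 4 : ℕ) : ℤ) ∣ j := by
    obtain ⟨i, hi⟩ := hdj
    refine ⟨i, ?_⟩
    have h4 : (((qq m + 1) / 2 : ℕ) : ℤ) = 2 * (((qq m + 1) / 4 : ℕ) : ℤ) := by omega
    rw [h4, mul_assoc] at hi
    linarith
  have hw : Q.u ^ j = 1 ∨ Q.u ^ j = Q.w := by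
    rw [hi, zpow_mul, zpow_natCast]
    rcases Int.even_or_odd' i with ⟨l, rfl | rfl⟩
    · left; rw [zpow_mul, zpow_two, ← QData.w, Q.w_sq, one_zpow]
    · right; rw [zpow_add_one, zpow_mul, zpow_two, ← QData.w, Q.w_sq, one_zpow, one_mul]
  rcases hj with rfl | rfl <;> rcases hw with hw | hw <;> rw [hw] <;> simp

omit Q in
/-- The subgroup of square roots of one. -/
def sqOne (Q : QData c D) : Subgroup (GR K m) where
  carrier := {z | z ∈ D ∧ z * z = 1}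
  one_mem' := ⟨one_mem _, one_mul 1⟩
  mul_mem' := fun {a b} ha hb => ⟨mul_mem ha.1 hb.1, by
    calc a * b * (a * b) = a * (b * a) * b := by group
      _ = a * (a * b) * b := by rw [Q.comm a ha.1 b hb.1]
      _ = (a * a) * (b * b) := by group
      _ = 1 := by rw [ha.2, hb.2, one_mul]⟩
  inv_mem' := fun {a} ha => ⟨inv_mem ha.1, by rw [← mul_inv_rev, ha.2, inv_one]⟩

theorem QData.vw_sq : Q.v * Q.w * (Q.v * Q.w) = 1 :=
  ((sqOne Q).mul_mem ⟨Q.hvD, Q.v_sq⟩ ⟨Q.w_mem, Q.w_sq⟩).2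

theorem QData.ne_one : Q.v ≠ 1 ∧ Q.w ≠ 1 ∧ Q.v * Q.w ≠ 1 ∧ Q.v * Q.w ≠ Q.v ∧ Q.v * Q.w ≠ Q.w := by
  have hv : Q.v ≠ 1 := fun h => by have := Q.hv; rw [h, orderOf_one] at this; omega
  have hw : Q.w ≠ 1 := fun h => by have := Q.orderOf_w; rw [h, orderOf_one] at this; omega
  refine ⟨hv, hw, fun h => Q.v_ne_w ?_, fun h => hw (mul_eq_left.1 h), fun h => hv (mul_eq_right.1 h)⟩
  rw [mul_eq_one_iff_eq_inv.1 h]
  exact (eq_inv_of_mul_eq_one_left Q.w_sq).symm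

theorem QData.card_sqOne : Nat.card (sqOne Q) = 4 := by
  obtain ⟨hv, hw, hvw, h1, h2⟩ := Q.ne_one
  have hset : ((sqOne Q : Subgroup (GR K m)) : Set (GR K m)) = {1, Q.v, Q.w, Q.v * Q.w} := by
    ext z
    constructor
    · exact fun h => Q.four h.1 h.2
    · rintro (rfl | rfl | rfl | rfl)
      exacts [one_mem _, ⟨Q.hvD, Q.v_sq⟩, ⟨Q.w_mem, Q.w_sq⟩, ⟨mul_mem Q.hvD Q.w_mem, Q.vw_sq⟩]
  rw [← SetLike.coe_sort_coe, Nat.card_coe_set_eq, hset,
    Set.ncard_insert_of_notMem (by simp [hv.symm, hw.symm, hvw.symm]),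
    Set.ncard_insert_of_notMem (by simp [Q.v_ne_w, h1.symm]),
    Set.ncard_pair h2.symm]

theorem QData.not_eight : ¬ 8 ∣ Nat.card D := by
  have := qq_mod c
  rw [Q.hcard]
  omega

omit c Q in
/-- The centraliser of an element of odd prime order dividing `q + 1`. -/
theorem cz_eq (c : Ctx K m) {x v : GR K m} {r : ℕ} (hr : r.Prime) (h2 : r ≠ 2) (hd : r ∣ qq m + 1)
    (hx : orderOf x = r) (hv : orderOf v = 2) (hxv : x * v = v * x) : cz x = cz x ⊓ cz v := by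
  set D := cz x ⊓ cz v with hD
  set C := cz x
  obtain ⟨Q, hQx, hQv⟩ : ∃ Q : QData c D, Q.x = x ∧ Q.v = v := qdata_inter c hr h2 hd hx hv hxv
  haveI : Fact (Nat.Prime 2) := ⟨Nat.prime_two⟩
  have hVC : sqOne Q ≤ C := fun z hz => hz.1.1
  have hvV : v ∈ sqOne Q := by
    refine ⟨⟨mem_cz.2 hxv.symm, mem_cz.2 rfl⟩, ?_⟩
    rw [← pow_two]; exact orderOf_dvd_iff_pow_eq_one.1 (hv ▸ dvd_rfl)
  have hpg : IsPGroup 2 ((sqOne Q).subgroupOf C) := IsPGroup.of_card (n := 2) (by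
    rw [Nat.card_congr (Subgroup.subgroupOfEquivOfLe hVC).toEquiv, Q.card_sqOne]; norm_num)
  obtain ⟨P, hP⟩ := hpg.exists_le_sylow
  have h2grp : ∀ R : Subgroup (GR K m), IsPGroup 2 R →
      (∀ a ∈ R, a * a = 1) ∧ ∀ a ∈ R, ∀ b ∈ R, a * b = b * a := by
    intro R hR
    obtain ⟨S, hS⟩ := hR.exists_le_sylow
    obtain ⟨⟨-, hsq⟩, -⟩ := sylow_two c S
    refine ⟨fun a ha => hsq a (hS ha), fun a ha b hb => ?_⟩
    have h1 := hsq _ (hS (mul_mem ha hb))
    calc a * b = (a * b)⁻¹ := eq_inv_of_mul_eq_one_left h1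
      _ = b⁻¹ * a⁻¹ := mul_inv_rev a b
      _ = b * a := by rw [← eq_inv_of_mul_eq_one_left (hsq a (hS ha)), ← eq_inv_of_mul_eq_one_left (hsq b (hS hb))]
  have hPD : ((P : Subgroup C).map C.subtype) ≤ D := by
    intro z hz
    obtain ⟨hsq, hcm⟩ := h2grp _ (P.isPGroup'.map C.subtype)
    obtain ⟨z', hz', rfl⟩ := hz
    refine ⟨z'.2, mem_cz.2 (hcm _ ⟨z', hz', rfl⟩ _ ⟨⟨v, hVC hvV⟩, hP ?_, rfl⟩)⟩
    exact Subgroup.mem_subgroupOf.2 hvV
  have hPeq : (P : Subgroup C) = (sqOne Q).subgroupOf C := by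
    refine (Subgroup.eq_of_le_of_card_ge hP ?_).symm
    rw [Nat.card_congr (Subgroup.subgroupOfEquivOfLe hVC).toEquiv, Q.card_sqOne]
    obtain ⟨k, hk⟩ := IsPGroup.iff_card.1 P.isPGroup'
    have hdvd : Nat.card (P : Subgroup C) ∣ Nat.card D := by
      rw [← Subgroup.card_map_of_injective (K := (P : Subgroup C)) (Subgroup.subtype_injective C)]
      exact Subgroup.card_dvd_of_le hPD
    rw [hk] at hdvd ⊢
    by_contra hlt
    have : 3 ≤ k := by
      by_contra h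
      have := Nat.pow_le_pow_right (n := 2) (by norm_num) (show k ≤ 2 by omega)
      omega
    exact Q.not_eight ((pow_dvd_pow 2 this).trans hdvd)
  have hP4 : Nat.card P = 4 := by
    show Nat.card (P : Subgroup C) = 4
    rw [hPeq, Nat.card_congr (Subgroup.subgroupOfEquivOfLe hVC).toEquiv, Q.card_sqOne]
  have hPsq : ∀ z ∈ P, z * z = 1 := fun z hz => by
    have h : z ∈ (sqOne Q).subgroupOf C := hPeq ▸ hz
    exact Subtype.ext (Subgroup.mem_subgroupOf.1 h).2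
  have h3C : ¬ 3 ∣ Nat.card C := fun h => by
    haveI : Fact (Nat.Prime 3) := ⟨Nat.prime_three⟩
    obtain ⟨t, ht⟩ := exists_prime_orderOf_dvd_card' 3 h
    exact no_comm_three c (x := (t : GR K m)) (g := x) (by rw [Subgroup.orderOf_coe, ht])
      (mem_cz.1 t.2).symm hr h2 (plus_arith c hr h2 hd).1 hx
  have hN := centralizes_four P hP4 hPsq h3C fun g => by rw [← Subgroup.orderOf_coe]; exact not_four_dvd c _
  have hPc : ∀ a ∈ (P : Subgroup C), ∀ b ∈ (P : Subgroup C), a * b = b * a := fun a ha b hb =>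
    Subtype.ext (Q.comm _ (Subgroup.mem_subgroupOf.1 (hPeq ▸ ha : a ∈ (sqOne Q).subgroupOf C)).1 _
      (Subgroup.mem_subgroupOf.1 (hPeq ▸ hb : b ∈ (sqOne Q).subgroupOf C)).1)
  haveI : IsMulCommutative ↥(P : Subgroup C) := ⟨⟨fun a b => Subtype.ext (hPc _ a.2 _ b.2)⟩⟩
  have hcomp := MonoidHom.ker_transferSylow_isComplement' P hN
  set N := (MonoidHom.transferSylow P hN).ker with hNdef
  have hfix := Coprime.fixGen_eq_of_elementary (B := (P : Subgroup C)) (K := N) Nat.prime_two hPc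
    (fun z hz => by rw [pow_two]; exact hPsq z hz) (by rw [hP4]; norm_num)
    (fun g _ => Subgroup.normalizer_eq_top (H := N) ▸ Subgroup.mem_top g)
    (by
      rw [hP4, show (4 : ℕ) = 2 ^ 2 by norm_num]
      refine Nat.Coprime.pow_left 2 ((Nat.prime_two.coprime_iff_not_dvd).2 fun h => ?_)
      have hi := P.not_dvd_index
      rw [hcomp.index_eq_card] at hi
      exact hi h)
  have htop : D.subgroupOf C = ⊤ := by
    rw [eq_top_iff, ← hcomp.sup_eq_top, sup_le_iff, ← hfix]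
    refine ⟨iSup₂_le fun a ha g hg => ?_, fun g hg => ?_⟩
    · obtain ⟨haP, ha1⟩ := ha
      have haV : (a : GR K m) ∈ sqOne Q := Subgroup.mem_subgroupOf.1 (hPeq ▸ haP : a ∈ (sqOne Q).subgroupOf C)
      have hao : orderOf (a : GR K m) = 2 :=
        orderOf_eq_prime (by rw [pow_two]; exact haV.2) fun h => ha1 (Subtype.ext h)
      obtain ⟨Q', -, -⟩ := qdata_inter c hr h2 hd hx hao (mem_cz.1 haV.1.1).symm
      have hgD : (g : GR K m) ∈ cz x ⊓ cz (a : GR K m) :=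
        ⟨g.2, mem_cz.2 (congrArg Subtype.val (Subgroup.mem_centralizer_singleton_iff.1 hg.2))⟩
      have hvD : v ∈ cz x ⊓ cz (a : GR K m) := by
        refine ⟨mem_cz.2 hxv.symm, mem_cz.2 ?_⟩
        have := Q.comm _ Q.hvD _ haV.1
        rwa [hQv] at this
      exact Subgroup.mem_subgroupOf.2 ⟨g.2, mem_cz.2 (Q'.comm _ hgD _ hvD)⟩
    · exact Subgroup.mem_subgroupOf.2 (Subgroup.mem_subgroupOf.1 (hPeq ▸ hg : g ∈ (sqOne Q).subgroupOf C)).1
  exact le_antisymm (Subgroup.subgroupOf_eq_top.1 htop) inf_le_left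

omit c Q in
theorem exists_odd_prime' {n q : ℕ} (hq : q % 8 = 3) (hn : n ∣ q + 1) (h2 : ¬ n ∣ 2) (h4 : ¬ 4 ∣ n) :
    ∃ r, r.Prime ∧ r ≠ 2 ∧ r ∣ n := by
  by_contra hcon
  push Not at hcon
  obtain ⟨k, hk, hnk⟩ : ∃ k, Odd k ∧ n ∣ 4 * k := ⟨(q + 1) / 4, Nat.odd_iff.2 (by omega), by
    rw [show 4 * ((q + 1) / 4) = q + 1 by omega]; exact hn⟩
  have hco : Nat.Coprime n k := Nat.coprime_of_dvd fun r hr hrn hrk => by
    rcases eq_or_ne r 2 with rfl | h
    · exact Nat.not_even_iff_odd.2 hk (even_iff_two_dvd.2 hrk)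
    · exact hcon r hr h hrn
  obtain ⟨i, hi, rfl⟩ := (Nat.dvd_prime_pow Nat.prime_two (m := 2)).1 (hco.dvd_of_dvd_mul_right hnk)
  interval_cases i <;> simp_all

/-- The centraliser of an element of odd prime order dividing `q + 1` is a torus. -/
theorem QData.cz_x : cz Q.x = D := by
  have hxv := Q.comm _ Q.hxD _ Q.hvD
  obtain ⟨Q', -, -⟩ := qdata_inter c Q.hr Q.h2 Q.hd Q.hx Q.hv hxv
  refine (Subgroup.eq_of_le_of_card_ge (fun z hz => mem_cz.2 (Q.comm _ hz _ Q.hxD)) ?_).symm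
  rw [cz_eq c Q.hr Q.h2 Q.hd Q.hx Q.hv hxv, Q'.hcard, Q.hcard]

theorem QData.cz_eq_of_mem {z : GR K m} (hz : z ∈ D) (h : z * z ≠ 1) : cz z = D := by
  refine le_antisymm ?_ fun g hg => mem_cz.2 (Q.comm _ hg _ hz)
  have hd : orderOf z ∣ qq m + 1 := Q.hcard ▸ Subgroup.orderOf_dvd_natCard _ hz
  obtain ⟨r, hr, h2, hrz⟩ := exists_odd_prime' (qq_mod c) hd
    (fun h' => h (by rw [← pow_two]; exact orderOf_dvd_iff_pow_eq_one.1 h')) (not_four_dvd c z)
  set y := z ^ (orderOf z / r)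
  have hy : orderOf y = r := orderOf_pow_orderOf_div (orderOf_pos z).ne' hrz
  have hyD : y ∈ D := pow_mem hz _
  have hyv := Q.comm _ hyD _ Q.hvD
  obtain ⟨Q', -, -⟩ := qdata_inter c hr h2 (hrz.trans hd) hy Q.hv hyv
  rw [← cz_eq c hr h2 (hrz.trans hd) hy Q.hv hyv] at Q'
  have hxy : Q.x ∈ cz y := mem_cz.2 (Q.comm _ Q.hxD _ hyD)
  have hle : cz y ≤ D := fun g hg => by
    rw [← Q.cz_x]; exact mem_cz.2 (Q'.comm _ hg _ hxy)
  exact fun g hg => hle (mem_cz.2 ((show Commute g z from mem_cz.1 hg).pow_right _).eq)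

theorem QData.sq_ne {z : GR K m} {r : ℕ} (hr : r.Prime) (h2 : r ≠ 2) (hz : orderOf z = r) : z * z ≠ 1 := by
  intro h
  have := Nat.le_of_dvd two_pos (hz ▸ orderOf_dvd_of_pow_eq_one (by rw [pow_two]; exact h))
  have := hr.two_le
  omega

theorem QData.le_pair {a b : GR K m} (ha : a ∈ D) (hb : b ∈ D) : D ≤ cz b ⊓ cz a :=
  fun z hz => ⟨mem_cz.2 (Q.comm _ hz _ hb), mem_cz.2 (Q.comm _ hz _ ha)⟩

/-- The elements of odd order in the centraliser of the four-group of a torus lie in it. -/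
theorem QData.odd_mem {a b y : GR K m} (ha : a ∈ D) (hb : b ∈ D) (hao : orderOf a = 2) (hbo : orderOf b = 2)
    (hne : b ≠ a) (hy : y ∈ cz b ⊓ cz a) (hodd : Odd (orderOf y)) : y ∈ D := by
  set M := cz b ⊓ cz a
  have hi : (D.subgroupOf M).index = 2 := by
    have h := Subgroup.card_mul_index (D.subgroupOf M)
    rw [Nat.card_congr (Subgroup.subgroupOfEquivOfLe (Q.le_pair ha hb)).toEquiv, Q.hcard,
      card_pair c hao hbo (Q.comm _ hb _ ha) hne, mul_comm 2] at h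
    exact Nat.eq_of_mul_eq_mul_left (by omega) h
  have h2 := Subgroup.mul_self_mem_of_index_two hi ⟨y, hy⟩
  rw [Subgroup.mem_subgroupOf] at h2
  obtain ⟨j, hj⟩ := hodd
  have e : y = ((y * y) ^ j)⁻¹ := by
    rw [← pow_two, ← pow_mul, eq_inv_iff_mul_eq_one, ← pow_succ', ← hj, pow_orderOf_eq_one]
  rw [e]
  exact inv_mem (pow_mem h2 j)

theorem QData.map_of_pair {D' : Subgroup (GR K m)} (Q' : QData c D') {g : GR K m}
    (hv : g * Q.v * g⁻¹ ∈ D') (hw : g * Q.w * g⁻¹ ∈ D') : ∀ y, y ∈ D ↔ g * y * g⁻¹ ∈ D' := by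
  have hx' : g * Q.x * g⁻¹ ∈ D' := by
    refine Q'.odd_mem hv hw (by rw [orderOf_conj, Q.hv]) (by rw [orderOf_conj, Q.orderOf_w])
      (fun h => Q.v_ne_w (mul_left_cancel (mul_right_cancel h)).symm)
      ⟨conj_mem_cz.2 (mem_cz.2 (Q.comm _ Q.hxD _ Q.w_mem)), conj_mem_cz.2 (mem_cz.2 (Q.comm _ Q.hxD _ Q.hvD))⟩ ?_
    rw [orderOf_conj, Q.hx]
    exact Q.hr.odd_of_ne_two Q.h2
  intro y
  rw [← Q.cz_x, ← Q'.cz_eq_of_mem hx' (Q.sq_ne Q.hr Q.h2 (by rw [orderOf_conj, Q.hx]))]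
  exact conj_mem_cz.symm

theorem QData.conj_to {D' : Subgroup (GR K m)} (Q' : QData c D') :
    ∃ g, ∀ y, y ∈ D ↔ g * y * g⁻¹ ∈ D' := by
  obtain ⟨g, hgv, hgw⟩ := pair_conj c Q.hv Q.orderOf_w (Q.comm _ Q.w_mem _ Q.hvD) Q.v_ne_w.symm Q'.hv
    Q'.orderOf_w (Q'.comm _ Q'.w_mem _ Q'.hvD) Q'.v_ne_w.symm
  refine ⟨g, Q.map_of_pair Q' (hgv ▸ Q'.hvD) ?_⟩
  rcases hgw with h | h <;> rw [h]
  exacts [Q'.w_mem, mul_mem Q'.hvD Q'.w_mem]

theorem QData.norm_iff {g z : GR K m} (hz : z ∈ D) (h : z * z ≠ 1) :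
    g * z * g⁻¹ ∈ D ↔ g ∈ Subgroup.normalizer (D : Set (GR K m)) := by
  refine ⟨fun hg => ?_, fun hg => (Subgroup.mem_normalizer_iff.1 hg _).1 hz⟩
  rw [Subgroup.mem_normalizer_iff]
  intro y
  have h' : g * z * g⁻¹ * (g * z * g⁻¹) ≠ 1 := fun e => h ((conj_eq_one_iff (a := g) (b := z * z)).1 (by rw [← e]; group))
  conv_rhs => rw [← Q.cz_eq_of_mem hg h']
  conv_lhs => rw [← Q.cz_eq_of_mem hz h]
  exact conj_mem_cz.symm

theorem QData.card_norm : Nat.card (Subgroup.normalizer (D : Set (GR K m))) = 6 * (qq m + 1) := by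
  obtain ⟨hv1, hw1, hvw1, hvw2, hvw3⟩ := Q.ne_one
  set N := Subgroup.normalizer (D : Set (GR K m))
  have hmemN : ∀ g, g * Q.v * g⁻¹ ∈ D → g * Q.w * g⁻¹ ∈ D → g ∈ N := fun g h1 h2 =>
    Subgroup.mem_normalizer_iff.2 (Q.map_of_pair Q h1 h2)
  have hvwo : orderOf (Q.v * Q.w) = 2 := orderOf_eq_prime (by rw [pow_two]; exact Q.vw_sq) hvw1
  have hDN : D ≤ N := Subgroup.le_normalizer
  -- the pointwise stabiliser
  have hM : ∀ g, g ∈ N ∧ g * Q.v * g⁻¹ = Q.v ↔ g ∈ cz Q.w ⊓ cz Q.v := by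
    intro g
    constructor
    · rintro ⟨hg, hgv⟩
      have hgv' : g ∈ cz Q.v := mem_cz.2 (by
        calc g * Q.v = g * Q.v * g⁻¹ * g := by group
          _ = Q.v * g := by rw [hgv])
      refine ⟨?_, hgv'⟩
      have hwD := (Subgroup.mem_normalizer_iff.1 hg _).1 Q.w_mem
      have hsq : g * Q.w * g⁻¹ * (g * Q.w * g⁻¹) = 1 := by
        calc _ = g * (Q.w * Q.w) * g⁻¹ := by group
          _ = 1 := by rw [Q.w_sq]; group
      rcases Q.four hwD hsq with h | h | h | h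
      · exact absurd (conj_eq_one_iff.1 h) hw1
      · exact absurd (mul_left_cancel (mul_right_cancel (hgv.trans h.symm))).symm Q.v_ne_w.symm
      · exact mem_cz.2 (by
          calc g * Q.w = g * Q.w * g⁻¹ * g := by group
            _ = Q.w * g := by rw [h])
      · exfalso
        obtain ⟨e, he⟩ := cinv_equiv' c Q.hv
        have hwv : Q.w ∈ cz Q.v := mem_cz.2 (Q.comm _ Q.w_mem _ Q.hvD)
        have h' : (⟨g, hgv'⟩ : cz Q.v) * ⟨Q.w, hwv⟩ * ⟨g, hgv'⟩⁻¹ = ⟨Q.v, mem_cz.2 rfl⟩ * ⟨Q.w, hwv⟩ :=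
          Subtype.ext h
        have h1 := congrArg (fun z => (e z).1) h'
        simp only [map_mul, map_inv, he, Prod.fst_mul, Prod.fst_inv] at h1
        rw [mul_right_comm, mul_inv_cancel, one_mul] at h1
        exact absurd h1
          ((by decide : ∀ s : Multiplicative (ZMod 2), s ≠ Multiplicative.ofAdd 1 * s) _)
    · rintro ⟨hgw, hgv⟩
      have h1 : g * Q.v * g⁻¹ = Q.v := by rw [mem_cz.1 hgv, mul_inv_cancel_right]
      have h2 : g * Q.w * g⁻¹ = Q.w := by rw [mem_cz.1 hgw, mul_inv_cancel_right]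
      exact ⟨hmemN g (by rw [h1]; exact Q.hvD) (by rw [h2]; exact Q.w_mem), h1⟩
  have hMN : cz Q.w ⊓ cz Q.v ≤ N := fun g hg => ((hM g).2 hg).1
  let vN : N := ⟨Q.v, hDN Q.hvD⟩
  have hcount := count_conj (G := N) (fun z => orderOf z = 2 ∧ (z : GR K m) ∈ D) {vN}
    ((cz Q.w ⊓ cz Q.v).subgroupOf N)
    (fun g z hz => ⟨by rw [← hz.1]; exact MulEquiv.orderOf_eq (MulAut.conj g) z,
      (Subgroup.mem_normalizer_iff.1 g.2 _).1 hz.2⟩)
    (by
      rintro z rfl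
      exact ⟨by rw [← Subgroup.orderOf_coe]; exact Q.hv, Q.hvD⟩)
    (by
      rintro z ⟨hzo, hzD⟩
      rw [← Subgroup.orderOf_coe] at hzo
      have hzsq : (z : GR K m) * z = 1 := by
        rw [← pow_two]; exact orderOf_dvd_iff_pow_eq_one.1 (hzo ▸ dvd_rfl)
      obtain ⟨s, hs, hso, hne⟩ : ∃ s ∈ D, orderOf s = 2 ∧ s ≠ (z : GR K m) := by
        rcases eq_or_ne (z : GR K m) Q.v with h | h
        · exact ⟨Q.w, Q.w_mem, Q.orderOf_w, fun e => Q.v_ne_w (e.trans h).symm⟩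
        · exact ⟨Q.v, Q.hvD, Q.hv, fun e => h e.symm⟩
      obtain ⟨g, hgv, hgw⟩ := pair_conj c Q.hv Q.orderOf_w (Q.comm _ Q.w_mem _ Q.hvD) Q.v_ne_w.symm hzo
        hso (Q.comm _ hs _ hzD) hne
      have hgN : g ∈ N := hmemN g (hgv ▸ hzD) (by
        rcases hgw with h | h <;> rw [h]
        exacts [hs, mul_mem hzD hs])
      refine ⟨⟨g⁻¹, inv_mem hgN⟩, Set.mem_singleton_iff.2 (Subtype.ext ?_)⟩
      show g⁻¹ * (z : GR K m) * g⁻¹⁻¹ = Q.v
      rw [← hgv]; group)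
    (fun g z hz => by
      rw [Set.mem_singleton_iff.1 hz, Set.mem_singleton_iff, Subgroup.mem_subgroupOf, ← hM g.1]
      exact ⟨fun h => ⟨g.2, congrArg Subtype.val h⟩, fun h => Subtype.ext h.2⟩)
  rw [Nat.card_congr (Subgroup.subgroupOfEquivOfLe hMN).toEquiv,
    card_pair c Q.hv Q.orderOf_w (Q.comm _ Q.w_mem _ Q.hvD) Q.v_ne_w.symm,
    Nat.card_coe_set_eq, Set.ncard_singleton, one_mul] at hcount
  have h3 : Nat.card {z : N // orderOf z = 2 ∧ (z : GR K m) ∈ D} = 3 := by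
    let f : {z : N // orderOf z = 2 ∧ (z : GR K m) ∈ D} ≃ ({Q.v, Q.w, Q.v * Q.w} : Set (GR K m)) :=
      { toFun := fun z => ⟨z.1.1, by
          have ho : orderOf (z.1 : GR K m) = 2 := by rw [Subgroup.orderOf_coe]; exact z.2.1
          rcases Q.four z.2.2 (by rw [← pow_two]; exact orderOf_dvd_iff_pow_eq_one.1 (by rw [ho]))
            with h | h | h | h
          · rw [h, orderOf_one] at ho; omega
          all_goals simp [h]⟩
        invFun := fun z => ⟨⟨z.1, hDN (by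
            rcases z.2 with h | h | h <;> rw [h]
            exacts [Q.hvD, Q.w_mem, mul_mem Q.hvD Q.w_mem])⟩, by
            rw [← Subgroup.orderOf_coe]
            show orderOf z.1 = 2
            rcases z.2 with h | h | h <;> rw [h]
            exacts [Q.hv, Q.orderOf_w, hvwo], by
            show z.1 ∈ D
            rcases z.2 with h | h | h <;> rw [h]
            exacts [Q.hvD, Q.w_mem, mul_mem Q.hvD Q.w_mem]⟩
        left_inv := fun z => rfl
        right_inv := fun z => rfl }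
    rw [Nat.card_congr f, Nat.card_coe_set_eq,
      Set.ncard_insert_of_notMem (by simp [Q.v_ne_w, hvw2.symm]), Set.ncard_pair hvw3.symm]
  rw [h3] at hcount
  omega

omit c Q in
theorem exists_qdata (c : Ctx K m) {z : GR K m} (hd : orderOf z ∣ qq m + 1) (h : z * z ≠ 1) :
    Nonempty (QData c (cz z)) := by
  obtain ⟨r, hr, h2, hrz⟩ := exists_odd_prime' (qq_mod c) hd
    (fun h' => h (by rw [← pow_two]; exact orderOf_dvd_iff_pow_eq_one.1 h')) (not_four_dvd c z)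
  set y := z ^ (orderOf z / r) with hy'
  have hy : orderOf y = r := orderOf_pow_orderOf_div (orderOf_pos z).ne' hrz
  obtain ⟨k, hk⟩ := sylow_move hr (cz (a0 c))
    (by rw [card_cinv c (orderOf_a0 c)]; exact (plus_arith c hr h2 (hrz.trans hd)).2) (x := y) (k := 1)
    (by rw [hy, pow_one])
  have hv : orderOf (k⁻¹ * a0 c * k) = 2 := by
    rw [show k⁻¹ * a0 c * k = k⁻¹ * a0 c * k⁻¹⁻¹ by rw [inv_inv], orderOf_conj, orderOf_a0]
  have hyv : y * (k⁻¹ * a0 c * k) = k⁻¹ * a0 c * k * y := by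
    calc y * (k⁻¹ * a0 c * k) = k⁻¹ * (k * y * k⁻¹ * a0 c) * k := by group
      _ = k⁻¹ * (a0 c * (k * y * k⁻¹)) * k := by rw [mem_cz.1 hk]
      _ = _ := by group
  obtain ⟨Q, -, -⟩ := qdata_inter c hr h2 (hrz.trans hd) hy hv hyv
  rw [← cz_eq c hr h2 (hrz.trans hd) hy hv hyv] at Q
  have hzy : z ∈ cz y := mem_cz.2 ((Commute.refl z).pow_right _).eq
  exact ⟨by rw [Q.cz_eq_of_mem hzy h]; exact Q⟩

omit c Q in
theorem exists_quarter (c : Ctx K m) : ∃ D : Subgroup (GR K m), Nonempty (QData c D) := by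
  have hq := qq_ge c
  have hq8 := qq_mod c
  set r := ((qq m + 1) / 4).minFac
  have hr : r.Prime := Nat.minFac_prime (by omega)
  have hrn : r ∣ (qq m + 1) / 4 := Nat.minFac_dvd _
  have hr1 : r ∣ qq m + 1 := hrn.trans ⟨4, by omega⟩
  have h2 : r ≠ 2 := fun h => by rw [h] at hrn; omega
  haveI := Fact.mk hr
  obtain ⟨x, hx⟩ := exists_prime_orderOf_dvd_card' (G := GR K m) r (by
    have h := (plus_arith c hr h2 hr1).2
    have h1 : 0 < (qq m * (qq m ^ 2 - 1)).factorization r :=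
      hr.factorization_pos_of_dvd (by
        have : 1 < qq m ^ 2 := Nat.one_lt_pow (by norm_num) (by omega)
        exact Nat.mul_ne_zero (by omega) (by omega))
        (Dvd.dvd.mul_left (hr1.trans (by rw [show qq m ^ 2 - 1 = qq m ^ 2 - 1 ^ 2 by norm_num, Nat.sq_sub_sq]; exact dvd_mul_right _ _)) _)
    exact Nat.dvd_of_factorization_pos (by omega))
  obtain ⟨Q⟩ := exists_qdata c (z := x) (hx ▸ hr1) (fun h => by
    have := Nat.le_of_dvd two_pos (hx ▸ orderOf_dvd_of_pow_eq_one (by rw [pow_two]; exact h))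
    have := hr.two_le
    omega)
  exact ⟨_, ⟨Q⟩⟩

end Cfsg.Agent.Lib.ReeTwoTori
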