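import Cfsg.Agent.Lib.ReeTwoTori.Count
import Cfsg.Agent.Lib.ReeMult.Emb
import Cfsg.Agent.Lib.SchurMult.Sylow

/-! The tori of the Ree groups of order dividing `q² - q + 1`. -/

set_option autoImplicit false

namespace Cfsg.Agent.Lib.ReeTwoTori

open Cfsg.Lie Cfsg.Agent.Lib Cfsg.Agent.Lib.Chev Cfsg.Agent.Lib.Chev.G2
open Cfsg.Agent.Lib.ReeAut
open scoped Pointwise commutatorElement

/-- A semisimple matrix of seven rows with six Frobenius conjugate eigenvalues is conjugate to its
`k`-th power only for `k` a power of the order of the field. -/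
theorem singer_eigen {ι K : Type*} [Fintype ι] [DecidableEq ι] [Field K] [Fintype K] [CharP K 3]
    (hι : Fintype.card ι = 7) (M N : GL ι K) {r k : ℕ} [hr : Fact r.Prime] (h3 : r ≠ 3)
    (hM : M ≠ 1) (hMr : M ^ r = 1) (hord : orderOf ((Fintype.card K : ℕ) : ZMod r) = 6)
    (hNM : N * M * N⁻¹ = M ^ k) (hk : ¬ r ∣ k) : ∃ j, (k : ZMod r) = (Fintype.card K : ZMod r) ^ j := by
  classical
  haveI : Nonempty ι := Fintype.card_pos_iff.1 (by omega)
  haveI : Fact (Nat.Prime 3) := ⟨Nat.prime_three⟩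
  set q := Fintype.card K with hq
  let L := AlgebraicClosure K
  haveI : CharP L 3 := charP_of_injective_algebraMap (algebraMap K L).injective 3
  let φ : GL ι K →* GL ι L := Matrix.GeneralLinearGroup.map (algebraMap K L)
  let A : Matrix ι ι L := (φ M : GL ι L)
  have hAeq : A = (M : Matrix ι ι K).map (algebraMap K L) := rfl
  set S := spectrum L A with hS
  have hchar : A.charpoly = (M : Matrix ι ι K).charpoly.map (algebraMap K L) := by
    rw [hAeq]; exact Matrix.charpoly_map _ _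
  have hAr : A ^ r = 1 := by
    show ((φ M : GL ι L) : Matrix ι ι L) ^ r = 1
    rw [← Units.val_pow_eq_pow_val, ← map_pow, hMr, map_one, Units.val_one]
  have hSr : ∀ x ∈ S, x ^ r = 1 := fun x hx => by
    have h := spectrum.pow_mem_pow A r hx
    rw [hAr, spectrum.one_eq] at h
    exact h
  have hroot : ∀ x, x ∈ S ↔ Polynomial.aeval x (M : Matrix ι ι K).charpoly = 0 := fun x => by
    rw [hS, Matrix.mem_spectrum_iff_isRoot_charpoly, hchar, Polynomial.IsRoot.def, Polynomial.eval_map,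
      Polynomial.aeval_def]
  have hfrob : ∀ x ∈ S, x ^ q ∈ S := fun x hx => by
    rw [hroot] at hx ⊢
    rw [← Polynomial.expand_aeval, FiniteField.expand_card, map_pow, hx, zero_pow Fintype.card_ne_zero]
  obtain ⟨ζ, hζ, hζ1⟩ : ∃ x ∈ S, x ≠ 1 := by
    by_contra hcon
    push Not at hcon
    have hroots : A.charpoly.roots = Multiset.replicate 7 1 := by
      refine Multiset.eq_replicate.2 ⟨?_, fun x hx => hcon x (Matrix.mem_spectrum_iff_isRoot_charpoly.2
        (Polynomial.isRoot_of_mem_roots hx))⟩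
      rw [IsAlgClosed.card_roots_eq_natDegree, Matrix.charpoly_natDegree_eq_dim, hι]
    have hp : A.charpoly = (Polynomial.X - Polynomial.C (1 : L)) ^ 7 := by
      rw [← Polynomial.prod_multiset_X_sub_C_of_monic_of_roots_card_eq (Matrix.charpoly_monic A)
        (by rw [IsAlgClosed.card_roots_eq_natDegree]), hroots, Multiset.map_replicate, Multiset.prod_replicate]
    have h7 : (A - 1) ^ 7 = 0 := by
      have h := Matrix.aeval_self_charpoly A
      rw [hp, map_pow, map_sub, Polynomial.aeval_X, Polynomial.aeval_C, map_one] at h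
      exact h
    haveI : CharP (Matrix ι ι L) 3 := charP_of_injective_algebraMap
      (FaithfulSMul.algebraMap_injective L (Matrix ι ι L)) 3
    have h9 : (A - 1) ^ 3 ^ 2 = 0 := by
      rw [show 3 ^ 2 = 7 + 2 by norm_num, pow_add, h7, zero_mul]
    rw [sub_pow_char_pow_of_commute (p := 3) (n := 2) (Commute.one_right A), one_pow, sub_eq_zero] at h9
    have hA1 : A = 1 := by
      have h := pow_gcd_eq_one.2 ⟨hAr, h9⟩
      rwa [Nat.Coprime.gcd_eq_one ((Nat.coprime_primes hr.out Nat.prime_three).2 h3 |>.pow_right 2),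
        pow_one] at h
    refine hM (Units.ext ?_)
    have h := hA1
    rw [hAeq] at h
    exact Matrix.map_injective (algebraMap K L).injective
      (h.trans (Matrix.map_one _ (map_zero _) (map_one _)).symm)
  have hζo : orderOf ζ = r := orderOf_eq_prime (hSr ζ hζ) hζ1
  have hmod : ∀ i j : ℕ, ζ ^ i = ζ ^ j ↔ (i : ZMod r) = j := fun i j => by
    rw [(isOfFinOrder_iff_pow_eq_one.2 ⟨r, hr.out.pos, hSr ζ hζ⟩).pow_eq_pow_iff_modEq, hζo,
      ZMod.natCast_eq_natCast_iff]
  have hpow : ∀ j, ζ ^ q ^ j ∈ S := fun j => by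
    induction j with
    | zero => simpa using hζ
    | succ j ih => rw [pow_succ, pow_mul]; exact hfrob _ ih
  let T : Finset L := (Finset.range 6).image fun j => ζ ^ q ^ j
  have hT : T.card = 6 := by
    rw [Finset.card_image_of_injOn, Finset.card_range]
    intro i hi j hj e
    rw [Finset.coe_range, Set.mem_Iio] at hi hj
    have e' := (hmod _ _).1 e
    push_cast at e'
    exact pow_injOn_Iio_orderOf (x := (q : ZMod r)) (by rw [hord]; exact hi) (by rw [hord]; exact hj) e'
  have hNA : (φ N : Matrix ι ι L) * A * ((φ N)⁻¹ : GL ι L) = A ^ k := by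
    show ((φ N : GL ι L) : Matrix ι ι L) * (φ M : GL ι L) * ((φ N)⁻¹ : GL ι L) = ((φ M : GL ι L) : Matrix ι ι L) ^ k
    rw [← Units.val_mul, ← Units.val_mul, ← map_inv, ← map_mul, ← map_mul, hNM, map_pow,
      Units.val_pow_eq_pow_val]
  have hkS : ζ ^ k ∈ S := by
    have h := spectrum.pow_mem_pow A k hζ
    rwa [← hNA, spectrum.units_conjugate] at h
  by_cases hin : ζ ^ k ∈ T
  · obtain ⟨j, -, hj⟩ := Finset.mem_image.1 hin
    exact ⟨j, by rw [← Nat.cast_pow]; exact ((hmod _ _).1 hj).symm⟩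
  exfalso
  have hne : A.charpoly ≠ 0 := (Matrix.charpoly_monic A).ne_zero
  have hsub : insert (ζ ^ k) T ⊆ A.charpoly.roots.toFinset := by
    intro x hx
    rw [Multiset.mem_toFinset, Polynomial.mem_roots hne, ← Matrix.mem_spectrum_iff_isRoot_charpoly]
    rcases Finset.mem_insert.1 hx with rfl | hx
    · exact hkS
    · obtain ⟨j, -, rfl⟩ := Finset.mem_image.1 hx
      exact hpow j
  have hall := Finset.eq_of_subset_of_card_le hsub (by
    rw [Finset.card_insert_of_notMem hin, hT]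
    calc _ ≤ Multiset.card A.charpoly.roots := Multiset.toFinset_card_le _
      _ ≤ _ := Polynomial.card_roots' _
      _ = _ := by rw [Matrix.charpoly_natDegree_eq_dim, hι])
  have hq6 : (q : ZMod r) ^ 6 = 1 := hord ▸ pow_orderOf_eq_one _
  have hmem : (ζ ^ k) ^ q ∈ insert (ζ ^ k) T := by
    rw [hall, Multiset.mem_toFinset, Polynomial.mem_roots hne, ← Matrix.mem_spectrum_iff_isRoot_charpoly]
    exact hfrob _ hkS
  rw [Finset.mem_insert, ← pow_mul] at hmem
  rcases hmem with h | h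
  · have h' := (hmod _ _).1 h
    push_cast at h'
    have hk0 : (k : ZMod r) ≠ 0 := fun h => hk ((ZMod.natCast_eq_zero_iff k r).1 h)
    have h1 : (q : ZMod r) = 1 := mul_left_cancel₀ hk0 (h'.trans (mul_one _).symm)
    rw [h1, orderOf_one] at hord
    omega
  · obtain ⟨j, -, hj⟩ := Finset.mem_image.1 h
    refine hin (Finset.mem_image.2 ⟨(j + 5) % 6, Finset.mem_range.2 (Nat.mod_lt _ (by norm_num)), ?_⟩)
    rw [hmod]
    have h' := (hmod _ _).1 hj
    push_cast at h' ⊢
    have hp : (q : ZMod r) ^ ((j + 5) % 6) = (q : ZMod r) ^ (j + 5) := by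
      conv_rhs => rw [← Nat.mod_add_div (j + 5) 6, pow_add, pow_mul, hq6, one_pow, mul_one]
    rw [hp, pow_add, h', mul_assoc, ← pow_succ', hq6, mul_one]

variable {K : Type*} [Field K] [Fintype K] [CharP K 3] {m : ℕ} (c : Ctx K m)

/-- The number `q² - q + 1`. -/
abbrev phi6 (m : ℕ) : ℕ := qq m * (qq m - 1) + 1

theorem eq_of_prime_order_cyclic {G : Type*} [Group G] [Finite G] {C : Subgroup G} (hC : IsCyclic C)
    {r : ℕ} (hr : r.Prime) {a b : G} (ha : a ∈ C) (hb : b ∈ C) (hao : orderOf a = r) (hbo : orderOf b = r) :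
    b ∈ Subgroup.zpowers a := by
  classical
  haveI := Fintype.ofFinite C
  set a' : C := ⟨a, ha⟩
  set b' : C := ⟨b, hb⟩
  have hsub : (Subgroup.zpowers a' : Set C).toFinset ⊆ (Finset.univ.filter fun x : C => x ^ r = 1) := by
    intro x hx
    rw [Set.mem_toFinset] at hx
    obtain ⟨i, rfl⟩ := hx
    rw [Finset.mem_filter]
    refine ⟨Finset.mem_univ _, ?_⟩
    show (a' ^ i) ^ r = 1
    rw [← zpow_natCast, ← zpow_mul, mul_comm i, zpow_mul, zpow_natCast,
      show a' ^ r = 1 from Subtype.ext (orderOf_dvd_iff_pow_eq_one.1 (hao ▸ dvd_rfl)), one_zpow]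
  have heq := Finset.eq_of_subset_of_card_le hsub (by
    rw [Set.toFinset_card, ← Nat.card_eq_fintype_card]
    show _ ≤ Nat.card ↥(Subgroup.zpowers a')
    rw [Nat.card_zpowers, Subgroup.orderOf_mk, hao]
    exact IsCyclic.card_pow_eq_one_le hr.pos)
  have hb' : b' ∈ (Finset.univ.filter fun x : C => x ^ r = 1) :=
    Finset.mem_filter.2 ⟨Finset.mem_univ _, Subtype.ext (orderOf_dvd_iff_pow_eq_one.1 (hbo ▸ dvd_rfl))⟩
  rw [← heq, Set.mem_toFinset] at hb'
  obtain ⟨i, hi⟩ := hb'
  exact ⟨i, congrArg Subtype.val hi⟩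

include c

theorem card_G' : Nat.card (GR K m) = qq m ^ 3 * (qq m - 1) * (qq m + 1) * phi6 m := by
  rw [card_G c, phi6]
  obtain ⟨n, hn⟩ : ∃ n, qq m = n + 1 := ⟨qq m - 1, by have := qq_ge c; omega⟩
  rw [hn, Nat.add_sub_cancel]
  ring

theorem phi6_arith {r : ℕ} (hr : r.Prime) (hd : r ∣ phi6 m) :
    5 ≤ r ∧ ¬ r ∣ qq m ∧ ¬ r ∣ qq m - 1 ∧ ¬ r ∣ qq m + 1 ∧ orderOf ((qq m : ℕ) : ZMod r) = 6 := by
  have h3q : 3 ∣ qq m := dvd_pow_self 3 (by omega)
  have hq := qq_ge c
  have hnq : ¬ r ∣ qq m := fun h => hr.not_dvd_one ((Nat.dvd_add_right (h.mul_right _)).1 hd)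
  have hnm : ¬ r ∣ qq m - 1 := fun h => hr.not_dvd_one ((Nat.dvd_add_right (h.mul_left _)).1 hd)
  have h3 : r ≠ 3 := fun h => hnq (h ▸ h3q)
  have h2 : r ≠ 2 := by
    rintro rfl
    have h1 : 2 ∣ qq m * (qq m - 1) := by
      have := qq_mod c
      exact Dvd.dvd.mul_left (by omega) _
    have := (Nat.dvd_add_right h1).1 hd
    norm_num at this
  have hnp : ¬ r ∣ qq m + 1 := fun h => by
    obtain ⟨n, hn⟩ : ∃ n, qq m = n + 2 := ⟨qq m - 2, by omega⟩
    rw [phi6, hn, show n + 2 - 1 = n + 1 by omega,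
      show (n + 2) * (n + 1) + 1 = (n + 2 + 1) * n + 3 by ring] at hd
    rw [hn] at h
    exact h3 ((Nat.prime_dvd_prime_iff_eq hr Nat.prime_three).1 ((Nat.dvd_add_right (h.mul_right n)).1 hd))
  refine ⟨by have := hr.two_le; by_contra h; interval_cases r <;> revert hr h2 h3 <;> decide, hnq, hnm, hnp, ?_⟩
  haveI := Fact.mk hr
  set x := ((qq m : ℕ) : ZMod r) with hx
  have hrel : x * (x - 1) + 1 = 0 := by
    have h := (ZMod.natCast_eq_zero_iff (phi6 m) r).2 hd
    rw [phi6, Nat.cast_add, Nat.cast_mul, Nat.cast_sub (by omega), Nat.cast_one] at h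
    exact h
  have hne : ∀ p : ℕ, p.Prime → r ≠ p → (p : ZMod r) ≠ 0 := fun p hp hne h =>
    hne ((Nat.prime_dvd_prime_iff_eq hr hp).1 ((ZMod.natCast_eq_zero_iff p r).1 h))
  have hx3 : x ^ 3 = -1 := by linear_combination (x + 1) * hrel
  have h6 : x ^ 6 = 1 := by rw [show 6 = 3 * 2 from rfl, pow_mul, hx3, neg_one_sq]
  have n3 : x ^ 3 ≠ 1 := fun h => hne 2 Nat.prime_two h2 (by push_cast; linear_combination hx3 - h)
  have n2 : x ^ 2 ≠ 1 := fun h => by
    have hx2 : x = 2 := by linear_combination h - hrel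
    exact hne 3 Nat.prime_three h3 (by push_cast; rw [hx2] at h; linear_combination h)
  have hd6 := orderOf_dvd_of_pow_eq_one h6
  have hle := Nat.le_of_dvd (by norm_num) hd6
  have h0 := pow_orderOf_eq_one x
  interval_cases hn : orderOf x <;> first
    | rfl
    | omega
    | exact absurd h0 n2
    | exact absurd h0 n3
    | (exfalso; rw [pow_one] at h0; exact n2 (by rw [h0, one_pow]))
    | (exfalso; norm_num at hd6)
    | (exfalso; exact absurd hn (orderOf_pos_iff.2 (isOfFinOrder_iff_pow_eq_one.2 ⟨6, by norm_num, h6⟩)).ne')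

theorem fact_phi6 {r : ℕ} (hr : r.Prime) (hd : r ∣ phi6 m) :
    (phi6 m).factorization r = (Nat.card (GR K m)).factorization r := by
  obtain ⟨-, hnq, hnm, hnp, -⟩ := phi6_arith c hr hd
  have hq := qq_ge c
  rw [card_G' c, Nat.factorization_mul (Nat.mul_ne_zero (Nat.mul_ne_zero (by positivity) (by omega)) (by omega))
    (by positivity), Finsupp.add_apply, Nat.factorization_eq_zero_of_not_dvd
      (n := qq m ^ 3 * (qq m - 1) * (qq m + 1)), zero_add]
  intro h
  rcases hr.dvd_mul.1 h with h | h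
  · rcases hr.dvd_mul.1 h with h | h
    exacts [hnq (hr.dvd_of_dvd_pow h), hnm h]
  · exact hnp h

/-- An element commuting with an element of order a primitive divisor has order of such primes. -/
theorem prime_of_comm {y t : GR K m} {r s : ℕ} (hr : r.Prime) (hrd : r ∣ phi6 m) (hy : orderOf y = r)
    (hs : s.Prime) (ht : orderOf t = s) (hc : t * y = y * t) : s ∣ phi6 m := by
  obtain ⟨h5, hnq, hnm, hnp, -⟩ := phi6_arith c hr hrd
  have hq := qq_ge c
  have hqm := qq_mod c
  have hsG : s ∣ Nat.card (GR K m) := ht ▸ orderOf_dvd_natCard t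
  rw [card_G' c] at hsG
  by_contra hns
  have hy' : y ∈ cz t := mem_cz.2 hc.symm
  have hyd := hy ▸ Subgroup.orderOf_dvd_natCard _ hy'
  rcases eq_or_ne s 2 with rfl | h2
  · rw [card_cinv c ht, show qq m ^ 2 - 1 = qq m ^ 2 - 1 ^ 2 by norm_num, Nat.sq_sub_sq] at hyd
    rcases hr.dvd_mul.1 hyd with h | h
    · exact hnq h
    · rcases hr.dvd_mul.1 h with h | h
      exacts [hnp h, hnm h]
  rcases eq_or_ne s 3 with rfl | h3
  · exact no_comm_three c ht hc.symm hr (by omega) (by omega) hy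
  rcases hs.dvd_mul.1 hsG with h | h
  · rcases hs.dvd_mul.1 h with h | h
    · rcases hs.dvd_mul.1 h with h | h
      · exact h3 ((Nat.prime_dvd_prime_iff_eq hs Nat.prime_three).1 (hs.dvd_of_dvd_pow (hs.dvd_of_dvd_pow h)))
      · obtain ⟨k, hk⟩ := minus_move c (g := t) (ht ▸ h) (sq_ne_of_prime hs h2 ht)
        have hyk : k * y * k⁻¹ ∈ c.T.hom.range := by
          rw [← range_cz c hk (sq_ne_of_prime hs h2 (by rw [orderOf_conj, ht]))]
          exact conj_mem_cz.2 hy'
        have := Subgroup.orderOf_dvd_natCard _ hyk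
        rw [orderOf_conj, hy, card_range c] at this
        exact hnm this
    · obtain ⟨Q⟩ := exists_qdata c (z := t) (ht ▸ h) (sq_ne_of_prime hs h2 ht)
      rw [Q.hcard] at hyd
      exact hnp hyd
  · exact hns h

theorem dvd_phi6 {n : ℕ} (hn : n ∣ Nat.card (GR K m)) (h : ∀ s, s.Prime → s ∣ n → s ∣ phi6 m) :
    n ∣ phi6 m := by
  rw [card_G' c] at hn
  refine Nat.Coprime.dvd_of_dvd_mul_left (Nat.coprime_of_dvd fun s hs h1 h2 => ?_) hn
  obtain ⟨-, hnq, hnm, hnp, -⟩ := phi6_arith c hs (h s hs h1)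
  rcases hs.dvd_mul.1 h2 with h | h
  · rcases hs.dvd_mul.1 h with h | h
    exacts [hnq (hs.dvd_of_dvd_pow h), hnm h]
  · exact hnp h

theorem coprime_six {n : ℕ} (hn : n ∣ phi6 m) : Nat.Coprime n 6 := by
  refine Nat.coprime_of_dvd fun s hs h1 h2 => ?_
  have := (phi6_arith c hs (h1.trans hn)).1
  have := Nat.le_of_dvd (by norm_num) h2
  interval_cases s <;> revert hs h2 <;> decide

/-- The normalizer of a subgroup of primitive prime order acts with order dividing six. -/
theorem six_commute {y g : GR K m} {r : ℕ} (hr : r.Prime) (hd : r ∣ phi6 m) (hy : orderOf y = r)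
    (hg : g * y * g⁻¹ ∈ Subgroup.zpowers y) : g ^ 6 * y = y * g ^ 6 := by
  classical
  obtain ⟨h5, -, -, -, hord⟩ := phi6_arith c hr hd
  haveI := Fact.mk hr
  obtain ⟨k, hk⟩ := (mem_powers_iff_mem_zpowers).2 hg
  have hk' : y ^ k = g * y * g⁻¹ := hk
  have hkr : ¬ r ∣ k := fun h => by
    have h1 : g * y * g⁻¹ = 1 := by rw [← hk', orderOf_dvd_iff_pow_eq_one.1 (hy ▸ h)]
    rw [conj_eq_one_iff.1 h1, orderOf_one] at hy
    omega
  obtain ⟨f, hf⟩ := ReeMult.exists_hom (K := K) m
  obtain ⟨j, hj⟩ := singer_eigen (K := K) ReeMult.card_In (f y) (f g) (r := r) (k := k) (by omega)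
    (fun h => by
      rw [hf (h.trans (map_one f).symm), orderOf_one] at hy
      omega)
    (by rw [← map_pow, ← hy, pow_orderOf_eq_one, map_one])
    (by rw [show Fintype.card K = qq m from c.hK]; exact hord)
    (by rw [← map_inv, ← map_mul, ← map_mul, ← map_pow, hk']) hkr
  have key : ∀ n : ℕ, g ^ n * y * (g ^ n)⁻¹ = y ^ k ^ n := by
    intro n
    induction n with
    | zero => simp
    | succ n ih =>
      rw [pow_succ' g, show g * g ^ n * y * (g * g ^ n)⁻¹ = g * (g ^ n * y * (g ^ n)⁻¹) * g⁻¹ by group, ih,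
        ← conj_pow, ← hk', ← pow_mul, pow_succ']
  have h6 : (k : ZMod r) ^ 6 = 1 := by
    rw [hj, show Fintype.card K = qq m from c.hK, pow_right_comm, ← hord, pow_orderOf_eq_one, one_pow]
  have h := key 6
  have hone : y ^ k ^ 6 = y := by
    conv_rhs => rw [← pow_one y]
    rw [pow_eq_pow_iff_modEq, hy, ← ZMod.natCast_eq_natCast_iff, Nat.cast_pow, h6, Nat.cast_one]
  rw [hone, mul_inv_eq_iff_eq_mul] at h
  exact h

theorem singer_commute {y g : GR K m} {r : ℕ} (hr : r.Prime) (hd : r ∣ phi6 m) (hy : orderOf y = r)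
    (hg : g * y * g⁻¹ ∈ Subgroup.zpowers y) (hgo : orderOf g ∣ phi6 m) : g * y = y * g := by
  obtain ⟨b, hb⟩ := exists_pow_eq_self_of_coprime (x := g) (n := 6) (coprime_six c hgo).symm
  have h := (show Commute (g ^ 6) y from six_commute c hr hd hy hg).pow_left b
  rw [hb] at h
  exact h.eq

theorem cz_primes {y : GR K m} {r : ℕ} (hr : r.Prime) (hd : r ∣ phi6 m) (hy : orderOf y = r) :
    Nat.card (cz y) ∣ phi6 m := by
  refine dvd_phi6 c (Subgroup.card_subgroup_dvd_card _) fun s hs h => ?_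
  haveI := Fact.mk hs
  obtain ⟨t, ht⟩ := exists_prime_orderOf_dvd_card' s h
  exact prime_of_comm c hr hd hy hs (t := (t : GR K m)) (by rw [Subgroup.orderOf_coe, ht]) (mem_cz.1 t.2)

theorem cz_cyclic {y : GR K m} {r : ℕ} (hr : r.Prime) (hd : r ∣ phi6 m) (hy : orderOf y = r) :
    IsCyclic (cz y) := by
  set C := cz y
  have hC := cz_primes c hr hd hy
  haveI : IsZGroup C := ⟨fun p hp P => by
    haveI := Fact.mk hp
    by_cases hpC : p ∣ Nat.card C
    · have h5 := (phi6_arith c hp (hpC.trans hC)).1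
      obtain ⟨S, hS⟩ := (P.isPGroup'.map C.subtype).exists_le_sylow
      haveI := ReeMult.cyclic_sylow c.θ c.hθ c.hK c.hm (r := p) (by omega) (by omega) S
      haveI : IsCyclic ↥((P : Subgroup C).map C.subtype) :=
        isCyclic_of_injective (Subgroup.inclusion hS) (Subgroup.inclusion_injective _)
      exact isCyclic_of_injective
        ((P : Subgroup C).equivMapOfInjective C.subtype (Subgroup.subtype_injective _)).toMonoidHom
        (MulEquiv.injective _)
    · haveI : Subsingleton P := (Nat.card_eq_one_iff_unique.1 (by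
        rw [P.card_eq_multiplicity, Nat.factorization_eq_zero_of_not_dvd hpC, pow_zero])).1
      exact isCyclic_of_subsingleton⟩
  have hcomm : commutator C = ⊥ := by
    by_contra hne
    obtain ⟨s, hs, hsd⟩ := Nat.exists_prime_and_dvd (n := Nat.card (commutator C))
      (fun h => hne (Subgroup.card_eq_one.1 h))
    haveI := Fact.mk hs
    obtain ⟨t, ht⟩ := exists_prime_orderOf_dvd_card' s hsd
    have hto : orderOf (t : C) = s := by rw [Subgroup.orderOf_coe, ht]
    have hto' : orderOf ((t : C) : GR K m) = s := by rw [Subgroup.orderOf_coe, hto]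
    have hsC : s ∣ phi6 m := (hto ▸ orderOf_dvd_natCard (t : C)).trans hC
    have hcen : (t : C) ∈ Subgroup.center C := Subgroup.mem_center_iff.2 fun g => by
      have hgt : g * t * g⁻¹ ∈ Subgroup.zpowers (t : C) :=
        eq_of_prime_order_cyclic (C := commutator C) (IsZGroup.isCyclic_commutator C) hs t.2
          ((Subgroup.commutator_normal ⊤ ⊤).conj_mem _ t.2 g) hto
          (by rw [← hto]; exact MulEquiv.orderOf_eq (MulAut.conj g) _)
      have hgo : orderOf ((g : C) : GR K m) ∣ phi6 m := by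
        rw [Subgroup.orderOf_coe]; exact (orderOf_dvd_natCard g).trans hC
      refine Subtype.ext (singer_commute c hs hsC hto' (g := (g : GR K m)) ?_ hgo)
      obtain ⟨i, hi⟩ := hgt
      exact ⟨i, by
        have := congrArg Subtype.val hi
        simpa using this⟩
    obtain ⟨P, hP⟩ := (IsPGroup.of_card (p := s) (n := 1) (G := Subgroup.zpowers (t : C))
      (by rw [Nat.card_zpowers, hto, pow_one])).exists_le_sylow
    have h := SchurMult.mem_commutator_sylow P (hP (Subgroup.mem_zpowers _)) hcen t.2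
    haveI := IsZGroup.isZGroup s hs P
    letI := IsCyclic.commGroup (α := P)
    rw [show commutator (P : Subgroup C) = ⊥ from (commutator_eq_bot_iff_center_eq_top _).2
      ((Subgroup.eq_top_iff' _).2 fun x => Subgroup.mem_center_iff.2 fun y => mul_comm y x), Subgroup.mem_bot] at h
    have h1 : (t : C) = 1 := congrArg Subtype.val h
    rw [h1, orderOf_one] at hto
    exact hs.ne_one hto.symm
  have hab : ∀ a b : C, a * b = b * a := fun a b => by
    have h : ⁅a, b⁆ ∈ commutator C := Subgroup.commutator_mem_commutator (Subgroup.mem_top a) (Subgroup.mem_top b)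
    rw [hcomm, Subgroup.mem_bot] at h
    exact commutatorElement_eq_one_iff_mul_comm.1 h
  have hn : Group.IsNilpotent C := by
    let _ : CommGroup C := { (inferInstance : Group C) with mul_comm := hab }
    exact CommGroup.isNilpotent
  exact inferInstance

/-- A torus of order dividing `q² - q + 1`. -/
def IsSinger (C : Subgroup (GR K m)) : Prop :=
  ∃ y r, Nat.Prime r ∧ r ∣ phi6 m ∧ orderOf y = r ∧ C = cz y

theorem IsSinger.cyclic {C : Subgroup (GR K m)} (hC : IsSinger C) : IsCyclic C := by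
  obtain ⟨y, r, hr, hd, hy, rfl⟩ := hC
  exact cz_cyclic c hr hd hy

theorem IsSinger.card_dvd {C : Subgroup (GR K m)} (hC : IsSinger C) : Nat.card C ∣ phi6 m := by
  obtain ⟨y, r, hr, hd, hy, rfl⟩ := hC
  exact cz_primes c hr hd hy

theorem IsSinger.comm {C : Subgroup (GR K m)} (hC : IsSinger C) {a b : GR K m} (ha : a ∈ C) (hb : b ∈ C) :
    a * b = b * a := by
  haveI := hC.cyclic c
  letI := IsCyclic.commGroup (α := C)
  exact congrArg Subtype.val (mul_comm (⟨a, ha⟩ : C) ⟨b, hb⟩)

theorem IsSinger.sq_ne {C : Subgroup (GR K m)} (hC : IsSinger C) {z : GR K m} (hz : z ∈ C) (h1 : z ≠ 1) :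
    z * z ≠ 1 := by
  intro h
  have hd := (Subgroup.orderOf_dvd_natCard _ hz).trans (hC.card_dvd c)
  have h2 : orderOf z = 2 := orderOf_eq_prime (by rw [pow_two]; exact h) h1
  have := coprime_six c (h2 ▸ hd)
  norm_num at this

theorem IsSinger.cz_eq {C : Subgroup (GR K m)} (hC : IsSinger C) {z : GR K m} (hz : z ∈ C) (h1 : z ≠ 1) :
    cz z = C := by
  refine le_antisymm ?_ fun g hg => mem_cz.2 (hC.comm c hg hz)
  obtain ⟨s, hs, hsd⟩ := Nat.exists_prime_and_dvd (n := orderOf z) (fun h => h1 (orderOf_eq_one_iff.1 h))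
  set t := z ^ (orderOf z / s)
  have ht : orderOf t = s := orderOf_pow_orderOf_div (orderOf_pos z).ne' hsd
  have htC : t ∈ C := pow_mem hz _
  have hsC : s ∣ phi6 m := (hsd.trans (Subgroup.orderOf_dvd_natCard _ hz)).trans (hC.card_dvd c)
  have hC' : IsSinger (cz t) := ⟨t, s, hs, hsC, ht, rfl⟩
  intro g hg
  have hgt : g ∈ cz t := mem_cz.2 ((show Commute g z from mem_cz.1 hg).pow_right _).eq
  obtain ⟨y, r, hr, hd, hy, e⟩ := hC
  have hyC : y ∈ C := e ▸ mem_cz.2 rfl
  have hyt : y ∈ cz t := mem_cz.2 (IsSinger.comm c ⟨y, r, hr, hd, hy, e⟩ hyC htC)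
  rw [e]
  exact mem_cz.2 (hC'.comm c hgt hyt)

theorem exists_singer {g : GR K m} (hd : orderOf g ∣ phi6 m) (h1 : g ≠ 1) : IsSinger (cz g) := by
  obtain ⟨s, hs, hsd⟩ := Nat.exists_prime_and_dvd (n := orderOf g) (fun h => h1 (orderOf_eq_one_iff.1 h))
  set t := g ^ (orderOf g / s)
  have ht : orderOf t = s := orderOf_pow_orderOf_div (orderOf_pos g).ne' hsd
  have hC : IsSinger (cz t) := ⟨t, s, hs, hsd.trans hd, ht, rfl⟩
  rwa [hC.cz_eq c (mem_cz.2 ((Commute.refl g).pow_right _).eq) h1]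

/-- A torus contains a Sylow subgroup for each of its primes. -/
theorem IsSinger.sylow {C : Subgroup (GR K m)} (hC : IsSinger C) {s : ℕ} [hs : Fact s.Prime]
    (hsd : s ∣ Nat.card C) : ∃ P : Sylow s (GR K m), (P : Subgroup (GR K m)) ≤ C := by
  obtain ⟨t, ht⟩ := exists_prime_orderOf_dvd_card' s hsd
  obtain ⟨P, hP⟩ := (IsPGroup.of_card (p := s) (n := 1) (G := Subgroup.zpowers (t : GR K m))
    (by rw [Nat.card_zpowers, Subgroup.orderOf_coe, ht, pow_one])).exists_le_sylow
  have h5 := (phi6_arith c hs.out (hsd.trans (hC.card_dvd c))).1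
  haveI := ReeMult.cyclic_sylow c.θ c.hθ c.hK c.hm (r := s) (by omega) (by omega) P
  letI := IsCyclic.commGroup (α := (P : Subgroup (GR K m)))
  refine ⟨P, fun x hx => ?_⟩
  have h1 : (t : GR K m) ≠ 1 := fun h => by
    have := congrArg orderOf h
    rw [Subgroup.orderOf_coe, ht, orderOf_one] at this
    exact hs.out.ne_one this
  rw [← hC.cz_eq c t.2 h1, mem_cz]
  exact congrArg Subtype.val (mul_comm (⟨x, hx⟩ : (P : Subgroup (GR K m))) ⟨t, hP (Subgroup.mem_zpowers _)⟩)

theorem IsSinger.fact_eq {C : Subgroup (GR K m)} (hC : IsSinger C) {s : ℕ} (hs : s.Prime)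
    (hsd : s ∣ Nat.card C) : (Nat.card C).factorization s = (phi6 m).factorization s := by
  haveI := Fact.mk hs
  obtain ⟨P, hP⟩ := hC.sylow c hsd
  refine le_antisymm ((Nat.factorization_le_iff_dvd Nat.card_pos.ne' (by positivity)).2 (hC.card_dvd c) s) ?_
  have h := Subgroup.card_dvd_of_le hP
  rw [P.card_eq_multiplicity] at h
  rw [fact_phi6 c hs (hsd.trans (hC.card_dvd c))]
  exact (hs.pow_dvd_iff_le_factorization Nat.card_pos.ne').1 h

theorem IsSinger.conj_of_prime {C C' : Subgroup (GR K m)} (hC : IsSinger C) (hC' : IsSinger C') {s : ℕ}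
    (hs : s.Prime) (h : s ∣ Nat.card C) (h' : s ∣ Nat.card C') : ∃ g, ∀ y, y ∈ C ↔ g * y * g⁻¹ ∈ C' := by
  haveI := Fact.mk hs
  obtain ⟨P, hP⟩ := hC.sylow c h
  obtain ⟨P', hP'⟩ := hC'.sylow c h'
  obtain ⟨g, hg⟩ := MulAction.exists_smul_eq (GR K m) P P'
  obtain ⟨x, hx⟩ := exists_prime_orderOf_dvd_card' (G := (P : Subgroup (GR K m))) s (by
    rw [P.card_eq_multiplicity]
    exact dvd_pow_self s (hs.factorization_pos_of_dvd Nat.card_pos.ne'
      (h.trans (Subgroup.card_subgroup_dvd_card C))).ne')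
  have hx1 : (x : GR K m) ≠ 1 := fun e => by
    have := congrArg orderOf e
    rw [Subgroup.orderOf_coe, hx, orderOf_one] at this
    exact hs.ne_one this
  have hgx : g * x * g⁻¹ ∈ C' := hP' (by
    rw [← hg, Sylow.coe_subgroup_smul]
    exact ⟨x, x.2, rfl⟩)
  refine ⟨g, fun y => ?_⟩
  rw [← hC.cz_eq c (hP x.2) hx1, ← hC'.cz_eq c hgx (fun e => hx1 (conj_eq_one_iff.1 e))]
  exact conj_mem_cz.symm

theorem IsSinger.card_norm {C : Subgroup (GR K m)} (hC : IsSinger C) :
    ∃ n, n ∣ 6 ∧ Nat.card (Subgroup.normalizer (C : Set (GR K m))) = n * Nat.card C := by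
  classical
  have hcyc := hC.cyclic c
  have hcomm := fun {a b : GR K m} => hC.comm c (a := a) (b := b)
  obtain ⟨y, r, hr, hd, hy, e⟩ := hC
  haveI := Fact.mk hr
  set N := Subgroup.normalizer (C : Set (GR K m))
  set R := Subgroup.zpowers y
  have hyC : y ∈ C := e ▸ mem_cz.2 rfl
  have hconj : ∀ g : GR K m, g ∈ N → g * y * g⁻¹ ∈ R := fun g hg =>
    eq_of_prime_order_cyclic hcyc hr hyC ((Subgroup.mem_normalizer_iff.1 hg _).1 hyC) hy
      (by rw [orderOf_conj, hy])
  have hNR : N ≤ Subgroup.normalizer (R : Set (GR K m)) := by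
    intro g hg
    rw [Subgroup.mem_normalizer_iff]
    intro z
    constructor
    · rintro ⟨i, rfl⟩
      show g * y ^ i * g⁻¹ ∈ R
      rw [← conj_zpow]
      exact Subgroup.zpow_mem _ (hconj g hg) i
    · intro hz
      obtain ⟨i, hi⟩ := hz
      have h := Subgroup.zpow_mem _ (hconj g⁻¹ (inv_mem hg)) i
      rw [conj_zpow, inv_inv] at h
      have hi' : y ^ i = g * z * g⁻¹ := hi
      rw [hi'] at h
      rwa [show g⁻¹ * (g * z * g⁻¹) * g = z by group] at h
  let ψ : N →* MulAut R := (Subgroup.normalizerMonoidHom R).comp (Subgroup.inclusion hNR)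
  have hker : ∀ g : N, ψ g = 1 ↔ (g : GR K m) ∈ C := by
    intro g
    rw [← MonoidHom.mem_ker, MonoidHom.mem_ker, MonoidHom.comp_apply, ← MonoidHom.mem_ker,
      Subgroup.normalizerMonoidHom_ker, Subgroup.mem_subgroupOf, Subgroup.mem_centralizer_iff]
    constructor
    · intro h
      rw [e]
      exact mem_cz.2 (h y (Subgroup.mem_zpowers y)).symm
    · rintro h z ⟨i, rfl⟩
      exact ((show Commute y g from hcomm hyC h).zpow_left i).eq
  have hcycA : IsCyclic (MulAut R) := by
    have hR : Nat.card R = r := by rw [Nat.card_zpowers, hy]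
    haveI : Fact (Nat.card R).Prime := ⟨by rw [hR]; exact hr⟩
    exact isCyclic_of_injective (IsCyclic.mulAutMulEquiv R).toMonoidHom (MulEquiv.injective _)
  have hexp : Monoid.exponent ψ.range ∣ 6 := by
    refine Monoid.exponent_dvd_of_forall_pow_eq_one ?_
    rintro ⟨_, g, rfl⟩
    refine Subtype.ext ?_
    show ψ g ^ 6 = 1
    rw [← map_pow, hker, e]
    exact mem_cz.2 (six_commute c hr hd hy (hconj g g.2))
  haveI : IsCyclic ψ.range := Subgroup.isCyclic _
  refine ⟨Nat.card ψ.range, by rw [← IsCyclic.exponent_eq_card]; exact hexp, ?_⟩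
  rw [← Subgroup.card_mul_index ψ.ker, Subgroup.index_ker, mul_comm]
  congr 1
  rw [show ψ.ker = C.subgroupOf N from Subgroup.ext fun g => (hker g).trans Subgroup.mem_subgroupOf.symm]
  exact Nat.card_congr (Subgroup.subgroupOfEquivOfLe (Subgroup.le_normalizer)).toEquiv

end Cfsg.Agent.Lib.ReeTwoTori
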