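import Cfsg.Agent.Lib.ReeTwoTori.Main

/-! The solvable subgroups of the Ree groups. -/

set_option autoImplicit false

namespace Cfsg.Agent.Lib.ReeTwoTori

open Cfsg.Lie Cfsg.Agent.Lib Cfsg.Agent.Lib.Chev Cfsg.Agent.Lib.Chev.G2
open Cfsg.Agent.Lib.ReeAut
open scoped Pointwise

theorem exists_normal_pgroup (Γ : Type*) [Group Γ] [Finite Γ] [Group.IsSolvable Γ] [Nontrivial Γ] :
    ∃ (p : ℕ) (N : Subgroup Γ), p.Prime ∧ N.Normal ∧ IsPGroup p N ∧ N ≠ ⊥ := by
  classical
  obtain ⟨k, hk⟩ := Group.IsSolvable.solvable (G := Γ)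
  have hex : ∃ k, derivedSeries Γ k = ⊥ := ⟨k, hk⟩
  have h0 : Nat.find hex ≠ 0 := fun h => by
    have h' := Nat.find_spec hex
    rw [h, derivedSeries_zero] at h'
    exact top_ne_bot h'
  obtain ⟨j, hj⟩ : ∃ j, Nat.find hex = j + 1 := ⟨Nat.find hex - 1, by omega⟩
  set M := derivedSeries Γ j with hM
  haveI hMn : M.Normal := derivedSeries_normal Γ j
  have hne : M ≠ ⊥ := Nat.find_min hex (by omega)
  have hcomm : ⁅M, M⁆ = ⊥ := by
    have h' := Nat.find_spec hex
    rwa [hj, derivedSeries_succ] at h'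
  have hab : ∀ a b : M, a * b = b * a := fun a b => Subtype.ext
    ((Subgroup.mem_centralizer_iff.1 ((Subgroup.commutator_eq_bot_iff_le_centralizer.1 hcomm) b.2)) a a.2)
  obtain ⟨p, hp, hpd⟩ := Nat.exists_prime_and_dvd (n := Nat.card M) fun h => hne (Subgroup.card_eq_one.1 h)
  haveI := Fact.mk hp
  obtain ⟨P⟩ : Nonempty (Sylow p M) := inferInstance
  haveI : (P : Subgroup M).Normal := ⟨fun a ha g => by rwa [hab g a, mul_inv_cancel_right]⟩
  haveI : (P : Subgroup M).Characteristic := Sylow.characteristic_of_normal P inferInstance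
  refine ⟨p, (P : Subgroup M).map M.subtype, hp, inferInstance, P.isPGroup'.map _, fun h => ?_⟩
  exact P.ne_bot_of_dvd_card hpd ((Subgroup.map_eq_bot_iff_of_injective _ M.subtype_injective).1 h)

theorem normalizes_sub {G : Type*} [Group G] [Finite G] {T O : Subgroup G} (hT : IsCyclic T) (hO : O ≤ T)
    {s : G} (hs : s ∈ Subgroup.normalizer (T : Set G)) : s ∈ Subgroup.normalizer (O : Set G) := by
  have heq : O.map (MulAut.conj s).toMonoidHom = O := by
    refine cyclic_sub_eq hT ?_ hO (Subgroup.card_map_of_injective (MulEquiv.injective _))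
    rintro _ ⟨x, hx, rfl⟩
    exact (Subgroup.mem_normalizer_iff.1 hs x).1 (hO hx)
  rw [Subgroup.mem_normalizer_iff]
  intro x
  conv_rhs => rw [← heq]
  exact (Subgroup.mem_map_iff_mem (f := (MulAut.conj s).toMonoidHom) (MulEquiv.injective _)).symm

variable {K : Type*} [Field K] [Fintype K] [CharP K 3] {m : ℕ} (c : Ctx K m)

/-- The conclusion for a subgroup. -/
def InLocal (S : Subgroup (GR K m)) : Prop :=
  ∃ A : Subgroup (GR K m), S ≤ Subgroup.normalizer (A : Set (GR K m)) ∧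
    ((∃ P : Sylow 2 (GR K m), A = P) ∨ (∃ P : Sylow 3 (GR K m), A = P) ∨
      (IsCyclic A ∧ (Nat.card A = (qq m - 1) / 2 ∨ Nat.card A = (qq m + 1) / 4 ∨
        Nat.card A = sa m ∨ Nat.card A = sb m)))

include c

theorem quarter_O {D : Subgroup (GR K m)} (Q : QData c D) {s : GR K m}
    (hs : s ∈ Subgroup.normalizer (D : Set (GR K m))) :
    s ∈ Subgroup.normalizer (Subgroup.zpowers (Q.u * Q.u) : Set (GR K m)) := by
  set n := (qq m + 1) / 4
  have hO : ∀ x, x ∈ Subgroup.zpowers (Q.u * Q.u) ↔ x ∈ D ∧ x ^ n = 1 := fun x =>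
    ⟨fun hx => ⟨Subgroup.zpowers_le.2 (mul_mem Q.huD Q.huD) hx,
      orderOf_dvd_iff_pow_eq_one.1 (by
        have := Subgroup.orderOf_dvd_natCard _ hx
        rwa [Nat.card_zpowers, Q.u_sq_order] at this)⟩,
     fun ⟨h1, h2⟩ => Q.mem_odd h1 h2⟩
  rw [Subgroup.mem_normalizer_iff]
  intro x
  rw [hO, hO, ← Subgroup.mem_normalizer_iff.1 hs, conj_pow, conj_eq_one_iff]

theorem odd_case (S : Subgroup (GR K m)) {p : ℕ} (hp : p.Prime) (h2 : p ≠ 2) (N : Subgroup S) [N.Normal]
    (hN : IsPGroup p N) (hne : N ≠ ⊥) : InLocal S := by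
  haveI := Fact.mk hp
  set R := N.map S.subtype
  have hRn : ∀ s ∈ S, ∀ x ∈ R, s * x * s⁻¹ ∈ R := by
    rintro s hs _ ⟨y, hy, rfl⟩
    exact ⟨⟨s, hs⟩ * y * ⟨s, hs⟩⁻¹, Subgroup.Normal.conj_mem inferInstance y hy _, rfl⟩
  obtain ⟨P, hP⟩ := (hN.map S.subtype).exists_le_sylow
  obtain ⟨t0, ht0⟩ := exists_prime_orderOf_dvd_card' (G := N) p (by
    obtain ⟨k, hk⟩ := IsPGroup.iff_card.1 hN
    rcases k with _ | k
    · exact absurd (Subgroup.card_eq_one.1 (by simpa using hk)) hne
    · rw [hk]; exact dvd_pow_self p (by omega))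
  set t : GR K m := ((t0 : S) : GR K m)
  have htR : t ∈ R := ⟨t0, t0.2, rfl⟩
  have ht : orderOf t = p := by rw [Subgroup.orderOf_coe, Subgroup.orderOf_coe, ht0]
  by_cases h3 : p = 3
  · subst h3
    refine ⟨P, fun s hs => ?_, Or.inr (Or.inl ⟨P, rfl⟩)⟩
    refine Sylow.smul_eq_iff_mem_normalizer.1 ?_
    by_contra hne'
    have h := ti_aux c.θ c.hθ c.hK _ _ hne'
    have hmem : t ∈ ((s • P : Sylow 3 (GR K m)) : Subgroup (GR K m)) := by
      rw [Sylow.coe_subgroup_smul]
      refine ⟨s⁻¹ * t * s, hP ?_, ?_⟩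
      · have := hRn s⁻¹ (inv_mem hs) t htR
        rwa [inv_inv] at this
      · show s * (s⁻¹ * t * s) * s⁻¹ = t
        group
    have : t ∈ (⊥ : Subgroup (GR K m)) := h ▸ ⟨hmem, hP htR⟩
    rw [Subgroup.mem_bot] at this
    rw [this, orderOf_one] at ht
    omega
  haveI := ReeMult.cyclic_sylow c.θ c.hθ c.hK c.hm (r := p) h2 h3 P
  have hRc : IsCyclic R := isCyclic_of_injective (Subgroup.inclusion hP) (Subgroup.inclusion_injective _)
  have hpow : ∀ s ∈ S, s * t * s⁻¹ ∈ Subgroup.zpowers t := fun s hs =>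
    eq_of_prime_order_cyclic hRc hp htR (hRn s hs t htR) ht (by rw [orderOf_conj, ht])
  have hnorm : (∀ z ∈ cz t, z * z ≠ 1 → cz z = cz t) → S ≤ Subgroup.normalizer (cz t : Set (GR K m)) := by
    intro h s hs
    rw [Subgroup.mem_normalizer_iff]
    intro y
    obtain ⟨i, hi⟩ := hpow s hs
    have hi' : t ^ i = s * t * s⁻¹ := hi
    conv_rhs => rw [← h (s * t * s⁻¹) (hi' ▸ Subgroup.zpow_mem _ (mem_cz.2 rfl) i)
      (sq_ne_of_prime hp h2 (by rw [orderOf_conj, ht]))]
    exact conj_mem_cz.symm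
  have hpG : p ∣ Nat.card (GR K m) := ht ▸ orderOf_dvd_natCard t
  have hq := qq_ge c
  have hqm := qq_mod c
  rw [card_G' c] at hpG
  have hcard : ∀ {C D : Subgroup (GR K m)} {g : GR K m}, (∀ y, y ∈ C ↔ g * y * g⁻¹ ∈ D) →
      Nat.card C = Nat.card D := fun {C D g} h => Nat.card_congr ((MulAut.conj g).toEquiv.subtypeEquiv h)
  rcases hp.dvd_mul.1 hpG with h | h
  · rcases hp.dvd_mul.1 h with h | h
    · rcases hp.dvd_mul.1 h with h | h
      · exact absurd ((Nat.prime_dvd_prime_iff_eq hp Nat.prime_three).1 (hp.dvd_of_dvd_pow (hp.dvd_of_dvd_pow h))) h3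
      · obtain ⟨k, hk⟩ := minus_move c (g := t) (ht ▸ h) (sq_ne_of_prime hp h2 ht)
        have hcz : cz (k * t * k⁻¹) = c.T.hom.range :=
          range_cz c hk (sq_ne_of_prime hp h2 (by rw [orderOf_conj, ht]))
        have hT : ∀ y, y ∈ cz t ↔ k * y * k⁻¹ ∈ c.T.hom.range := fun y => by rw [← hcz]; exact conj_mem_cz.symm
        haveI := range_cyclic c
        let f : cz t →* c.T.hom.range :=
          { toFun := fun y => ⟨k * y * k⁻¹, (hT _).1 y.2⟩
            map_one' := Subtype.ext (by simp)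
            map_mul' := fun a b => Subtype.ext (by simp [mul_assoc]) }
        haveI hTc : IsCyclic (cz t) := isCyclic_of_injective f fun a b e => Subtype.ext
          (mul_left_cancel (mul_right_cancel (congrArg Subtype.val e)))
        obtain ⟨g, hg⟩ := hTc.exists_generator
        have hgo : orderOf (g : GR K m) = qq m - 1 := by
          rw [Subgroup.orderOf_coe, orderOf_eq_card_of_forall_mem_zpowers hg, hcard hT, card_range c]
        refine ⟨Subgroup.zpowers ((g : GR K m) ^ 2), fun s hs => normalizes_sub hTc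
          (Subgroup.zpowers_le.2 (pow_mem g.2 2)) (hnorm (fun z hz hzz => ?_) hs), Or.inr (Or.inr ⟨inferInstance,
          Or.inl ?_⟩)⟩
        · refine (le_antisymm ?_ ?_)
          · intro y hy
            rw [hT, ← range_cz c ((hT z).1 hz) (fun e => hzz ((conj_eq_one_iff (a := k) (b := z * z)).1 (by rw [← e]; group)))]
            exact conj_mem_cz.2 hy
          · intro y hy
            rw [mem_cz]
            haveI := hTc
            letI := IsCyclic.commGroup (α := cz t)
            exact congrArg Subtype.val (mul_comm (⟨y, hy⟩ : cz t) ⟨z, hz⟩)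
        · rw [Nat.card_zpowers, orderOf_pow, hgo, Nat.gcd_eq_right (by omega : 2 ∣ qq m - 1)]
    · obtain ⟨Q⟩ := exists_qdata c (z := t) (ht ▸ h) (sq_ne_of_prime hp h2 ht)
      exact ⟨_, fun s hs => quarter_O c Q (hnorm (fun z hz => Q.cz_eq_of_mem hz) hs),
        Or.inr (Or.inr ⟨inferInstance, Or.inr (Or.inl (by rw [Nat.card_zpowers, Q.u_sq_order]))⟩)⟩
  · have hS : IsSinger (cz t) := ⟨t, p, hp, h, ht, rfl⟩
    refine ⟨cz t, hnorm (fun z hz hzz => hS.cz_eq c hz fun e => hzz (by rw [e, one_mul])),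
      Or.inr (Or.inr ⟨hS.cyclic c, ?_⟩)⟩
    obtain ⟨A, B, -, -, hcA, hcB, -, -, hcl⟩ := exists_two c
    obtain ⟨g, hg | hg⟩ := hcl _ hS
    · exact Or.inr (Or.inr (Or.inl (by rw [hcard hg, hcA])))
    · exact Or.inr (Or.inr (Or.inr (by rw [hcard hg, hcB])))

theorem two_case (S : Subgroup (GR K m)) (N : Subgroup S) [N.Normal] (hN : IsPGroup 2 N)
    (h4 : 4 ≤ Nat.card N) : InLocal S := by
  classical
  haveI : Fact (Nat.Prime 2) := ⟨Nat.prime_two⟩
  set R := N.map S.subtype
  have hRn : ∀ s ∈ S, ∀ x ∈ R, s * x * s⁻¹ ∈ R := by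
    rintro s hs _ ⟨y, hy, rfl⟩
    exact ⟨⟨s, hs⟩ * y * ⟨s, hs⟩⁻¹, Subgroup.Normal.conj_mem inferInstance y hy _, rfl⟩
  obtain ⟨P, hP⟩ := (hN.map S.subtype).exists_le_sylow
  obtain ⟨⟨h8, hsq⟩, -⟩ := sylow_two c P
  have hRc : Nat.card R = Nat.card N := Subgroup.card_map_of_injective S.subtype_injective
  obtain ⟨j, hj⟩ := IsPGroup.iff_card.1 hN
  by_cases hfull : Nat.card R = 8
  · have hRP : R = (P : Subgroup (GR K m)) := Subgroup.eq_of_le_of_card_ge hP (by rw [hfull]; exact h8.le)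
    refine ⟨R, fun s hs => Subgroup.mem_normalizer_iff.2 fun x => ⟨hRn s hs x, fun hx => ?_⟩, Or.inl ⟨P, hRP⟩⟩
    have := hRn s⁻¹ (inv_mem hs) _ hx
    rwa [show s⁻¹ * (s * x * s⁻¹) * s⁻¹⁻¹ = x by group] at this
  have hd : Nat.card R ∣ 8 := h8 ▸ Subgroup.card_dvd_of_le hP
  have hR4 : Nat.card R = 4 := by
    have h48 : 4 ≤ Nat.card R := hRc ▸ h4
    have := Nat.le_of_dvd (by norm_num) hd
    interval_cases hcc : Nat.card R <;> omega
  -- two involutions
  haveI := Fintype.ofFinite R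
  obtain ⟨a, ha, b, hb, ha1, hb1, hab⟩ : ∃ a ∈ R, ∃ b ∈ R, a ≠ 1 ∧ b ≠ 1 ∧ b ≠ a := by
    obtain ⟨a, haR, ha1⟩ := (Subgroup.bot_or_exists_ne_one R).resolve_left (fun h => by
      rw [h, Subgroup.card_bot] at hR4; omega)
    by_contra hcon
    push Not at hcon
    have hsub : (Finset.univ : Finset R) ⊆ {1, ⟨a, haR⟩} := fun x _ => by
      rw [Finset.mem_insert, Finset.mem_singleton]
      rcases eq_or_ne x 1 with h | h
      · exact Or.inl h
      · exact Or.inr (Subtype.ext (hcon a haR x.1 x.2 ha1 fun e => h (Subtype.ext e)))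
    have := Finset.card_le_card hsub
    rw [Finset.card_univ, ← Nat.card_eq_fintype_card, hR4] at this
    have := this.trans Finset.card_le_two
    omega
  have hao : orderOf a = 2 := orderOf_eq_prime (by rw [pow_two]; exact hsq a (hP ha)) ha1
  have hbo : orderOf b = 2 := orderOf_eq_prime (by rw [pow_two]; exact hsq b (hP hb)) hb1
  have hcomm : ∀ x ∈ R, ∀ y ∈ R, x * y = y * x := fun x hx y hy => by
    calc x * y = (x * y)⁻¹ := eq_inv_of_mul_eq_one_left (hsq _ (hP (mul_mem hx hy)))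
      _ = y⁻¹ * x⁻¹ := mul_inv_rev x y
      _ = y * x := by
        rw [← eq_inv_of_mul_eq_one_left (hsq x (hP hx)), ← eq_inv_of_mul_eq_one_left (hsq y (hP hy))]
  obtain ⟨D, ⟨Q⟩⟩ := exists_quarter c
  obtain ⟨g, hgv, hgw⟩ := pair_conj c Q.hv Q.orderOf_w (Q.comm _ Q.w_mem _ Q.hvD) Q.v_ne_w.symm hao hbo
    (hcomm b hb a ha) hab
  set D' := D.map (MulAut.conj g).toMonoidHom
  have hmap : ∀ y, y ∈ D' ↔ g⁻¹ * y * g ∈ D := by
    intro y
    constructor
    · rintro ⟨x, hx, rfl⟩
      show g⁻¹ * (g * x * g⁻¹) * g ∈ D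
      rwa [show g⁻¹ * (g * x * g⁻¹) * g = x by group]
    · intro h
      exact ⟨_, h, by show g * (g⁻¹ * y * g) * g⁻¹ = y; group⟩
  have hRD : ∀ x ∈ R, g⁻¹ * x * g ∈ D := by
    have hV : sqOne Q ≤ D := fun x hx => hx.1
    have hsub : (sqOne Q).map (MulAut.conj g).toMonoidHom = R := by
      have hwR : g * Q.w * g⁻¹ ∈ R := by
        rcases hgw with h | h <;> rw [h]
        exacts [hb, mul_mem ha hb]
      refine Subgroup.eq_of_le_of_card_ge ?_ (by
        rw [hR4, Subgroup.card_map_of_injective (MulEquiv.injective _), Q.card_sqOne])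
      rintro _ ⟨x, hx, rfl⟩
      show g * x * g⁻¹ ∈ R
      rcases Q.four hx.1 hx.2 with rfl | rfl | rfl | rfl
      · simp
      · rw [hgv]; exact ha
      · exact hwR
      · rw [show g * (Q.v * Q.w) * g⁻¹ = g * Q.v * g⁻¹ * (g * Q.w * g⁻¹) by group, hgv]
        exact mul_mem ha hwR
    intro x hx
    rw [← hsub] at hx
    obtain ⟨y, hy, rfl⟩ := hx
    show g⁻¹ * (g * y * g⁻¹) * g ∈ D
    rw [show g⁻¹ * (g * y * g⁻¹) * g = y by group]
    exact hV hy
  have hwR : g * Q.w * g⁻¹ ∈ R := by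
    rcases hgw with h | h <;> rw [h]
    exacts [hb, mul_mem ha hb]
  refine ⟨(Subgroup.zpowers (Q.u * Q.u)).map (MulAut.conj g).toMonoidHom, fun s hs => ?_,
    Or.inr (Or.inr ⟨?_, Or.inr (Or.inl ?_)⟩)⟩
  · have hN' : g⁻¹ * s * g ∈ Subgroup.normalizer (D : Set (GR K m)) := by
      refine Subgroup.mem_normalizer_iff.2 (Q.map_of_pair Q ?_ ?_)
      · have := hRD _ (hRn s hs a ha)
        rw [← hgv] at this
        convert this using 1; group
      · have := hRD _ (hRn s hs _ hwR)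
        convert this using 1; group
    have hO := quarter_O c Q hN'
    rw [Subgroup.mem_normalizer_iff] at hO ⊢
    have hm' : ∀ y, y ∈ (Subgroup.zpowers (Q.u * Q.u)).map (MulAut.conj g).toMonoidHom ↔
        g⁻¹ * y * g ∈ Subgroup.zpowers (Q.u * Q.u) := by
      intro y
      constructor
      · rintro ⟨x, hx, rfl⟩
        show g⁻¹ * (g * x * g⁻¹) * g ∈ _
        rwa [show g⁻¹ * (g * x * g⁻¹) * g = x by group]
      · intro h
        exact ⟨_, h, by show g * (g⁻¹ * y * g) * g⁻¹ = y; group⟩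
    intro y
    rw [hm', hm', hO]
    apply Iff.of_eq; congr 1; group
  · exact isCyclic_of_surjective _ (MulEquiv.surjective
      ((MulAut.conj g).subgroupMap (Subgroup.zpowers (Q.u * Q.u))))
  · rw [Subgroup.card_map_of_injective (MulEquiv.injective _), Nat.card_zpowers, Q.u_sq_order]

theorem solvable_local (S : Subgroup (GR K m)) [Group.IsSolvable S] : InLocal S := by
  classical
  haveI : Fact (Nat.Prime 2) := ⟨Nat.prime_two⟩
  have htwo : IsPGroup 2 S → InLocal S := fun h => by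
    obtain ⟨P, hP⟩ := h.exists_le_sylow
    exact ⟨P, hP.trans Subgroup.le_normalizer, Or.inl ⟨P, rfl⟩⟩
  rcases subsingleton_or_nontrivial S with h | h
  · exact htwo (IsPGroup.of_card (n := 0) (by rw [Nat.card_of_subsingleton (1 : S), pow_zero]))
  obtain ⟨p, N, hp, hn, hN, hne⟩ := exists_normal_pgroup S
  by_cases h2 : p = 2
  swap
  · exact odd_case c S hp h2 N hN hne
  subst h2
  by_cases h4 : 4 ≤ Nat.card N
  · exact two_case c S N hN h4
  have hN2 : Nat.card N = 2 := by
    obtain ⟨j, hj⟩ := IsPGroup.iff_card.1 hN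
    rcases j with _ | _ | j
    · exact absurd (Subgroup.card_eq_one.1 (by simpa using hj)) hne
    · simpa using hj
    · exfalso
      have := Nat.pow_le_pow_right (n := 2) (by norm_num) (show 2 ≤ j + 1 + 1 by omega)
      omega
  rcases subsingleton_or_nontrivial (S ⧸ N) with hq | hq
  · refine htwo (IsPGroup.of_card (n := 1) ?_)
    rw [Subgroup.card_eq_card_quotient_mul_card_subgroup N, Nat.card_of_subsingleton (1 : S ⧸ N), hN2]
    norm_num
  obtain ⟨r, M, hr, hMn, hM, hMne⟩ := exists_normal_pgroup (S ⧸ N)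
  haveI := Fact.mk hr
  set B := M.comap (QuotientGroup.mk' N) with hBdef
  obtain ⟨j, hj⟩ := IsPGroup.iff_card.1 hM
  have hj0 : j ≠ 0 := fun h => hMne (Subgroup.card_eq_one.1 (by rw [hj, h, pow_zero]))
  have hBc : Nat.card B = 2 * r ^ j := by
    have hker : N ≤ B := fun x hx => by
      show QuotientGroup.mk' N x ∈ M
      rw [show QuotientGroup.mk' N x = 1 from (QuotientGroup.eq_one_iff x).2 hx]
      exact one_mem _
    have hidx : B.index = M.index := M.index_comap_of_surjective (QuotientGroup.mk'_surjective N)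
    have e1 := Subgroup.card_mul_index B
    have e2 := Subgroup.card_mul_index M
    have e3 := Subgroup.card_eq_card_quotient_mul_card_subgroup N
    rw [hidx] at e1
    rw [hN2] at e3
    refine Nat.eq_of_mul_eq_mul_right (Nat.pos_of_ne_zero (Subgroup.index_ne_zero_of_finite (H := M))) ?_
    rw [e1, e3, ← e2, hj]; ring
  by_cases hr2 : r = 2
  · subst hr2
    refine two_case c S B (IsPGroup.of_card (n := j + 1) (by rw [hBc, pow_succ']))
      (by
        rw [hBc]
        have := Nat.pow_le_pow_right (n := 2) (by norm_num) (show 1 ≤ j by omega)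
        omega)
  · obtain ⟨P⟩ : Nonempty (Sylow r B) := inferInstance
    have hPc : Nat.card P = r ^ j := by
      rw [P.card_eq_multiplicity, hBc, Nat.factorization_mul two_ne_zero (pow_ne_zero _ hr.ne_zero),
        Finsupp.add_apply, Nat.factorization_eq_zero_of_not_dvd (n := 2)
          (fun h => hr2 ((Nat.prime_dvd_prime_iff_eq hr Nat.prime_two).1 h)), hr.factorization_pow,
        Finsupp.single_eq_same, zero_add]
    haveI : (P : Subgroup B).Normal := Subgroup.normal_of_index_eq_two (by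
      have h := Subgroup.card_mul_index (P : Subgroup B)
      rw [hBc, hPc, mul_comm 2] at h
      exact Nat.eq_of_mul_eq_mul_left (pow_pos hr.pos j) h)
    haveI : (P : Subgroup B).Characteristic := Sylow.characteristic_of_normal P inferInstance
    refine odd_case c S hr hr2 ((P : Subgroup B).map B.subtype) (P.isPGroup'.map _) fun h => ?_
    have h' := (Subgroup.map_eq_bot_iff_of_injective _ B.subtype_injective).1 h
    rw [h', Subgroup.card_bot] at hPc
    exact absurd hPc.symm (Nat.one_lt_pow hj0 hr.one_lt).ne'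

end Cfsg.Agent.Lib.ReeTwoTori
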