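import Cfsg.Agent.Lib.ReeTwoTori.Singer

/-! The two classes of tori of order `q ± 3^(m+1) + 1` of the Ree groups. -/

set_option autoImplicit false

namespace Cfsg.Agent.Lib.ReeTwoTori

open Cfsg.Lie Cfsg.Agent.Lib Cfsg.Agent.Lib.Chev Cfsg.Agent.Lib.Chev.G2
open Cfsg.Agent.Lib.ReeAut

/-- The order of the smaller torus. -/
abbrev sa (m : ℕ) : ℕ := qq m - 3 ^ (m + 1) + 1

/-- The order of the larger torus. -/
abbrev sb (m : ℕ) : ℕ := qq m + 3 ^ (m + 1) + 1

variable {K : Type*} [Field K] [Fintype K] [CharP K 3] {m : ℕ} (c : Ctx K m)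

include c

theorem sab_facts : 3 ^ (m + 1) ≤ qq m ∧ sa m * sb m = phi6 m ∧ sa m + sb m = 2 * (qq m + 1) ∧
    7 ≤ sa m ∧ 7 ≤ sb m := by
  have hle : 3 * 3 ^ (m + 1) ≤ qq m := by
    rw [← pow_succ']
    exact Nat.pow_le_pow_right (by norm_num) (by have := c.hm; omega)
  have hsq : 3 ^ (m + 1) * 3 ^ (m + 1) = 3 * qq m := by
    rw [← pow_add, ← pow_succ']; congr 1; omega
  have hq := qq_ge c
  obtain ⟨d, hd⟩ := Nat.exists_eq_add_of_le (show 3 ^ (m + 1) ≤ qq m by omega)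
  refine ⟨by omega, ?_, by simp only [sa, sb]; omega, by simp only [sa]; omega, by simp only [sb]; omega⟩
  obtain ⟨e, he⟩ : ∃ e, qq m = e + 1 := ⟨qq m - 1, by omega⟩
  simp only [sa, sb, phi6]
  rw [show qq m - 3 ^ (m + 1) = d by omega, show qq m - 1 = e by omega]
  nlinarith

omit c in
/-- The elements covered by a torus. -/
def Cov (C : Subgroup (GR K m)) (g : GR K m) : Prop := g ≠ 1 ∧ ∃ k, k * g * k⁻¹ ∈ C

theorem cov_count {C : Subgroup (GR K m)} (hC : IsSinger C) :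
    ∃ n, n ∣ 6 ∧ Nat.card (Subgroup.normalizer (C : Set (GR K m))) = n * Nat.card C ∧
      Nat.card {g // Cov C g} * (n * Nat.card C) = (Nat.card C - 1) * Nat.card (GR K m) := by
  classical
  obtain ⟨n, hn, hN⟩ := hC.card_norm c
  refine ⟨n, hn, hN, ?_⟩
  have h := count_ti c (T := C) (fun z hz hzz => hC.cz_eq c hz (fun e => hzz (by rw [e, one_mul])))
    (Cov C)
    (fun g x hx => ⟨fun e => hx.1 (conj_eq_one_iff.1 e), by
      obtain ⟨k, hk⟩ := hx.2
      exact ⟨k * g⁻¹, by rwa [show k * g⁻¹ * (g * x * g⁻¹) * (k * g⁻¹)⁻¹ = k * x * k⁻¹ by group]⟩⟩)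
    (fun x hx h => by
      obtain ⟨h1, k, hk⟩ := hx
      refine hC.sq_ne c hk (fun e => h1 (conj_eq_one_iff.1 e)) ?_
      calc k * x * k⁻¹ * (k * x * k⁻¹) = k * (x * x) * k⁻¹ := by group
        _ = 1 := by rw [h]; group)
    (fun x hx => hx.2)
  rw [hN] at h
  rw [h]
  congr 1
  rw [Nat.card_congr (Equiv.subtypeEquivRight (q := fun z : C => z ≠ 1) fun z =>
    ⟨fun hz e => hz.1 (by rw [e]; rfl), fun hz => ⟨fun e => hz (Subtype.ext e), 1, by simp⟩⟩)]
  haveI := Fintype.ofFinite C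
  rw [Nat.card_eq_fintype_card, Fintype.card_subtype_compl, Fintype.card_subtype_eq, Nat.card_eq_fintype_card]

theorem cov_dvd {C : Subgroup (GR K m)} (hC : IsSinger C) {g : GR K m} (hg : Cov C g) :
    orderOf g ∣ Nat.card C ∧ orderOf g ∣ phi6 m := by
  obtain ⟨h1, k, hk⟩ := hg
  have h := Subgroup.orderOf_dvd_natCard _ hk
  rw [orderOf_conj] at h
  exact ⟨h, h.trans (hC.card_dvd c)⟩

/-- Every element lies in exactly one class of element types. -/
theorem census : Nat.card (GR K m) = 1 + Nat.card {g : GR K m // orderOf g = 2} +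
    Nat.card {g : GR K m // orderOf g = 3} + Nat.card {g : GR K m // orderOf g = 6} +
    Nat.card {g : GR K m // orderOf g = 9} +
    Nat.card {g : GR K m // orderOf g ∣ qq m - 1 ∧ g * g ≠ 1} +
    Nat.card {g : GR K m // orderOf g ∣ qq m + 1 ∧ g * g ≠ 1} +
    Nat.card {g : GR K m // orderOf g ∣ phi6 m ∧ g ≠ 1} := by
  classical
  haveI := Fintype.ofFinite (GR K m)
  suffices key : ∀ g : GR K m, (1 : ℕ) = (if g = 1 then 1 else 0) + (if orderOf g = 2 then 1 else 0) +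
      (if orderOf g = 3 then 1 else 0) + (if orderOf g = 6 then 1 else 0) + (if orderOf g = 9 then 1 else 0) +
      (if orderOf g ∣ qq m - 1 ∧ g * g ≠ 1 then 1 else 0) + (if orderOf g ∣ qq m + 1 ∧ g * g ≠ 1 then 1 else 0) +
      (if orderOf g ∣ phi6 m ∧ g ≠ 1 then 1 else 0) by
    have hc : ∀ p : GR K m → Prop, Nat.card {g // p g} = ∑ g, if p g then 1 else 0 := fun p => by
      rw [Nat.card_eq_fintype_card, Fintype.card_subtype, Finset.card_filter]
    calc Nat.card (GR K m) = ∑ _g : GR K m, 1 := by rw [Nat.card_eq_fintype_card, Fintype.card_eq_sum_ones]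
      _ = _ := Finset.sum_congr rfl fun g _ => key g
      _ = _ := by
        simp only [Finset.sum_add_distrib, hc, Finset.sum_ite_eq', Finset.mem_univ, if_true]
        congr!
  intro g
  by_cases hg1 : g = 1
  · subst hg1
    simp
  have hq := qq_ge c
  have hqm := qq_mod c
  have h3q : 3 ∣ qq m := dvd_pow_self 3 (by omega)
  have hsq : g * g = 1 ↔ orderOf g = 2 := by
    constructor
    · intro h; exact orderOf_eq_prime (by rw [pow_two]; exact h) hg1
    · intro h; rw [← pow_two]; exact orderOf_dvd_iff_pow_eq_one.1 (by rw [h])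
  have hone : ∀ d, orderOf g ∣ d → d = 1 → False := fun d hd h => hg1 (orderOf_eq_one_iff.1
    (Nat.dvd_one.1 (h ▸ hd)))
  have n3m : ¬ 3 ∣ qq m - 1 := by omega
  have n3p : ¬ 3 ∣ qq m + 1 := by omega
  have n3f : ¬ 3 ∣ phi6 m := fun h => by
    have := (Nat.dvd_add_right (h3q.mul_right _)).1 h
    norm_num at this
  have n2f : ¬ 2 ∣ phi6 m := fun h => by
    have := (phi6_arith c Nat.prime_two h).1
    omega
  have dmp : orderOf g ∣ qq m - 1 → orderOf g ∣ qq m + 1 → g * g = 1 := fun h1 h2 => by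
    have h := Nat.dvd_sub h2 h1
    rw [show qq m + 1 - (qq m - 1) = 2 by omega] at h
    rw [← pow_two]; exact orderOf_dvd_iff_pow_eq_one.1 h
  have dmf : orderOf g ∣ qq m - 1 → ¬ orderOf g ∣ phi6 m := fun h1 h2 =>
    hone 1 ((Nat.dvd_add_right (h1.mul_left _)).1 h2) rfl
  have dpf : orderOf g ∣ qq m + 1 → ¬ orderOf g ∣ phi6 m := fun h1 h2 => by
    obtain ⟨s, hs, hsd⟩ := Nat.exists_prime_and_dvd (n := orderOf g) (fun h => hg1 (orderOf_eq_one_iff.1 h))
    exact (phi6_arith c hs (hsd.trans h2)).2.2.2.1 (hsd.trans h1)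
  by_cases h3 : 3 ∣ orderOf g
  · have e2 : ¬ orderOf g = 2 := fun h => by rw [h] at h3; omega
    have em : ¬ orderOf g ∣ qq m - 1 := fun h => n3m (h3.trans h)
    have ep : ¬ orderOf g ∣ qq m + 1 := fun h => n3p (h3.trans h)
    have ef : ¬ orderOf g ∣ phi6 m := fun h => n3f (h3.trans h)
    rcases orders_three c h3 with h | h | h <;> simp only [h] at em ep ef <;>
      simp [hg1, em, ep, ef, h]
  have e3 : orderOf g ≠ 3 ∧ orderOf g ≠ 6 ∧ orderOf g ≠ 9 := by
    refine ⟨?_, ?_, ?_⟩ <;> (intro h; rw [h] at h3; omega)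
  by_cases h2 : g * g = 1
  · have ho := hsq.1 h2
    have ef : ¬ orderOf g ∣ phi6 m := by rw [ho]; exact n2f
    simp [hg1, h2, ho, n2f]
  have e2 : ¬ orderOf g = 2 := fun h => h2 (hsq.2 h)
  obtain ⟨r, hr, hr2, hrd⟩ : ∃ r, r.Prime ∧ r ≠ 2 ∧ r ∣ orderOf g := by
    by_contra hcon
    push Not at hcon
    obtain ⟨e, he⟩ : ∃ e, orderOf g = 2 ^ e := ⟨_, Nat.eq_prime_pow_of_unique_prime_dvd (orderOf_pos g).ne'
      fun {d} hd hdd => by_contra fun h => hcon d hd h hdd⟩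
    exact h2 (sq_of_two_group c he)
  have hrG : r ∣ Nat.card (GR K m) := hrd.trans (orderOf_dvd_natCard g)
  set t := g ^ (orderOf g / r)
  have ht : orderOf t = r := orderOf_pow_orderOf_div (orderOf_pos g).ne' hrd
  have hgt : g ∈ cz t := mem_cz.2 ((Commute.refl g).pow_right _).eq
  rw [card_G' c] at hrG
  have hcase : orderOf g ∣ qq m - 1 ∨ orderOf g ∣ qq m + 1 ∨ orderOf g ∣ phi6 m := by
    rcases hr.dvd_mul.1 hrG with h | h
    · rcases hr.dvd_mul.1 h with h | h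
      · rcases hr.dvd_mul.1 h with h | h
        · have := (Nat.prime_dvd_prime_iff_eq hr Nat.prime_three).1 (hr.dvd_of_dvd_pow (hr.dvd_of_dvd_pow h))
          exact absurd (this ▸ hrd) h3
        · left
          obtain ⟨k, hk⟩ := minus_move c (g := t) (ht ▸ h) (sq_ne_of_prime hr hr2 ht)
          have : k * g * k⁻¹ ∈ c.T.hom.range := by
            rw [← range_cz c hk (sq_ne_of_prime hr hr2 (by rw [orderOf_conj, ht]))]
            exact conj_mem_cz.2 hgt
          have := Subgroup.orderOf_dvd_natCard _ this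
          rwa [orderOf_conj, card_range c] at this
      · right; left
        obtain ⟨Q⟩ := exists_qdata c (z := t) (ht ▸ h) (sq_ne_of_prime hr hr2 ht)
        exact Q.hcard ▸ Subgroup.orderOf_dvd_natCard _ hgt
    · right; right
      exact (Subgroup.orderOf_dvd_natCard _ hgt).trans (cz_primes c hr h ht)
  rcases hcase with h | h | h
  · have ep : ¬ orderOf g ∣ qq m + 1 := fun h' => h2 (dmp h h')
    simp [hg1, h2, e2, e3.1, e3.2.1, e3.2.2, h, ep, dmf h]
  · have em : ¬ orderOf g ∣ qq m - 1 := fun h' => h2 (dmp h' h)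
    simp [hg1, h2, e2, e3.1, e3.2.1, e3.2.2, h, em, dpf h]
  · have em : ¬ orderOf g ∣ qq m - 1 := fun h' => dmf h' h
    have ep : ¬ orderOf g ∣ qq m + 1 := fun h' => dpf h' h
    simp [hg1, h2, e2, e3.1, e3.2.1, e3.2.2, h, em, ep]

theorem count_phi6 : 3 * phi6 m * Nat.card {g : GR K m // orderOf g ∣ phi6 m ∧ g ≠ 1} +
    Nat.card (GR K m) * (qq m + 1) = Nat.card (GR K m) * phi6 m := by
  have hq := qq_ge c
  have hcen := census c
  rw [count_two c, count_three c, count_six c, count_nine c] at hcen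
  have hB := count_split c
  have hD := count_quarter c
  have hG := card_G c
  have hG' := card_G' c
  generalize Nat.card {g : GR K m // orderOf g ∣ qq m - 1 ∧ g * g ≠ 1} = B at hcen hB
  generalize Nat.card {g : GR K m // orderOf g ∣ qq m + 1 ∧ g * g ≠ 1} = D at hcen hD
  generalize Nat.card {g : GR K m // orderOf g ∣ phi6 m ∧ g ≠ 1} = X at hcen ⊢
  generalize Nat.card (GR K m) = G at hcen hB hD hG hG' ⊢
  simp only [phi6] at hG' ⊢
  generalize qq m = q at *
  have h1 : 1 ≤ q ^ 2 := Nat.one_le_pow _ _ (by omega)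
  have h2 : q ≤ q ^ 2 := Nat.le_self_pow (by norm_num) q
  zify [h1, h2, show 1 ≤ q by omega, show 3 ≤ q by omega] at hcen hB hD hG hG' ⊢
  have hne : (6 * ((q : ℤ) - 1) * ((q : ℤ) + 1)) ≠ 0 := by
    have : (27 : ℤ) ≤ (q : ℤ) := by exact_mod_cast hq
    exact mul_ne_zero (mul_ne_zero (by norm_num) (by omega)) (by omega)
  apply mul_left_cancel₀ hne
  rw [hG] at hcen hB hD ⊢
  linear_combination (-(3 : ℤ) * ((q : ℤ) * ((q : ℤ) - 1) + 1) * 6 * ((q : ℤ) - 1) * ((q : ℤ) + 1)) * hcen -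
    (3 : ℤ) * ((q : ℤ) * ((q : ℤ) - 1) + 1) * 3 * ((q : ℤ) + 1) * hB -
    (3 : ℤ) * ((q : ℤ) * ((q : ℤ) - 1) + 1) * ((q : ℤ) - 1) * hD

theorem disjoint_cov {C C' : Subgroup (GR K m)} (hC : IsSinger C) (hC' : IsSinger C')
    (hco : Nat.Coprime (Nat.card C) (Nat.card C')) (g : GR K m) : ¬ (Cov C g ∧ Cov C' g) := by
  rintro ⟨h, h'⟩
  exact h.1 (orderOf_eq_one_iff.1 (Nat.dvd_one.1 (hco ▸ Nat.dvd_gcd (cov_dvd c hC h).1 (cov_dvd c hC' h').1)))

/-- The two tori. -/
theorem exists_two : ∃ A B : Subgroup (GR K m), IsSinger A ∧ IsSinger B ∧ Nat.card A = sa m ∧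
    Nat.card B = sb m ∧ Nat.card (Subgroup.normalizer (A : Set (GR K m))) = 6 * sa m ∧
    Nat.card (Subgroup.normalizer (B : Set (GR K m))) = 6 * sb m ∧
    ∀ C : Subgroup (GR K m), IsSinger C → ∃ g, (∀ y, y ∈ C ↔ g * y * g⁻¹ ∈ A) ∨ ∀ y, y ∈ C ↔ g * y * g⁻¹ ∈ B := by
  classical
  haveI := Fintype.ofFinite (GR K m)
  obtain ⟨hle, hab, hsum, ha7, hb7⟩ := sab_facts c
  have hq := qq_ge c
  have hP : 1 < phi6 m := by rw [← hab]; nlinarith
  have hGpos : 0 < Nat.card (GR K m) := Nat.card_pos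
  have hX := count_phi6 c
  set G := Nat.card (GR K m)
  set X := Nat.card {g : GR K m // orderOf g ∣ phi6 m ∧ g ≠ 1} with hXdef
  have hexC : ∀ s, s.Prime → s ∣ phi6 m → ∃ C : Subgroup (GR K m), IsSinger C ∧ s ∣ Nat.card C := by
    intro s hs hd
    haveI := Fact.mk hs
    obtain ⟨y, hy⟩ := exists_prime_orderOf_dvd_card' (G := GR K m) s (by
      rw [card_G' c]; exact hd.mul_left _)
    exact ⟨cz y, ⟨y, s, hs, hd, hy, rfl⟩, hy ▸ Subgroup.orderOf_dvd_natCard _ (mem_cz.2 rfl)⟩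
  have hpos : ∀ C : Subgroup (GR K m), IsSinger C → 7 ≤ Nat.card C := by
    intro C hC
    obtain ⟨y, r, hr, hd, hy, e⟩ := hC
    have hrC : r ∣ Nat.card C := hy ▸ Subgroup.orderOf_dvd_natCard _ (e ▸ mem_cz.2 rfl)
    obtain ⟨h5, -, -, -, hord⟩ := phi6_arith c hr hd
    haveI := Fact.mk hr
    have h6 := ZMod.orderOf_dvd_card_sub_one (a := ((qq m : ℕ) : ZMod r)) (fun h => by
      rw [h, orderOf_zero] at hord; omega)
    rw [hord] at h6
    have := Nat.le_of_dvd (by omega) h6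
    exact (show 7 ≤ r by omega).trans (Nat.le_of_dvd Nat.card_pos hrC)
  have hlow : ∀ C : Subgroup (GR K m), IsSinger C → ∀ n, n ∣ 6 →
      Nat.card {g // Cov C g} * (n * Nat.card C) = (Nat.card C - 1) * G →
      6 * G ≤ 7 * n * Nat.card {g // Cov C g} := by
    intro C hC n hn h
    have h7 := hpos C hC
    refine Nat.le_of_mul_le_mul_right ?_ (show 0 < Nat.card C by omega)
    calc 6 * G * Nat.card C = (6 * Nat.card C) * G := by ring
      _ ≤ (7 * (Nat.card C - 1)) * G := Nat.mul_le_mul_right _ (by omega)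
      _ = 7 * n * Nat.card {g // Cov C g} * Nat.card C := by rw [mul_assoc 7, ← h]; ring
  have hsub : ∀ C : Subgroup (GR K m), IsSinger C → ∀ g, Cov C g → orderOf g ∣ phi6 m ∧ g ≠ 1 :=
    fun C hC g hg => ⟨(cov_dvd c hC hg).2, hg.1⟩
  have hcard : ∀ p : GR K m → Prop, Nat.card {g // p g} = (Finset.univ.filter p).card := fun p => by
    rw [Nat.card_eq_fintype_card, Fintype.card_subtype]
  set S := Finset.univ.filter (fun g : GR K m => orderOf g ∣ phi6 m ∧ g ≠ 1)
  have hSX : X = S.card := (hcard _).trans (by simp only [S]; congr!)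
  let V : Subgroup (GR K m) → Finset (GR K m) := fun C => Finset.univ.filter (Cov C)
  have hVS : ∀ C, IsSinger C → V C ⊆ S := fun C hC g hg => by
    rw [Finset.mem_filter] at hg ⊢
    exact ⟨hg.1, hsub C hC g hg.2⟩
  have hdisj : ∀ C C' : Subgroup (GR K m), IsSinger C → IsSinger C' → Nat.Coprime (Nat.card C) (Nat.card C') →
      Disjoint (V C) (V C') := fun C C' hC hC' hco => Finset.disjoint_left.2 fun g h h' => by
    rw [Finset.mem_filter] at h h'
    exact disjoint_cov c hC hC' hco g ⟨h.2, h'.2⟩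
  have hX3 : 3 * X < G := by
    have h1 : 3 * X * phi6 m < G * phi6 m := by
      have h0 : 0 < G * (qq m + 1) := Nat.mul_pos hGpos (by omega)
      calc 3 * X * phi6 m = 3 * phi6 m * X := by ring
        _ < _ := by omega
    exact Nat.lt_of_mul_lt_mul_right h1
  -- first torus
  obtain ⟨r₁, hr₁, hrd₁⟩ := Nat.exists_prime_and_dvd (n := phi6 m) (by omega)
  obtain ⟨C₁, hC₁, -⟩ := hexC r₁ hr₁ hrd₁
  obtain ⟨n₁, hn₁, hN₁, hX₁⟩ := cov_count c hC₁
  have h71 := hpos C₁ hC₁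
  have hc₁ := hC₁.card_dvd c
  have hn6 : ∀ n, n ∣ 6 → n = 6 ∨ n ≤ 3 := fun n hn => by
    have := Nat.le_of_dvd (by norm_num) hn
    interval_cases n <;> omega
  by_cases hfull : Nat.card C₁ = phi6 m
  · exfalso
    have hall : Nat.card {g // Cov C₁ g} = X := by
      rw [hXdef]
      refine Nat.card_congr (Equiv.subtypeEquivRight fun g => ⟨hsub C₁ hC₁ g, fun hg => ⟨hg.2, ?_⟩⟩)
      have hC := exists_singer c hg.1 hg.2
      obtain ⟨s, hs, hsd⟩ := Nat.exists_prime_and_dvd (n := Nat.card (cz g)) (fun h => by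
        have := hpos _ hC; omega)
      obtain ⟨k, hk⟩ := hC.conj_of_prime c hC₁ hs hsd (hfull ▸ hsd.trans (hC.card_dvd c))
      exact ⟨k, (hk g).1 (mem_cz.2 rfl)⟩
    rw [hall, hfull] at hX₁
    obtain ⟨p, hp⟩ : ∃ p, phi6 m = p + 1 := ⟨phi6 m - 1, by omega⟩
    rw [hp, Nat.add_sub_cancel] at hX₁
    rw [hp] at hX hP
    -- `3 p = n (p - q)`
    have he : 3 * p * G + n₁ * G * (qq m + 1) = n₁ * G * (p + 1) := by
      have := congrArg (n₁ * ·) hX
      nlinarith
    have he' : 3 * p + n₁ * (qq m + 1) = n₁ * (p + 1) := by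
      refine Nat.eq_of_mul_eq_mul_right hGpos ?_
      linarith
    have hpq : p = qq m * (qq m - 1) := by simp only [phi6] at hp; omega
    have hbig : 3 * qq m ≤ p := by rw [hpq, mul_comm 3]; exact Nat.mul_le_mul_left _ (by omega)
    rcases hn6 n₁ hn₁ with rfl | hn3
    · omega
    · interval_cases n₁ <;> omega
  -- second torus
  obtain ⟨e, he⟩ := hc₁
  have hco1 : Nat.Coprime (Nat.card C₁) e := Nat.coprime_of_dvd fun s hs h1 h2 => by
    have hf := hC₁.fact_eq c hs h1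
    have he0 : e ≠ 0 := fun h => by rw [h, mul_zero] at he; omega
    rw [he, Nat.factorization_mul Nat.card_pos.ne' he0, Finsupp.add_apply] at hf
    have := hs.factorization_pos_of_dvd he0 h2
    omega
  obtain ⟨r₂, hr₂, hrd₂⟩ := Nat.exists_prime_and_dvd (n := e) (fun h => hfull (by rw [he, h, mul_one]))
  obtain ⟨C₂, hC₂, hr₂C⟩ := hexC r₂ hr₂ (he ▸ hrd₂.mul_left _)
  have hcop : ∀ C C' : Subgroup (GR K m), IsSinger C → IsSinger C' → ∀ s, s.Prime → ¬ s ∣ Nat.card C → s ∣ Nat.card C' →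
      Nat.Coprime (Nat.card C) (Nat.card C') := by
    intro C C' hC hC' s hs h h'
    refine Nat.coprime_of_dvd fun t ht h1 h2 => h ?_
    obtain ⟨g, hg⟩ := hC'.conj_of_prime c hC ht h2 h1
    have e : Nat.card C' = Nat.card C := Nat.card_congr
      ((MulAut.conj g).toEquiv.subtypeEquiv hg)
    exact e ▸ h'
  have hco : Nat.Coprime (Nat.card C₁) (Nat.card C₂) := hcop C₁ C₂ hC₁ hC₂ r₂ hr₂
    (fun h => hr₂.not_dvd_one (hco1 ▸ Nat.dvd_gcd h hrd₂)) hr₂C
  obtain ⟨n₂, hn₂, hN₂, hX₂⟩ := cov_count c hC₂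
  have hsum2 : Nat.card {g // Cov C₁ g} + Nat.card {g // Cov C₂ g} ≤ X := by
    rw [hSX, hcard, hcard, ← Finset.card_union_of_disjoint (hdisj _ _ hC₁ hC₂ hco)]
    exact Finset.card_le_card (Finset.union_subset (hVS _ hC₁) (hVS _ hC₂))
  have hl₁ := hlow C₁ hC₁ n₁ hn₁ hX₁
  have hl₂ := hlow C₂ hC₂ n₂ hn₂ hX₂
  have hmul : ∀ n x : ℕ, n ∣ 6 → 7 * n * x ≤ 42 * x := fun n x hn =>
    Nat.mul_le_mul_right _ (by have := Nat.le_of_dvd (by norm_num) hn; omega)
  have hm₁ := hmul n₁ (Nat.card {g // Cov C₁ g}) hn₁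
  have hm₂ := hmul n₂ (Nat.card {g // Cov C₂ g}) hn₂
  obtain rfl : n₁ = 6 := by
    rcases hn6 n₁ hn₁ with h | h
    · exact h
    · exfalso
      have := Nat.mul_le_mul_right (Nat.card {g // Cov C₁ g}) (show 7 * n₁ ≤ 21 by omega)
      omega
  obtain rfl : n₂ = 6 := by
    rcases hn6 n₂ hn₂ with h | h
    · exact h
    · exfalso
      have := Nat.mul_le_mul_right (Nat.card {g // Cov C₂ g}) (show 7 * n₂ ≤ 21 by omega)
      omega
  have h72 := hpos C₂ hC₂
  -- no third torus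
  have hcov : ∀ s, s.Prime → s ∣ phi6 m → s ∣ Nat.card C₁ ∨ s ∣ Nat.card C₂ := by
    intro s hs hd
    by_contra hcon
    push Not at hcon
    obtain ⟨C₃, hC₃, hsC⟩ := hexC s hs hd
    obtain ⟨n₃, hn₃, -, hX₃⟩ := cov_count c hC₃
    have hl₃ := hlow C₃ hC₃ n₃ hn₃ hX₃
    have hm₃ := hmul n₃ (Nat.card {g // Cov C₃ g}) hn₃
    have h3 : Nat.card {g // Cov C₁ g} + Nat.card {g // Cov C₂ g} + Nat.card {g // Cov C₃ g} ≤ X := by
      rw [hSX, hcard, hcard, hcard, ← Finset.card_union_of_disjoint (hdisj _ _ hC₁ hC₂ hco),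
        ← Finset.card_union_of_disjoint (Finset.disjoint_union_left.2
          ⟨hdisj _ _ hC₁ hC₃ (hcop _ _ hC₁ hC₃ s hs hcon.1 hsC),
           hdisj _ _ hC₂ hC₃ (hcop _ _ hC₂ hC₃ s hs hcon.2 hsC)⟩)]
      exact Finset.card_le_card (Finset.union_subset (Finset.union_subset (hVS _ hC₁) (hVS _ hC₂)) (hVS _ hC₃))
    omega
  have hclass : ∀ C : Subgroup (GR K m), IsSinger C →
      ∃ g, (∀ y, y ∈ C ↔ g * y * g⁻¹ ∈ C₁) ∨ ∀ y, y ∈ C ↔ g * y * g⁻¹ ∈ C₂ := by
    intro C hC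
    obtain ⟨s, hs, hsd⟩ := Nat.exists_prime_and_dvd (n := Nat.card C) (fun h => by have := hpos C hC; omega)
    rcases hcov s hs (hsd.trans (hC.card_dvd c)) with h | h
    · exact (hC.conj_of_prime c hC₁ hs hsd h).imp fun g hg => Or.inl hg
    · exact (hC.conj_of_prime c hC₂ hs hsd h).imp fun g hg => Or.inr hg
  have hprod : Nat.card C₁ * Nat.card C₂ = phi6 m := by
    have hd : Nat.card C₁ * Nat.card C₂ ∣ phi6 m :=
      hco.mul_dvd_of_dvd_of_dvd ⟨e, he⟩ (hC₂.card_dvd c)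
    refine Nat.dvd_antisymm hd ?_
    have hne : Nat.card C₁ * Nat.card C₂ ≠ 0 := by positivity
    refine (Nat.factorization_le_iff_dvd (by omega) hne).1 fun s => ?_
    by_cases hs : s.Prime ∧ s ∣ phi6 m
    · rw [Nat.factorization_mul (by omega) (by omega), Finsupp.add_apply]
      rcases hcov s hs.1 hs.2 with h | h
      · rw [hC₁.fact_eq c hs.1 h]; omega
      · rw [hC₂.fact_eq c hs.1 h]; omega
    · push Not at hs
      by_cases hp : s.Prime
      · rw [Nat.factorization_eq_zero_of_not_dvd (hs hp)]; omega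
      · rw [Nat.factorization_eq_zero_of_not_prime _ hp]; omega
  have hsumX : Nat.card {g // Cov C₁ g} + Nat.card {g // Cov C₂ g} = X := by
    rw [hSX, hcard, hcard, ← Finset.card_union_of_disjoint (hdisj _ _ hC₁ hC₂ hco)]
    congr 1
    refine Finset.Subset.antisymm (Finset.union_subset (hVS _ hC₁) (hVS _ hC₂)) fun g hg => ?_
    rw [Finset.mem_filter] at hg
    rw [Finset.mem_union, Finset.mem_filter, Finset.mem_filter]
    obtain ⟨k, hk⟩ := hclass _ (exists_singer c hg.2.1 hg.2.2)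
    rcases hk with hk | hk
    · exact Or.inl ⟨hg.1, hg.2.2, k, (hk g).1 (mem_cz.2 rfl)⟩
    · exact Or.inr ⟨hg.1, hg.2.2, k, (hk g).1 (mem_cz.2 rfl)⟩
  have hc12 : Nat.card C₁ + Nat.card C₂ = sa m + sb m := by
    rw [hsum]
    obtain ⟨a, ha⟩ : ∃ a, Nat.card C₁ = a + 1 := ⟨Nat.card C₁ - 1, by omega⟩
    obtain ⟨b, hb⟩ : ∃ b, Nat.card C₂ = b + 1 := ⟨Nat.card C₂ - 1, by omega⟩
    rw [← hprod, ← hsumX] at hX
    rw [ha, hb] at hX ⊢
    rw [ha, Nat.add_sub_cancel] at hX₁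
    rw [hb, Nat.add_sub_cancel] at hX₂
    refine Nat.eq_of_mul_eq_mul_right hGpos ?_
    nlinarith
  have hroot : (Nat.card C₁ = sa m ∧ Nat.card C₂ = sb m) ∨ (Nat.card C₁ = sb m ∧ Nat.card C₂ = sa m) := by
    rw [← hab] at hprod
    have h : ((Nat.card C₁ : ℤ) - sa m) * ((Nat.card C₁ : ℤ) - sb m) = 0 := by
      have h1 : (Nat.card C₁ : ℤ) * Nat.card C₂ = (sa m : ℤ) * sb m := by exact_mod_cast hprod
      have h2 : (Nat.card C₁ : ℤ) + Nat.card C₂ = (sa m : ℤ) + sb m := by exact_mod_cast hc12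
      linear_combination (Nat.card C₁ : ℤ) * h2 - h1
    rcases mul_eq_zero.1 h with h | h
    · left; omega
    · right; omega
  rcases hroot with ⟨h1, h2⟩ | ⟨h1, h2⟩
  · exact ⟨C₁, C₂, hC₁, hC₂, h1, h2, h1 ▸ hN₁, h2 ▸ hN₂, hclass⟩
  · exact ⟨C₂, C₁, hC₂, hC₁, h2, h1, h2 ▸ hN₂, h1 ▸ hN₁, fun C hC => (hclass C hC).imp fun g h => h.symm⟩

theorem sab_coprime : Nat.Coprime (sa m) (sb m) := by
  obtain ⟨-, -, hsum, -, -⟩ := sab_facts c
  refine Nat.coprime_of_dvd fun s hs h1 h2 => ?_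
  have h := dvd_add h1 h2
  rw [hsum] at h
  obtain ⟨h5, -, -, hnp, -⟩ := phi6_arith c hs (h1.trans ⟨sb m, (sab_facts c).2.1.symm⟩)
  rcases hs.dvd_mul.1 h with h | h
  · have := Nat.le_of_dvd two_pos h; omega
  · exact hnp h

/-- The torus of a given order, and the count of elements of its orders. -/
theorem count_singer {d : ℕ} (hd : d = sa m ∨ d = sb m) {i : ℕ} (hi : 1 < i) (hid : i ∣ d) :
    Nat.card {g : GR K m // orderOf g = i} * (6 * d) = i.totient * Nat.card (GR K m) := by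
  classical
  obtain ⟨A, B, hA, hB, hcA, hcB, hnA, hnB, hcl⟩ := exists_two c
  obtain ⟨T, hT, hcT, hnT, hother⟩ : ∃ T : Subgroup (GR K m), IsSinger T ∧ Nat.card T = d ∧
      Nat.card (Subgroup.normalizer (T : Set (GR K m))) = 6 * d ∧
      ∀ C : Subgroup (GR K m), IsSinger C → (∃ g, ∀ y, y ∈ C ↔ g * y * g⁻¹ ∈ T) ∨ Nat.Coprime (Nat.card C) d := by
    have hcard : ∀ {C D : Subgroup (GR K m)} {g : GR K m}, (∀ y, y ∈ C ↔ g * y * g⁻¹ ∈ D) →
        Nat.card C = Nat.card D := fun {C D g} h => Nat.card_congr ((MulAut.conj g).toEquiv.subtypeEquiv h)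
    rcases hd with rfl | rfl
    · refine ⟨A, hA, hcA, hnA, fun C hC => ?_⟩
      obtain ⟨g, h | h⟩ := hcl C hC
      · exact Or.inl ⟨g, h⟩
      · exact Or.inr (by rw [hcard h, hcB]; exact (sab_coprime c).symm)
    · refine ⟨B, hB, hcB, hnB, fun C hC => ?_⟩
      obtain ⟨g, h | h⟩ := hcl C hC
      · exact Or.inr (by rw [hcard h, hcA]; exact sab_coprime c)
      · exact Or.inl ⟨g, h⟩
  have h := count_ti c (T := T) (fun z hz hzz => hT.cz_eq c hz (fun e => hzz (by rw [e, one_mul])))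
    (fun g => orderOf g = i) (fun g x hx => by rw [orderOf_conj]; exact hx)
    (fun x hx h => by
      have h2 : orderOf x ∣ 2 := orderOf_dvd_of_pow_eq_one (by rw [pow_two]; exact h)
      rw [hx] at h2
      have := coprime_six c (hid.trans (hcT ▸ hT.card_dvd c))
      rw [(Nat.prime_dvd_prime_iff_eq ?_ Nat.prime_two).1 h2] at this
      · norm_num at this
      · rcases (Nat.dvd_prime Nat.prime_two).1 h2 with e | e
        · omega
        · rw [e]; exact Nat.prime_two)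
    (fun x hx => by
      have hx1 : x ≠ 1 := fun e => by rw [e, orderOf_one] at hx; omega
      have hC := exists_singer c (g := x) (hx ▸ hid.trans (hcT ▸ hT.card_dvd c)) hx1
      rcases hother _ hC with ⟨g, hg⟩ | hco
      · exact ⟨g, (hg x).1 (mem_cz.2 rfl)⟩
      · exfalso
        have h1 := Subgroup.orderOf_dvd_natCard _ (show x ∈ cz x from mem_cz.2 rfl)
        rw [hx] at h1
        exact absurd (Nat.dvd_one.1 (hco ▸ Nat.dvd_gcd h1 hid)) (by omega))
  rw [hnT] at h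
  rw [h]
  congr 1
  haveI := hT.cyclic c
  haveI := Fintype.ofFinite T
  rw [Nat.card_congr (Equiv.subtypeEquivRight fun z => by rw [Subgroup.orderOf_coe]),
    Nat.card_eq_fintype_card, Fintype.card_subtype]
  exact IsCyclic.card_orderOf_eq_totient (by rw [← Nat.card_eq_fintype_card, hcT]; exact hid)

end Cfsg.Agent.Lib.ReeTwoTori
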